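import Mathlib
import Cfsg.Agent.GFour25.Basic
import Cfsg.Agent.Recog.Icosahedral

/-! A two-elementary module of `A₅` on which elements of order three act without fixed points:
the irreducible ones are the natural module of `SL(2,4)`. -/

set_option autoImplicit false

namespace Cfsg.Agent.SpecFive.Natural

open Equiv Cfsg.Agent.Recog Cfsg.Agent.GFour25

/-- The ambient group. -/
abbrev A5 := ↥(alternatingGroup (Fin 5))

/-- An involution, `altX * altY`. -/
def tEl : A5 := ⟨swap 1 2 * swap 3 4, Perm.mem_alternatingGroup.mpr (by decide)⟩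

/-- An element of order three normalising the four-group containing `tEl`. -/
def wEl : A5 := ⟨swap 2 3 * swap 3 4, Perm.mem_alternatingGroup.mpr (by decide)⟩

/-- An involution inverting `wEl`. -/
def uEl : A5 := ⟨swap 0 1 * swap 3 4, Perm.mem_alternatingGroup.mpr (by decide)⟩

/-- The conjugates of `tEl` under `wEl`. -/
def t2El : A5 := wEl * tEl * wEl⁻¹

theorem rels : tEl = Icosahedral.altX * Icosahedral.altY ∧ tEl * tEl = 1 ∧ uEl * uEl = 1 ∧
    wEl ^ 3 = 1 ∧ wEl ≠ 1 ∧ uEl * wEl = wEl * wEl * uEl ∧ wEl * uEl = uEl * (wEl * wEl) ∧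
    (tEl * uEl) ^ 3 = 1 ∧ tEl * uEl ≠ 1 ∧
    (tEl * (uEl * tEl * uEl)) ^ 3 = 1 ∧ tEl * (uEl * tEl * uEl) ≠ 1 := by
  decide +kernel

theorem rels_four : (wEl * tEl) ^ 3 = 1 ∧ wEl * tEl ≠ 1 ∧
    (wEl * tEl) * (wEl * tEl) = wEl * wEl * t2El ∧
    (wEl * t2El) ^ 3 = 1 ∧ wEl * t2El ≠ 1 ∧
    (wEl * t2El) * (wEl * t2El) = wEl * wEl * (tEl * t2El) ∧
    (wEl * (tEl * t2El)) ^ 3 = 1 ∧ wEl * (tEl * t2El) ≠ 1 ∧
    (wEl * (tEl * t2El)) * (wEl * (tEl * t2El)) = wEl * wEl * tEl ∧
    tEl * wEl = wEl * (tEl * t2El) ∧ tEl * t2El = t2El * tEl ∧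
    Icosahedral.altX = wEl * tEl * wEl * uEl ∧ Icosahedral.altY = uEl * tEl * wEl := by
  decide +kernel

theorem generated {H : Subgroup A5} (hw : wEl ∈ H) (ht : tEl ∈ H) (hu : uEl ∈ H) : H = ⊤ := by
  refine top_le_iff.mp ?_
  rw [← Icosahedral.alt_closure, Subgroup.closure_le]
  obtain ⟨-, -, -, -, -, -, -, -, -, -, -, hX, hY⟩ := rels_four
  rintro x (rfl | rfl)
  · rw [hX]; exact mul_mem (mul_mem (mul_mem hw ht) hw) hu
  · rw [hY]; exact mul_mem (mul_mem hu ht) hw

theorem card_SL : Nat.card (Matrix.SpecialLinearGroup (Fin 2) F4) = 60 := by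
  rw [Nat.card_eq_fintype_card]
  decide +kernel

/-- The scalar `ω`. -/
def om : F4 := ⟨false, true⟩

/-- `diag(ω, ω²)`. -/
def wMat : Matrix.SpecialLinearGroup (Fin 2) F4 := ⟨!![om, 0; 0, om * om], by decide⟩

/-- The swap. -/
def uMat : Matrix.SpecialLinearGroup (Fin 2) F4 := ⟨!![0, 1; 1, 0], by decide⟩

/-- The transvection. -/
def tMat : Matrix.SpecialLinearGroup (Fin 2) F4 := ⟨!![1, 1; 0, 1], by decide⟩

variable {V : Type*} [AddCommGroup V] {ρ : A5 →* AddMonoid.End V}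

theorem act_mul (a b : A5) (v : V) : ρ (a * b) v = ρ a (ρ b v) := by rw [map_mul]; rfl

theorem act_one (v : V) : ρ 1 v = v := by rw [map_one]; rfl

theorem neg_eq (two : ∀ v : V, v + v = 0) (v : V) : -v = v := neg_eq_of_add_eq_zero_left (two v)

theorem eq_of_add_eq_zero (two : ∀ v : V, v + v = 0) {a b : V} (h : a + b = 0) : a = b := by
  rw [eq_neg_of_add_eq_zero_left h, neg_eq two]

/-- A fixed point free element of order three satisfies `1 + a + a² = 0`. -/
theorem triple (h3 : ∀ a : A5, a ^ 3 = 1 → a ≠ 1 → ∀ v, ρ a v = v → v = 0) {a : A5}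
    (ha : a ^ 3 = 1) (ha1 : a ≠ 1) (v : V) : v + ρ a v + ρ (a * a) v = 0 := by
  refine h3 a ha ha1 _ ?_
  have e : a * (a * a) = 1 := by rw [← pow_three, ha]
  rw [map_add, map_add, ← act_mul, ← act_mul, e, act_one]
  abel

theorem four_sum (two : ∀ v : V, v + v = 0)
    (h3 : ∀ a : A5, a ^ 3 = 1 → a ≠ 1 → ∀ v, ρ a v = v → v = 0) (v : V) :
    v + ρ tEl v + ρ t2El v + ρ (tEl * t2El) v = 0 := by
  obtain ⟨-, -, -, hw3, hw1, -⟩ := rels
  obtain ⟨a3, a1, a2, b3, b1, b2, c3, c1, c2, -⟩ := rels_four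
  have e0 := triple h3 hw3 hw1 v
  have ea := triple h3 a3 a1 v
  have eb := triple h3 b3 b1 v
  have ec := triple h3 c3 c1 v
  rw [a2] at ea; rw [b2] at eb; rw [c2] at ec
  simp only [act_mul] at e0 ea eb ec
  rw [act_mul]
  set S := v + ρ tEl v + ρ t2El v + ρ tEl (ρ t2El v) with hS
  have hsum : ρ wEl S + ρ wEl (ρ wEl S) = 0 := by
    calc ρ wEl S + ρ wEl (ρ wEl S)
        = (v + v + (v + v)) + (ρ wEl S + ρ wEl (ρ wEl S)) := by rw [two, zero_add]
      _ = (v + ρ wEl v + ρ wEl (ρ wEl v)) + (v + ρ wEl (ρ tEl v) + ρ wEl (ρ wEl (ρ t2El v))) +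
          (v + ρ wEl (ρ t2El v) + ρ wEl (ρ wEl (ρ tEl (ρ t2El v)))) +
          (v + ρ wEl (ρ tEl (ρ t2El v)) + ρ wEl (ρ wEl (ρ tEl v))) := by
        simp only [hS, map_add]; abel
      _ = 0 := by rw [e0, ea, eb, ec]; simp
  have e := triple h3 hw3 hw1 S
  rwa [act_mul, add_assoc, hsum, add_zero] at e

variable [Finite V]

/-- The fixed points of the involution are the image of `1 + t`. -/
theorem fixed_eq_image (two : ∀ v : V, v + v = 0)
    (h3 : ∀ a : A5, a ^ 3 = 1 → a ≠ 1 → ∀ v, ρ a v = v → v = 0) {x : V} (hx : ρ tEl x = x) :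
    ∃ m, x = m + ρ tEl m := by
  obtain ⟨-, htt, huu, -, -, -, -, -, -, h33, h31⟩ := rels
  let T : V →+ V := AddMonoidHom.id V + (show V →+ V from ρ tEl)
  have hTker : ∀ z, z ∈ T.ker ↔ ρ tEl z = z := fun z => by
    show z + ρ tEl z = 0 ↔ _
    exact ⟨fun h => (eq_of_add_eq_zero two h).symm, fun h => by rw [h, two]⟩
  have hle : T.range ≤ T.ker := by
    rintro z ⟨m, rfl⟩
    rw [hTker]
    show ρ tEl (m + ρ tEl m) = m + ρ tEl m
    rw [map_add, ← act_mul, htt, act_one, add_comm]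
  -- the fixed points meet their translate under `u` trivially
  let P : T.ker × T.ker → V := fun p => (p.1 : V) + ρ uEl (p.2 : V)
  have hP : Function.Injective P := by
    rintro ⟨a, b⟩ ⟨a', b'⟩ e
    have e' : (a : V) - a' = ρ uEl ((b' : V) - b) := by
      rw [map_sub, sub_eq_sub_iff_add_eq_add]
      exact e.trans (add_comm _ _)
    have hb : (b' : V) - b = 0 := by
      have hd : ρ tEl ((b' : V) - b) = (b' : V) - b := by
        rw [map_sub, (hTker _).mp b.2, (hTker _).mp b'.2]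
      have hd' : ρ tEl (ρ uEl ((b' : V) - b)) = ρ uEl ((b' : V) - b) := by
        rw [← e', map_sub, (hTker _).mp a.2, (hTker _).mp a'.2]
      refine h3 _ h33 h31 _ ?_
      rw [act_mul, act_mul, act_mul, hd', ← act_mul uEl uEl, huu, act_one, hd]
    rw [hb, map_zero, sub_eq_zero] at e'
    rw [sub_eq_zero] at hb
    exact Prod.ext (Subtype.ext e') (Subtype.ext hb.symm)
  have h1 := Nat.card_le_card_of_injective P hP
  rw [Nat.card_prod, AddSubgroup.card_eq_card_quotient_mul_card_addSubgroup T.ker,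
    Nat.card_congr (QuotientAddGroup.quotientKerEquivRange T).toEquiv] at h1
  have h2 := Nat.le_of_mul_le_mul_right h1 Nat.card_pos
  have heq := AddSubgroup.eq_of_le_of_card_ge hle h2
  obtain ⟨m, hm⟩ : x ∈ T.range := by rw [heq]; exact (hTker x).mpr hx
  exact ⟨m, hm.symm⟩

theorem fixed_t2 (two : ∀ v : V, v + v = 0)
    (h3 : ∀ a : A5, a ^ 3 = 1 → a ≠ 1 → ∀ v, ρ a v = v → v = 0) {x : V} (hx : ρ tEl x = x) :
    ρ t2El x = x := by
  obtain ⟨m, rfl⟩ := fixed_eq_image two h3 hx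
  obtain ⟨-, -, -, -, -, -, -, -, -, -, hc, -⟩ := rels_four
  have hs := four_sum two h3 m
  refine (eq_of_add_eq_zero two ?_).symm
  rw [map_add, ← act_mul t2El tEl, ← hc, ← hs]
  abel

/-- The module is the natural one. -/
theorem exists_natural [Nontrivial V] (two : ∀ v : V, v + v = 0)
    (h3 : ∀ a : A5, a ^ 3 = 1 → a ≠ 1 → ∀ v, ρ a v = v → v = 0)
    (hirr : ∀ S : AddSubgroup V, (∀ a, ∀ x ∈ S, ρ a x ∈ S) → S = ⊥ ∨ S = ⊤) :
    ∃ (Φ : (Fin 2 → F4) ≃+ V) (r : A5 →* Matrix.SpecialLinearGroup (Fin 2) F4),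
      Function.Bijective r ∧
      ∀ a c, ρ a (Φ c) = Φ ((r a : Matrix (Fin 2) (Fin 2) F4).mulVec c) := by
  obtain ⟨-, htt, huu, hw3, hw1, huw, hwu, htu3, htu1, h33, h31⟩ := rels
  obtain ⟨-, -, -, -, -, -, -, -, -, htw, -⟩ := rels_four
  -- a non-zero fixed point
  obtain ⟨v, hv0, hv⟩ : ∃ v : V, v ≠ 0 ∧ ρ tEl v = v := by
    obtain ⟨m, hm⟩ := exists_ne (0 : V)
    by_cases h : ρ tEl m = m
    · exact ⟨m, hm, h⟩
    · refine ⟨m + ρ tEl m, fun e => h (eq_of_add_eq_zero two e).symm, ?_⟩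
      rw [map_add, ← act_mul, htt, act_one, add_comm]
  have hwv : ρ tEl (ρ wEl v) = ρ wEl v := by
    rw [← act_mul, htw, act_mul, act_mul, fixed_t2 two h3 hv, hv]
  have hw2v : ρ wEl (ρ wEl v) = v + ρ wEl v := by
    have e := triple h3 hw3 hw1 v
    rw [act_mul] at e
    exact (eq_of_add_eq_zero two e).symm
  have hv' : ρ wEl v ≠ 0 := by
    intro e
    rw [e, map_zero, add_zero] at hw2v
    exact hv0 hw2v.symm
  have hv'' : v + ρ wEl v ≠ 0 := fun e => hv0 (h3 _ hw3 hw1 v (eq_of_add_eq_zero two e).symm)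
  -- the line through `v`
  let e0 : F4 → V := fun x => (if x.re then v else 0) + (if x.im then ρ wEl v else 0)
  let e : F4 →+ V :=
    { toFun := e0
      map_zero' := by simp [e0, show (0 : F4).re = false from rfl, show (0 : F4).im = false from rfl]
      map_add' := by
        rintro ⟨a, b⟩ ⟨c, d⟩
        show e0 ⟨xor a c, xor b d⟩ = e0 ⟨a, b⟩ + e0 ⟨c, d⟩
        cases a <;> cases b <;> cases c <;> cases d <;> simp [e0] <;>
          (try abel_nf) <;> (try simp [two_zsmul, two_nsmul, two, neg_eq two]) }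
  have he0 : ∀ x, e x = 0 → x = 0 := by
    rintro ⟨a, b⟩ h
    change e0 ⟨a, b⟩ = 0 at h
    cases a <;> cases b <;> simp [e0] at h
    · rfl
    · exact absurd h hv'
    · exact absurd h hv0
    · exact absurd h hv''
  have het : ∀ x, ρ tEl (e x) = e x := by
    rintro ⟨a, b⟩
    show ρ tEl (e0 ⟨a, b⟩) = e0 ⟨a, b⟩
    cases a <;> cases b <;> simp [e0, hv, hwv]
  have hom : ∀ x, ρ wEl (e x) = e (om * x) := by
    rintro ⟨a, b⟩
    show ρ wEl (e0 ⟨a, b⟩) = e0 (om * ⟨a, b⟩)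
    cases a <;> cases b
    · rw [show om * (⟨false, false⟩ : F4) = ⟨false, false⟩ by decide]; simp [e0]
    · rw [show om * (⟨false, true⟩ : F4) = ⟨true, true⟩ by decide]; simp [e0, hw2v]
    · rw [show om * (⟨true, false⟩ : F4) = ⟨false, true⟩ by decide]; simp [e0]
    · rw [show om * (⟨true, true⟩ : F4) = ⟨true, false⟩ by decide]
      simp [e0, hw2v, ← add_assoc, add_comm (ρ wEl v) v]
      rw [add_assoc, two, add_zero]
  have hut : ∀ x, ρ tEl (ρ uEl (e x)) = e x + ρ uEl (e x) := by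
    intro x
    set y := ρ tEl (ρ uEl (e x)) + ρ uEl (e x) with hy
    have hyt : ρ tEl y = y := by
      rw [hy, map_add, ← act_mul, htt, act_one, add_comm]
    have h := triple h3 htu3 htu1 (e x)
    simp only [act_mul] at h
    have htp : ρ tEl (ρ uEl (e x)) = ρ uEl (e x) + y := by
      rw [hy, add_comm (ρ uEl (e x)), add_assoc, two, add_zero]
    have hp : ρ tEl (ρ uEl (ρ tEl (ρ uEl (e x)))) = e x + ρ tEl (ρ uEl y) := by
      rw [htp, map_add, map_add, ← act_mul uEl uEl, huu, act_one, het]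
    have h' : ρ tEl (ρ uEl (e x)) + ρ tEl (ρ uEl y) = 0 := by
      rw [hp] at h
      calc ρ tEl (ρ uEl (e x)) + ρ tEl (ρ uEl y)
          = (e x + e x) + (ρ tEl (ρ uEl (e x)) + ρ tEl (ρ uEl y)) := by rw [two, zero_add]
        _ = e x + ρ tEl (ρ uEl (e x)) + (e x + ρ tEl (ρ uEl y)) := by abel
        _ = 0 := h
    have h'' := congrArg (ρ tEl) (eq_of_add_eq_zero two h')
    rw [← act_mul, htt, act_one, ← act_mul tEl tEl, htt, act_one] at h''
    have h3' := congrArg (ρ uEl) h''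
    rw [← act_mul, huu, act_one, ← act_mul uEl uEl, huu, act_one] at h3'
    rw [htp, ← h3', add_comm]
  -- the candidate isomorphism
  let Φ : (Fin 2 → F4) →+ V :=
    { toFun := fun c => e (c 0) + ρ uEl (e (c 1))
      map_zero' := by simp
      map_add' := fun c c' => by simp only [Pi.add_apply, map_add]; abel }
  have hΦa : ∀ c, Φ c = e (c 0) + ρ uEl (e (c 1)) := fun c => rfl
  have hinj : Function.Injective Φ := by
    rw [injective_iff_map_eq_zero]
    intro c hc
    rw [hΦa] at hc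
    have h0 := eq_of_add_eq_zero two hc
    have h1 : e (c 1) = 0 := by
      refine h3 _ h33 h31 _ ?_
      rw [act_mul, act_mul, act_mul, ← h0, het, h0, ← act_mul uEl uEl, huu, act_one, het]
    rw [h1, map_zero] at h0
    ext i
    fin_cases i
    · exact he0 _ h0
    · exact he0 _ h1
  let H : Subgroup A5 :=
    { carrier := {a | ∃ M : Matrix.SpecialLinearGroup (Fin 2) F4,
        ∀ c, ρ a (Φ c) = Φ ((M : Matrix (Fin 2) (Fin 2) F4).mulVec c)}
      one_mem' := ⟨1, fun c => by rw [act_one, Matrix.SpecialLinearGroup.coe_one, Matrix.one_mulVec]⟩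
      mul_mem' := by
        rintro a b ⟨M, hM⟩ ⟨M', hM'⟩
        exact ⟨M * M', fun c => by
          rw [act_mul, hM', hM, Matrix.SpecialLinearGroup.coe_mul, Matrix.mulVec_mulVec]⟩
      inv_mem' := by
        rintro a ⟨M, hM⟩
        refine ⟨M⁻¹, fun c => ?_⟩
        have h := hM ((↑M⁻¹ : Matrix (Fin 2) (Fin 2) F4).mulVec c)
        rw [Matrix.mulVec_mulVec, ← Matrix.SpecialLinearGroup.coe_mul, mul_inv_cancel,
          Matrix.SpecialLinearGroup.coe_one, Matrix.one_mulVec] at h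
        rw [← h, ← act_mul, inv_mul_cancel, act_one] }
  have hHtop : H = ⊤ := by
    refine generated ⟨wMat, fun c => ?_⟩ ⟨tMat, fun c => ?_⟩ ⟨uMat, fun c => ?_⟩
    · have e1 : ((wMat : Matrix (Fin 2) (Fin 2) F4).mulVec c) 0 = om * c 0 := by
        simp [wMat, Matrix.mulVec, dotProduct, Fin.sum_univ_two]
      have e2 : ((wMat : Matrix (Fin 2) (Fin 2) F4).mulVec c) 1 = om * (om * c 1) := by
        simp [wMat, Matrix.mulVec, dotProduct, Fin.sum_univ_two, mul_assoc]
      rw [hΦa, hΦa, e1, e2, map_add, hom, ← act_mul, hwu, act_mul, act_mul, hom, hom]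
    · have e1 : ((tMat : Matrix (Fin 2) (Fin 2) F4).mulVec c) 0 = c 0 + c 1 := by
        simp [tMat, Matrix.mulVec, dotProduct, Fin.sum_univ_two]
      have e2 : ((tMat : Matrix (Fin 2) (Fin 2) F4).mulVec c) 1 = c 1 := by
        simp [tMat, Matrix.mulVec, dotProduct, Fin.sum_univ_two]
      rw [hΦa, hΦa, e1, e2, map_add, hut, het, map_add]
      abel
    · have e1 : ((uMat : Matrix (Fin 2) (Fin 2) F4).mulVec c) 0 = c 1 := by
        simp [uMat, Matrix.mulVec, dotProduct, Fin.sum_univ_two]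
      have e2 : ((uMat : Matrix (Fin 2) (Fin 2) F4).mulVec c) 1 = c 0 := by
        simp [uMat, Matrix.mulVec, dotProduct, Fin.sum_univ_two]
      rw [hΦa, hΦa, e1, e2, map_add, ← act_mul uEl uEl, huu, act_one, add_comm]
  have hall : ∀ a, ∃ M : Matrix.SpecialLinearGroup (Fin 2) F4,
      ∀ c, ρ a (Φ c) = Φ ((M : Matrix (Fin 2) (Fin 2) F4).mulVec c) := fun a => by
    have : a ∈ H := hHtop ▸ Subgroup.mem_top a
    exact this
  choose r hr using hall
  have huniq : ∀ M M' : Matrix.SpecialLinearGroup (Fin 2) F4,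
      (∀ c, Φ ((M : Matrix (Fin 2) (Fin 2) F4).mulVec c) =
        Φ ((M' : Matrix (Fin 2) (Fin 2) F4).mulVec c)) → M = M' := fun M M' h =>
    Subtype.ext (Matrix.ext_of_mulVec_single fun i => hinj (h _))
  let R : A5 →* Matrix.SpecialLinearGroup (Fin 2) F4 :=
    MonoidHom.mk' r fun a b => huniq _ _ fun c => by
      rw [← hr, act_mul, hr, hr, Matrix.SpecialLinearGroup.coe_mul, Matrix.mulVec_mulVec]
  have hRinj : Function.Injective R := by
    rw [← MonoidHom.ker_eq_bot_iff]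
    haveI : IsSimpleGroup A5 := alternatingGroup.isSimpleGroup (by simp)
    rcases (inferInstance : R.ker.Normal).eq_bot_or_eq_top with h | h
    · exact h
    · exfalso
      have hr1 : r tEl = 1 := by
        have : tEl ∈ R.ker := h ▸ Subgroup.mem_top _
        exact this
      have h1 := hr tEl ![0, 1]
      rw [hr1, Matrix.SpecialLinearGroup.coe_one, Matrix.one_mulVec, hΦa] at h1
      simp only [Matrix.cons_val_zero, Matrix.cons_val_one, map_zero, zero_add] at h1
      rw [hut, add_eq_right] at h1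
      exact absurd (he0 1 h1) (by decide)
  have hRbij : Function.Bijective R :=
    (Nat.bijective_iff_injective_and_card R).mpr ⟨hRinj, by
      rw [card_SL, nat_card_alternatingGroup, Nat.card_eq_fintype_card, Fintype.card_fin]; rfl⟩
  have hsur : Function.Surjective Φ := by
    rcases hirr Φ.range (by rintro a x ⟨c, rfl⟩; exact ⟨_, (hr a c).symm⟩) with h | h
    · exfalso
      have : Φ ![1, 0] ∈ Φ.range := ⟨_, rfl⟩
      rw [h, AddSubgroup.mem_bot] at this
      have e1 := congrFun (hinj (this.trans (map_zero Φ).symm)) 0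
      simp at e1
    · exact AddMonoidHom.range_eq_top.mp h
  exact ⟨AddEquiv.ofBijective Φ ⟨hinj, hsur⟩, R, hRbij, fun a c => hr a c⟩

end Cfsg.Agent.SpecFive.Natural
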