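import Mathlib
import Cfsg.Agent.SpecFive.Basic
import Cfsg.Agent.SpecFive.Natural

/-! Extensions of a two-elementary group by `A₅` with element orders at most five:
a non-split part produces an element of order four; the irreducible ones are the affine group. -/

set_option autoImplicit false

namespace Cfsg.Agent.SpecFive

universe u

open Natural Cfsg.Agent.Recog Cfsg.Agent.GFour25 Matrix

variable {G : Type u} [Group G] [Finite G]

theorem order_of_map {H : Type*} [Group H] (h : Bound G) (f : G →* H) {g : G} {p : ℕ}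
    (hp : p = 3 ∨ p = 5) (hg : orderOf (f g) = p) : orderOf g = p := by
  have h1 := orderOf_map_dvd f g
  rw [hg] at h1
  obtain ⟨c, hc⟩ := h1
  have h2 := orderOf_pos g
  have h3 := h g
  rcases Nat.lt_or_ge c 2 with hlt | hge
  · interval_cases c
    · rw [Nat.mul_zero] at hc; omega
    · simpa using hc
  · rcases hp with rfl | rfl <;> omega

theorem alt_five_no_four : ∀ a : A5, a ^ 4 = 1 → a ^ 2 = 1 := by decide +kernel

/-- An extension of a non-trivial two-elementary group by `A₅` has an element of order four. -/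
theorem Bound.exists_order_four (h : Bound G) {N : Subgroup G} [hN : N.Normal]
    (hab : ∀ a ∈ N, ∀ b ∈ N, Commute a b) (hexp : ∀ a ∈ N, a ^ 2 = 1) (hne : N ≠ ⊥)
    (q : G →* A5) (hq : Function.Surjective q) (hker : q.ker = N) : ∃ g : G, orderOf g = 4 := by
  by_contra hno
  push Not at hno
  obtain ⟨-, htt, -⟩ := rels
  have ht1 : tEl ≠ 1 := by decide
  obtain ⟨g, hg⟩ := hq tEl
  have hsq : ∀ x : G, q x = tEl → x * x = 1 := by
    intro x hx
    have hxN : x * x ∈ N := by
      rw [← hker, MonoidHom.mem_ker, map_mul, hx, htt]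
    by_contra hx2
    refine hno x (orderOf_eq_prime_pow (p := 2) (n := 1) ?_ ?_)
    · simpa [pow_two] using hx2
    · calc x ^ 2 ^ (1 + 1) = (x * x) ^ 2 := by rw [← pow_two, ← pow_mul]; rfl
        _ = 1 := hexp _ hxN
  set C := Subgroup.centralizer (N : Set G) with hC
  have hCn : C.Normal := ⟨fun c hc x => by
    rw [hC, Subgroup.mem_centralizer_iff] at hc ⊢
    intro r hr
    have h1 := hc (x⁻¹ * r * x) (by simpa using hN.conj_mem r hr x⁻¹)
    calc r * (x * c * x⁻¹) = x * ((x⁻¹ * r * x) * c) * x⁻¹ := by group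
      _ = x * (c * (x⁻¹ * r * x)) * x⁻¹ := by rw [h1]
      _ = x * c * x⁻¹ * r := by group⟩
  have hgC : g ∈ C := by
    rw [hC, Subgroup.mem_centralizer_iff]
    intro r hr
    have hr2 : r * r = 1 := by rw [← pow_two]; exact hexp r hr
    have hrk : q r = 1 := by rwa [← MonoidHom.mem_ker, hker]
    have h1 := hsq (g * r) (by rw [map_mul, hrk, mul_one, hg])
    have h2 := hsq g hg
    calc r * g = r * g * (g * r * (g * r)) := by rw [h1, mul_one]
      _ = r * (g * g) * r * g * r := by group
      _ = g * r := by rw [h2, mul_one, hr2, one_mul]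
  have hCmap : C.map q = ⊤ := by
    haveI := hCn
    haveI : IsSimpleGroup A5 := alternatingGroup.isSimpleGroup (by simp)
    rcases (Subgroup.Normal.map hCn q hq).eq_bot_or_eq_top with e | e
    · exfalso
      have : q g ∈ C.map q := Subgroup.mem_map_of_mem q hgC
      rw [e, Subgroup.mem_bot, hg] at this
      exact ht1 this
    · exact e
  obtain ⟨x, hx⟩ := hq Icosahedral.altY
  have hxC : x ∈ C := by
    obtain ⟨c, hcC, hc⟩ : q x ∈ C.map q := hCmap ▸ Subgroup.mem_top _
    have h1 : c⁻¹ * x ∈ N := by rw [← hker, MonoidHom.mem_ker, map_mul, map_inv, hc, inv_mul_cancel]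
    have h2 : c⁻¹ * x ∈ C := by
      rw [hC, Subgroup.mem_centralizer_iff]
      exact fun r hr => hab r hr _ h1
    simpa using mul_mem hcC h2
  have hx5 : orderOf x = 5 := by
    haveI : Fact (Nat.Prime 5) := ⟨by norm_num⟩
    refine order_of_map h q (Or.inr rfl) ?_
    rw [hx]
    exact orderOf_eq_prime Icosahedral.alt_rel.2.1 (by decide)
  obtain ⟨r, hr, hr1⟩ : ∃ r ∈ N, r ≠ 1 := by
    by_contra hh
    push Not at hh
    exact hne ((Subgroup.eq_bot_iff_forall N).mpr hh)
  refine h.not_commute_primes (x := r) (orderOf_eq_prime (hexp r hr) hr1) hx5 Nat.prime_two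
    (by norm_num) (by norm_num) ?_
  exact Subgroup.mem_centralizer_iff.mp hxC r hr

/-- The embedding of `F² ⋊ SL(2,F)` as `3 × 3` matrices. -/
def affMat (M : Matrix.SpecialLinearGroup (Fin 2) F4) (c : Fin 2 → F4) :
    Matrix.SpecialLinearGroup (Fin 3) F4 :=
  ⟨!![(M : Matrix (Fin 2) (Fin 2) F4) 0 0, (M : Matrix (Fin 2) (Fin 2) F4) 0 1, c 0;
      (M : Matrix (Fin 2) (Fin 2) F4) 1 0, (M : Matrix (Fin 2) (Fin 2) F4) 1 1, c 1;
      0, 0, 1], by
    have h := M.2
    rw [Matrix.det_fin_two] at h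
    rw [Matrix.det_fin_three]
    simp
    linear_combination h⟩

theorem affMat_mul (M M' : Matrix.SpecialLinearGroup (Fin 2) F4) (c c' : Fin 2 → F4) :
    affMat M c * affMat M' c' = affMat (M * M') (c + (M : Matrix (Fin 2) (Fin 2) F4) *ᵥ c') := by
  refine Subtype.ext ?_
  rw [Matrix.SpecialLinearGroup.coe_mul]
  ext i j
  fin_cases i <;> fin_cases j <;>
    simp [affMat, Matrix.mul_apply, Fin.sum_univ_three, Fin.sum_univ_two, Matrix.mulVec,
      dotProduct] <;> ring

theorem affMat_inj {M M' : Matrix.SpecialLinearGroup (Fin 2) F4} {c c' : Fin 2 → F4}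
    (h : affMat M c = affMat M' c') : M = M' ∧ c = c' := by
  have e := fun i j => congrFun (congrFun (congrArg Subtype.val h) i) j
  have e00 := e 0 0; have e01 := e 0 1; have e02 := e 0 2
  have e10 := e 1 0; have e11 := e 1 1; have e12 := e 1 2
  simp [affMat] at e00 e01 e02 e10 e11 e12
  refine ⟨Subtype.ext ?_, funext fun i => ?_⟩
  · ext i j; fin_cases i <;> fin_cases j <;> assumption
  · fin_cases i <;> assumption

theorem affMat_one : affMat 1 0 = 1 := by
  refine Subtype.ext ?_
  rw [Matrix.SpecialLinearGroup.coe_one]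
  ext i j
  fin_cases i <;> fin_cases j <;> simp [affMat]

/-- The set of affine matrices. -/
def affSet : Set (Matrix.SpecialLinearGroup (Fin 3) F4) :=
  {M | (M : Matrix (Fin 3) (Fin 3) F4) 2 0 = 0 ∧ (M : Matrix (Fin 3) (Fin 3) F4) 2 1 = 0 ∧
    (M : Matrix (Fin 3) (Fin 3) F4) 2 2 = 1}

theorem exists_affMat {A : Matrix.SpecialLinearGroup (Fin 3) F4} (hA : A ∈ affSet) :
    ∃ M c, affMat M c = A := by
  obtain ⟨h0, h1, h2⟩ := hA
  have h := A.2
  rw [Matrix.det_fin_three, h0, h1, h2] at h
  refine ⟨⟨!![(A : Matrix (Fin 3) (Fin 3) F4) 0 0, (A : Matrix (Fin 3) (Fin 3) F4) 0 1;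
    (A : Matrix (Fin 3) (Fin 3) F4) 1 0, (A : Matrix (Fin 3) (Fin 3) F4) 1 1], by
      rw [Matrix.det_fin_two]; simp; linear_combination h⟩,
    ![(A : Matrix (Fin 3) (Fin 3) F4) 0 2, (A : Matrix (Fin 3) (Fin 3) F4) 1 2], Subtype.ext ?_⟩
  ext i j
  fin_cases i <;> fin_cases j <;> simp [affMat, h0, h1, h2]

/-- The affine group. -/
theorem Bound.affine (h : Bound G) {N : Subgroup G} [hN : N.Normal]
    (hab : ∀ a ∈ N, ∀ b ∈ N, Commute a b) (hexp : ∀ a ∈ N, a ^ 2 = 1) (hne : N ≠ ⊥)
    (q : G →* A5) (hq : Function.Surjective q) (hker : q.ker = N)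
    (hmin : ∀ W : Subgroup G, W.Normal → W ≤ N → W = ⊥ ∨ W = N) :
    Nonempty (G ≃* ↥(Subgroup.closure affSet)) := by
  haveI : Fact (Nat.Prime 2) := ⟨Nat.prime_two⟩
  haveI : Fact (Nat.Prime 3) := ⟨by norm_num⟩
  haveI : Fact (Nat.Prime 5) := ⟨by norm_num⟩
  letI : CommGroup N := { (inferInstance : Group N) with
    mul_comm := fun a b => Subtype.ext (hab a a.2 b b.2) }
  haveI : Nontrivial N := (Subgroup.nontrivial_iff_ne_bot N).mpr hne
  obtain ⟨sec, hsec⟩ : ∃ sec : A5 → G, ∀ a, q (sec a) = a := hq.hasRightInverse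
  have hq1 : ∀ r ∈ N, q r = 1 := fun r hr => by rwa [← MonoidHom.mem_ker, hker]
  have hmemN : ∀ r, q r = 1 → r ∈ N := fun r hr => by rwa [← hker, MonoidHom.mem_ker]
  -- the action on the module
  let σ : G →* MulAut N := MulAut.conjNormal
  have hσN : N ≤ σ.ker := fun r hr => by
    rw [MonoidHom.mem_ker]
    refine MulEquiv.ext fun a => Subtype.ext ?_
    rw [MulAut.conjNormal_apply]
    rw [(hab r hr a a.2).eq, mul_inv_cancel_right]
    rfl
  have hσq : ∀ x y : G, q x = q y → σ x = σ y := fun x y e => by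
    have h1 : σ (x⁻¹ * y) = 1 := hσN (hmemN _ (by rw [map_mul, map_inv, e, inv_mul_cancel]))
    rw [map_mul, map_inv, inv_mul_eq_one] at h1
    exact h1
  let ρ : A5 →* AddMonoid.End (Additive N) :=
    { toFun := fun a => MonoidHom.toAdditive (σ (sec a)).toMonoidHom
      map_one' := by
        rw [hσq (sec 1) 1 (by rw [hsec, map_one]), map_one]
        rfl
      map_mul' := fun a b => by
        rw [hσq (sec (a * b)) (sec a * sec b) (by rw [map_mul, hsec, hsec, hsec]), map_mul]
        rfl }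
  have hρ : ∀ (x : G) (a : A5), q x = a → ∀ v : Additive N,
      ((ρ a v).toMul : G) = x * (v.toMul : G) * x⁻¹ := fun x a e v => by
    show ((σ (sec a) v.toMul : N) : G) = _
    rw [hσq (sec a) x (by rw [hsec, e]), MulAut.conjNormal_apply]
  have two : ∀ v : Additive N, v + v = 0 := fun v => by
    apply Additive.toMul.injective
    refine Subtype.ext ?_
    show (v.toMul : G) * (v.toMul : G) = 1
    rw [← pow_two]; exact hexp _ v.toMul.2
  have h3 : ∀ a : A5, a ^ 3 = 1 → a ≠ 1 → ∀ v, ρ a v = v → v = 0 := by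
    intro a ha ha1 v hv
    obtain ⟨x, hx⟩ := hq a
    have hx3 : orderOf x = 3 := order_of_map h q (Or.inl rfl) (by rw [hx]; exact orderOf_eq_prime ha ha1)
    by_contra hv0
    have e := hρ x a hx v
    rw [hv, eq_mul_inv_iff_mul_eq] at e
    refine h.not_commute_primes (x := (v.toMul : G)) (orderOf_eq_prime (hexp _ v.toMul.2) ?_) hx3
      Nat.prime_two (by norm_num) (by norm_num) e
    exact fun e1 => hv0 (Additive.toMul.injective (Subtype.ext e1))
  have hirr : ∀ S : AddSubgroup (Additive N), (∀ a, ∀ x ∈ S, ρ a x ∈ S) → S = ⊥ ∨ S = ⊤ := by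
    intro S hS
    let S' : Subgroup G := (AddSubgroup.toSubgroup' S).map N.subtype
    have hn : S'.Normal := ⟨by
      rintro _ ⟨s, hs, rfl⟩ x
      refine ⟨(ρ (q x) (Additive.ofMul s)).toMul, hS (q x) _ hs, ?_⟩
      exact hρ x (q x) rfl (Additive.ofMul s)⟩
    rcases hmin S' hn (by rintro _ ⟨s, -, rfl⟩; exact s.2) with e | e
    · left
      rw [AddSubgroup.eq_bot_iff_forall]
      intro v hv
      have : (v.toMul : G) ∈ S' := ⟨v.toMul, hv, rfl⟩
      rw [e, Subgroup.mem_bot] at this
      exact Additive.toMul.injective (Subtype.ext this)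
    · right
      rw [AddSubgroup.eq_top_iff']
      intro v
      obtain ⟨s, hs, hse⟩ : (v.toMul : G) ∈ S' := e.symm ▸ v.toMul.2
      have h' : v = Additive.ofMul s := Additive.toMul.injective (Subtype.ext hse.symm)
      rw [h']
      exact hs
  obtain ⟨Φ, r, hr, hΦ⟩ := exists_natural two h3 hirr
  -- an involution above `tEl`
  obtain ⟨-, htt, -⟩ := rels
  obtain ⟨g, hg⟩ := hq tEl
  have hggN : g * g ∈ N := hmemN _ (by rw [map_mul, hg, htt])
  obtain ⟨m, hm⟩ := fixed_eq_image two h3 (x := Additive.ofMul (⟨g * g, hggN⟩ : N)) (by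
    apply Additive.toMul.injective
    refine Subtype.ext ?_
    rw [hρ g tEl hg]
    show g * (g * g) * g⁻¹ = g * g
    group)
  have hm' : g * g = (m.toMul : G) * (g * (m.toMul : G) * g⁻¹) := by
    rw [← hρ g tEl hg]
    exact congrArg (fun z : Additive N => (z.toMul : G)) hm
  set c : G := g * (m.toMul : G) with hc
  have hc2 : c * c = 1 := by
    have hgm : g * (m.toMul : G) * g⁻¹ ∈ N := hN.conj_mem _ m.toMul.2 g
    calc c * c = (g * (m.toMul : G) * g⁻¹) * (g * g) * (m.toMul : G) := by rw [hc]; group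
      _ = ((g * (m.toMul : G) * g⁻¹) * (m.toMul : G)) * ((g * (m.toMul : G) * g⁻¹) * (m.toMul : G))
          := by rw [hm', hc]; group
      _ = 1 := by rw [← pow_two]; exact hexp _ (mul_mem hgm m.toMul.2)
  have hqc : q c = tEl := by rw [hc, map_mul, hq1 _ m.toMul.2, mul_one, hg]
  obtain ⟨b, hb⟩ := hq Icosahedral.altY
  have hb5 : orderOf b = 5 := order_of_map h q (Or.inr rfl)
    (by rw [hb]; exact orderOf_eq_prime Icosahedral.alt_rel.2.1 (by decide))
  have hqa : q (c * b⁻¹) = Icosahedral.altX := by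
    rw [map_mul, map_inv, hqc, hb, rels.1, mul_inv_cancel_right]
  have ha3 : orderOf (c * b⁻¹) = 3 := order_of_map h q (Or.inl rfl)
    (by rw [hqa]; exact orderOf_eq_prime Icosahedral.alt_rel.1 (by decide))
  -- the complement
  let K : Subgroup G := Subgroup.closure {c * b⁻¹, b}
  have haK : c * b⁻¹ ∈ K := Subgroup.subset_closure (Set.mem_insert _ _)
  have hbK : b ∈ K := Subgroup.subset_closure (Set.mem_insert_of_mem _ rfl)
  let qK : K →* A5 := q.comp K.subtype
  have hKgen : Subgroup.closure {(⟨c * b⁻¹, haK⟩ : K), ⟨b, hbK⟩} = ⊤ := by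
    refine Subgroup.map_injective K.subtype_injective ?_
    rw [MonoidHom.map_closure, ← MonoidHom.range_eq_map, Subgroup.range_subtype, Set.image_pair]
    rfl
  have hKcard : Nat.card K ≤ 60 := by
    refine (Icosahedral.card_le (z := (1 : K)) (k := 1) hKgen ?_ ?_ ?_ (one_mem _) one_pos
      (one_pow 1)).2
    · exact Subtype.ext (by rw [Subgroup.coe_pow, ← ha3]; exact pow_orderOf_eq_one _)
    · exact Subtype.ext (by rw [Subgroup.coe_pow, ← hb5]; exact pow_orderOf_eq_one _)
    · refine Subtype.ext ?_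
      show (c * b⁻¹ * b) ^ 2 = 1
      rw [inv_mul_cancel_right, pow_two, hc2]
  have hKsur : Function.Surjective qK := by
    rw [← MonoidHom.range_eq_top, ← top_le_iff, ← Icosahedral.alt_closure, Subgroup.closure_le]
    rintro x (rfl | rfl)
    · exact ⟨⟨_, haK⟩, hqa⟩
    · exact ⟨⟨_, hbK⟩, hb⟩
  have hKbij : Function.Bijective qK := hKsur.bijective_of_nat_card_le (by
    rw [nat_card_alternatingGroup, Nat.card_eq_fintype_card (α := Fin 5), Fintype.card_fin]
    exact hKcard.trans (by decide))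
  let e := MulEquiv.ofBijective qK hKbij
  let s : A5 →* G := K.subtype.comp e.symm.toMonoidHom
  have hs : ∀ a, q (s a) = a := fun a => e.apply_symm_apply a
  -- the coordinates
  let n : G → N := fun x => ⟨x * (s (q x))⁻¹, hmemN _ (by rw [map_mul, map_inv, hs, mul_inv_cancel])⟩
  let co : G → (Fin 2 → F4) := fun x => Φ.symm (Additive.ofMul (n x))
  have hco : ∀ x, Φ (co x) = Additive.ofMul (n x) := fun x => Φ.apply_symm_apply _
  let f : G →* Matrix.SpecialLinearGroup (Fin 3) F4 :=
    MonoidHom.mk' (fun x => affMat (r (q x)) (co x)) fun x y => by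
      show affMat (r (q (x * y))) (co (x * y)) = affMat (r (q x)) (co x) * affMat (r (q y)) (co y)
      rw [affMat_mul, map_mul, map_mul]
      congr 1
      apply Φ.injective
      rw [map_add, ← hΦ, hco, hco, hco]
      apply Additive.toMul.injective
      refine Subtype.ext ?_
      rw [toMul_add, Subgroup.coe_mul, hρ (s (q x)) (q x) (hs _)]
      show x * y * (s (q (x * y)))⁻¹ =
        x * (s (q x))⁻¹ * (s (q x) * (y * (s (q y))⁻¹) * (s (q x))⁻¹)
      rw [map_mul, map_mul]
      group
  have hfinj : Function.Injective f := by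
    rw [injective_iff_map_eq_one]
    intro x hx
    have hx' : affMat (r (q x)) (co x) = affMat 1 0 := hx.trans affMat_one.symm
    obtain ⟨h1, h2⟩ := affMat_inj hx'
    have hqx : q x = 1 := hr.1 (h1.trans (map_one r).symm)
    have h4 := hco x
    rw [h2, map_zero] at h4
    have h5 : (n x : G) = 1 := congrArg (fun z : Additive N => (z.toMul : G)) h4.symm
    simpa [n, hqx] using h5
  have hrange : f.range = Subgroup.closure affSet := by
    refine le_antisymm ?_ ((Subgroup.closure_le _).mpr ?_)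
    · rintro _ ⟨x, rfl⟩
      exact Subgroup.subset_closure ⟨rfl, rfl, rfl⟩
    · intro A hA
      obtain ⟨M, v, rfl⟩ := exists_affMat hA
      obtain ⟨a, rfl⟩ := hr.2 M
      refine ⟨((Φ v).toMul : G) * s a, ?_⟩
      have hqx : q (((Φ v).toMul : G) * s a) = a := by
        rw [map_mul, hq1 _ (Φ v).toMul.2, one_mul, hs]
      show affMat (r (q _)) (co _) = _
      rw [hqx]
      congr 1
      apply Φ.injective
      rw [hco]
      apply Additive.toMul.injective
      refine Subtype.ext ?_
      show ((Φ v).toMul : G) * s a * (s (q (((Φ v).toMul : G) * s a)))⁻¹ = _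
      rw [hqx, mul_inv_cancel_right]
  exact ⟨(MonoidHom.ofInjective hfinj).trans (MulEquiv.subgroupCongr hrange)⟩

end Cfsg.Agent.SpecFive
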