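import Cfsg.Agent.SpecFive.Index
import Cfsg.Agent.S0494
import Cfsg.Prelude.Def_Transfer

/-!
# The structure of groups with element orders at most five and three prime divisors
-/

set_option autoImplicit false
set_option linter.unusedSectionVars false
set_option linter.style.haveILetI false

namespace Cfsg.Agent.SpecFive

open Subgroup
open scoped Classical commutatorElement

universe u

variable {G : Type u} [Group G] [Finite G]

/-- Elements of order three or five acting on a normal `2`-subgroup fix nothing. -/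
theorem Bound.eq_one_of_commute_two (h : Bound G) {N : Subgroup G} (hN : IsPGroup 2 N) {x r : G}
    {p : ℕ} (hp : p = 3 ∨ p = 5) (hx : orderOf x = p) (hr : r ∈ N) (hc : Commute r x) : r = 1 := by
  obtain ⟨i, hi⟩ := hN ⟨r, hr⟩
  have hi' : r ^ 2 ^ i = 1 := congrArg Subtype.val hi
  have h2 := h.pow_eq_one_of_commute hp (x := x) (y := r)
    (fun e => by rw [e, orderOf_one] at hx; omega) (by rw [← hx, pow_orderOf_eq_one]) hc.symm
  exact orderOf_eq_one_iff.mp (Nat.Coprime.eq_one_of_dvd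
    ((show Nat.Coprime p (2 ^ i) from Nat.Coprime.pow_right i (by
      rcases hp with rfl | rfl <;> decide)).coprime_dvd_left (orderOf_dvd_of_pow_eq_one h2))
    (orderOf_dvd_of_pow_eq_one hi'))

theorem order_of_image (h : Bound G) (N : Subgroup G) [N.Normal] {g : G} {p : ℕ}
    (hp : p = 3 ∨ p = 5) (hg : orderOf (QuotientGroup.mk' N g) = p) : orderOf g = p := by
  have h1 := orderOf_map_dvd (QuotientGroup.mk' N) g
  rw [hg] at h1
  have h2 := Nat.le_of_dvd (orderOf_pos g) h1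
  have h3 := h g
  obtain ⟨c, hc⟩ := h1
  rcases Nat.lt_or_ge c 2 with hlt | hge
  · interval_cases c
    · have := orderOf_pos g; rw [Nat.mul_zero] at hc; omega
    · simpa using hc
  · rcases hp with rfl | rfl <;> omega

/-- An involution inverting an element of order five, both outside the `2`-group `N`. -/
theorem Bound.exists_dihedral (h : Bound G) {N : Subgroup G} [N.Normal] (hN : IsPGroup 2 N)
    (hs : IsSimpleGroup (G ⧸ N)) (hc : ¬ IsMulCommutative (G ⧸ N))
    (hcard : Nat.card (G ⧸ N) = 60) :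
    ∃ y u : G, orderOf y = 5 ∧ orderOf u = 2 ∧ u * y * u = y⁻¹ ∧
      ∀ j : ℕ, y ^ j * u * (y ^ j)⁻¹ ∉ N := by
  haveI : Fact (Nat.Prime 2) := ⟨Nat.prime_two⟩
  haveI : Fact (Nat.Prime 3) := ⟨by norm_num⟩
  haveI : Fact (Nat.Prime 5) := ⟨by norm_num⟩
  set π := QuotientGroup.mk' N
  have hB := h.quotient N
  obtain ⟨P3⟩ : Nonempty (Sylow 3 (G ⧸ N)) := inferInstance
  obtain ⟨Q⟩ : Nonempty (Sylow 5 (G ⧸ N)) := inferInstance
  obtain ⟨-, -, hQ, heQ⟩ := sixty_facts hB hs hc hcard P3 Q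
  obtain ⟨t, ht⟩ := exists_prime_orderOf_dvd_card' 2
    ((dvd_of_eq heQ.symm).trans (Dvd.intro _ (card_normalizer_sylow Q).symm))
  obtain ⟨yb, hyb⟩ := exists_prime_orderOf_dvd_card' (G := (Q : Subgroup (G ⧸ N))) 5 (dvd_of_eq hQ.symm)
  rw [← Subgroup.orderOf_coe] at ht hyb
  have hinv := hB.inverts (Or.inr rfl) Q ht t.2 _ yb.2
  obtain ⟨y, hyim⟩ := QuotientGroup.mk'_surjective N (yb : G ⧸ N)
  obtain ⟨g, hgim⟩ := QuotientGroup.mk'_surjective N (t : G ⧸ N)
  have hy : orderOf y = 5 := order_of_image h N (Or.inr rfl) (by rw [hyim, hyb])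
  change π y = _ at hyim
  change π g = _ at hgim
  -- a Sylow five-subgroup of the preimage
  set H : Subgroup G := (zpowers (yb : G ⧸ N)).comap π with hH
  have hyH : y ∈ H := mem_comap.mpr (by rw [hyim]; exact mem_zpowers _)
  have hgyH : g * y * g⁻¹ ∈ H := mem_comap.mpr (by
    rw [map_mul, map_mul, map_inv, hgim, hyim, inv_eq_of_mul_eq_one_right (show (t : G ⧸ N) * t = 1 by
      rw [← pow_two, ← ht, pow_orderOf_eq_one]), hinv]
    exact inv_mem (mem_zpowers _))
  have hgy : orderOf (g * y * g⁻¹) = 5 := by rw [← MulAut.conj_apply, MulEquiv.orderOf_eq, hy]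
  have hp1 : IsPGroup 5 (zpowers (⟨y, hyH⟩ : H)) :=
    IsPGroup.of_card (n := 1) (by rw [Nat.card_zpowers, Subgroup.orderOf_mk, hy, pow_one])
  have hp2 : IsPGroup 5 (zpowers (⟨g * y * g⁻¹, hgyH⟩ : H)) :=
    IsPGroup.of_card (n := 1) (by rw [Nat.card_zpowers, Subgroup.orderOf_mk, hgy, pow_one])
  obtain ⟨R₁, hR₁⟩ := hp1.exists_le_sylow
  obtain ⟨R₂, hR₂⟩ := hp2.exists_le_sylow
  have hR₁eq : (R₁ : Subgroup H) = zpowers (⟨y, hyH⟩ : H) := by
    refine (Subgroup.eq_of_le_of_card_ge hR₁ ?_).symm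
    rw [Nat.card_zpowers, Subgroup.orderOf_mk, hy]
    -- the map to the quotient is injective on five-groups
    let f : (R₁ : Subgroup H) →* zpowers (yb : G ⧸ N) :=
      { toFun := fun z => ⟨π ((z : H) : G), mem_comap.mp (z : H).2⟩
        map_one' := Subtype.ext (by simp)
        map_mul' := fun a b => Subtype.ext (by simp) }
    refine le_trans (Nat.card_le_card_of_injective f ?_) (le_of_eq (by rw [Nat.card_zpowers, hyb]))
    rw [injective_iff_map_eq_one]
    intro z hz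
    have hzN : ((z : H) : G) ∈ N := (QuotientGroup.eq_one_iff _).mp (congrArg Subtype.val hz)
    obtain ⟨i, hi⟩ := R₁.2 z
    obtain ⟨j, hj⟩ := hN ⟨_, hzN⟩
    refine Subtype.ext (Subtype.ext (orderOf_eq_one_iff.mp (Nat.Coprime.eq_one_of_dvd
      ((show Nat.Coprime (5 ^ i) (2 ^ j) from Nat.Coprime.pow i j (by decide)).coprime_dvd_left
        (orderOf_dvd_of_pow_eq_one (by simpa using congrArg (fun w : (R₁ : Subgroup H) => ((w : H) : G)) hi)))
      (orderOf_dvd_of_pow_eq_one (by simpa using congrArg Subtype.val hj)))))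
  obtain ⟨k, hk⟩ := MulAction.exists_smul_eq H R₂ R₁
  have hmem : MulAut.conj k (⟨g * y * g⁻¹, hgyH⟩ : H) ∈ (R₁ : Subgroup H) := by
    rw [← hk]
    exact Subgroup.smul_mem_pointwise_smul _ (MulAut.conj k) _ (hR₂ (mem_zpowers _))
  rw [hR₁eq] at hmem
  obtain ⟨i, hi⟩ := mem_zpowers_iff.mp hmem
  set u : G := (k : G) * g
  have hui : u * y * u⁻¹ = y ^ i := by
    have h1 := congrArg Subtype.val hi
    simp only [Subgroup.coe_zpow, MulAut.conj_apply, Subgroup.coe_mul, Subgroup.coe_inv] at h1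
    rw [h1]
    simp only [u]
    group
  have hkz : π (k : G) ∈ zpowers (yb : G ⧸ N) := mem_comap.mp k.2
  have htt : (t : G ⧸ N) * t = 1 := by rw [← pow_two, ← ht, pow_orderOf_eq_one]
  have hπu : π u * (yb : G ⧸ N) * (π u)⁻¹ = (yb : G ⧸ N)⁻¹ := by
    obtain ⟨l, hl⟩ := mem_zpowers_iff.mp hkz
    simp only [u, map_mul, hgim, mul_inv_rev, ← hl]
    rw [show (yb : G ⧸ N) ^ l * t * (yb : G ⧸ N) * ((t : G ⧸ N)⁻¹ * ((yb : G ⧸ N) ^ l)⁻¹) =
      (yb : G ⧸ N) ^ l * ((t : G ⧸ N) * yb * (t : G ⧸ N)⁻¹) * ((yb : G ⧸ N) ^ l)⁻¹ by group,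
      inv_eq_of_mul_eq_one_right htt, hinv]
    group
  have hdvd : (5 : ℤ) ∣ i + 1 := by
    rw [show (5 : ℤ) = ((5 : ℕ) : ℤ) from rfl, ← hyb]
    refine orderOf_dvd_iff_zpow_eq_one.mpr ?_
    have h1 := congrArg π hui
    rw [map_mul, map_mul, map_inv, map_zpow, hyim, hπu] at h1
    rw [zpow_add_one, ← h1, inv_mul_cancel]
  have hy5 : y ^ (i + 1) = 1 := by
    rw [show (5 : ℤ) = ((5 : ℕ) : ℤ) from rfl, ← hy] at hdvd
    exact orderOf_dvd_iff_zpow_eq_one.mp hdvd
  have huy : u * y * u⁻¹ = y⁻¹ := by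
    rw [hui]; rw [zpow_add_one] at hy5; exact eq_inv_of_mul_eq_one_left hy5
  have hπt : orderOf (π u) = 2 := by
    obtain ⟨l, hl⟩ := mem_zpowers_iff.mp hkz
    have h1 : π u = (yb : G ⧸ N) ^ l * t := by simp only [u, map_mul, hgim, ← hl]
    refine orderOf_eq_prime ?_ ?_
    · rw [h1, pow_two]
      have h2 := congrArg (fun z => z ^ l) hinv
      simp only [inv_zpow] at h2
      have h3 : (t : G ⧸ N) * (yb : G ⧸ N) ^ l * t = ((yb : G ⧸ N) ^ l)⁻¹ := by
        rw [← h2]
        have := (conj_zpow (i := l) (a := (t : G ⧸ N)) (b := (yb : G ⧸ N))).symm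
        rwa [inv_eq_of_mul_eq_one_right htt] at this
      calc (yb : G ⧸ N) ^ l * t * ((yb : G ⧸ N) ^ l * t)
          = (yb : G ⧸ N) ^ l * ((t : G ⧸ N) * (yb : G ⧸ N) ^ l * t) := by group
        _ = 1 := by rw [h3, mul_inv_cancel]
    · intro e
      rw [e, one_mul, inv_one, mul_one] at hπu
      have h2 : (yb : G ⧸ N) ^ 2 = 1 := by rw [pow_two]; nth_rw 2 [hπu]; exact mul_inv_cancel _
      have h3 := orderOf_dvd_of_pow_eq_one h2
      rw [hyb] at h3
      norm_num at h3
  have hu2 : orderOf u = 2 := by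
    have h1 := orderOf_map_dvd π u
    rw [hπt] at h1
    have h3 := h u
    have := orderOf_pos u
    rcases h.order_cases u with e | e | e | e | e
    · omega
    · exact e
    · omega
    · exfalso
      have hc2 : Commute (u ^ 2) y := by
        show u ^ 2 * y = y * u ^ 2
        rw [← mul_inv_eq_iff_eq_mul, pow_two, mul_inv_rev]
        calc u * u * y * (u⁻¹ * u⁻¹) = u * (u * y * u⁻¹) * u⁻¹ := by group
          _ = u * y⁻¹ * u⁻¹ := by rw [huy]
          _ = (u * y * u⁻¹)⁻¹ := by group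
          _ = y := by rw [huy, inv_inv]
      refine h.not_commute_primes (x := u ^ 2) (p := 2) ?_ hy Nat.prime_two (by norm_num)
        (by norm_num) hc2
      rw [orderOf_pow, e]; rfl
    · omega
  refine ⟨y, u, hy, hu2, ?_, fun j hj => ?_⟩
  · rwa [inv_eq_of_mul_eq_one_right (show u * u = 1 by rw [← pow_two, ← hu2, pow_orderOf_eq_one])]
      at huy
  · have h1 : π u = 1 := by
      have : π (y ^ j * u * (y ^ j)⁻¹) = 1 := (QuotientGroup.eq_one_iff _).mpr hj
      rw [map_mul, map_mul, map_inv, conj_eq_one_iff] at this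
      exact this
    rw [h1, orderOf_one] at hπt
    omega

/-- An abelian normal subgroup in a `2`-group under `A5` has exponent two. -/
theorem Bound.exponent_two (h : Bound G) {N : Subgroup G} [N.Normal] (hN : IsPGroup 2 N)
    (hs : IsSimpleGroup (G ⧸ N)) (hc : ¬ IsMulCommutative (G ⧸ N))
    (hcard : Nat.card (G ⧸ N) = 60) {V : Subgroup G} (hV : V.Normal) (hVN : V ≤ N)
    (hVc : ∀ a ∈ V, ∀ b ∈ V, Commute a b) : ∀ r ∈ V, r ^ 2 = 1 := by
  intro r hr
  obtain ⟨y, u, hy, hu, huy, hnot⟩ := h.exists_dihedral hN hs hc hcard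
  letI : CommGroup V :=
    { (inferInstance : Group V) with mul_comm := fun a b => Subtype.ext (hVc a a.2 b b.2) }
  let φ : G →* MulAut V := MulAut.conjNormal
  have hφ : ∀ (g : G) (a : V), ((φ g a : V) : G) = g * a * g⁻¹ := fun g a => MulAut.conjNormal_apply g a
  have huu : u * u = 1 := by rw [← pow_two, ← hu, pow_orderOf_eq_one]
  let q : ℕ → V := fun j => (⟨r, hr⟩ : V) * φ (y ^ j * u * (y ^ j)⁻¹) ⟨r, hr⟩
  have hq : ∀ j, q j ^ 2 = 1 := by
    intro j
    set T := y ^ j * u * (y ^ j)⁻¹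
    have hTT : T * T = 1 := by
      simp only [T]
      calc y ^ j * u * (y ^ j)⁻¹ * (y ^ j * u * (y ^ j)⁻¹) = y ^ j * (u * u) * (y ^ j)⁻¹ := by group
        _ = 1 := by rw [huu]; group
    set z := r * T
    have hz4 : z ^ 4 = 1 := by
      refine orderOf_dvd_iff_pow_eq_one.mp ?_
      set π := QuotientGroup.mk' N
      have h2 : orderOf (π z) = 2 := by
        have e : π z = π T := by
          rw [map_mul, show π r = 1 from (QuotientGroup.eq_one_iff r).mpr (hVN hr), one_mul]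
        rw [e]
        refine orderOf_eq_prime (by rw [← map_pow, pow_two, hTT, map_one]) fun e1 => hnot j ?_
        exact (QuotientGroup.eq_one_iff _).mp e1
      have h1 := orderOf_map_dvd π z
      rw [h2] at h1
      have := h z
      have := orderOf_pos z
      rcases h.order_cases z with e | e | e | e | e <;> rw [e] <;> omega
    have hsq : (q j : G) = z * z := by
      show r * ((φ T ⟨r, hr⟩ : V) : G) = r * T * (r * T)
      rw [hφ, inv_eq_of_mul_eq_one_right hTT]
      group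
    refine Subtype.ext ?_
    rw [Subgroup.coe_pow, Subgroup.coe_one, hsq, ← pow_two, ← pow_mul]
    exact hz4
  have hfix : ∏ j ∈ Finset.range 5, φ (y ^ j * u * (y ^ j)⁻¹) ⟨r, hr⟩ = 1 := by
    set s := φ u ⟨r, hr⟩
    -- each conjugate is a `y`-translate
    have hrew : ∀ j : ℕ, φ (y ^ j * u * (y ^ j)⁻¹) ⟨r, hr⟩ = φ (y ^ (2 * j)) s := by
      intro j
      have e : y ^ j * u * (y ^ j)⁻¹ = y ^ (2 * j) * u := by
        have h1 : u * (y ^ j)⁻¹ * u = y ^ j := by
          have h2 := congrArg (fun z => (z ^ j)⁻¹) huy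
          simp only [inv_pow, inv_inv] at h2
          have h3 : (u * y * u) ^ j = u * y ^ j * u := by
            have := conj_pow (i := j) (a := u) (b := y)
            rwa [inv_eq_of_mul_eq_one_right huu] at this
          rw [h3, mul_inv_rev, mul_inv_rev, inv_eq_of_mul_eq_one_right huu, ← mul_assoc] at h2
          exact h2
        calc y ^ j * u * (y ^ j)⁻¹ = y ^ j * (u * (y ^ j)⁻¹ * u) * u⁻¹ := by group
          _ = y ^ (2 * j) * u := by rw [h1, inv_eq_of_mul_eq_one_right huu, ← pow_add, two_mul]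
      rw [e, map_mul]
      rfl
    simp only [hrew]
    set P := ∏ j ∈ Finset.range 5, φ (y ^ (2 * j)) s
    have hPfix : φ (y ^ 2) P = P := by
      rw [map_prod]
      have h1 := Finset.prod_range_succ' (fun j => φ (y ^ (2 * j)) s) 5
      have h2 := Finset.prod_range_succ (fun j => φ (y ^ (2 * j)) s) 5
      have h3 : φ (y ^ (2 * 5)) s = φ (y ^ (2 * 0)) s := by
        rw [mul_comm, pow_mul, show y ^ 5 = 1 by rw [← hy, pow_orderOf_eq_one], one_pow, mul_zero,
          pow_zero]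
      simp only [h3] at h2
      rw [h1] at h2
      refine Eq.trans ?_ (mul_right_cancel h2)
      refine Finset.prod_congr rfl fun j _ => ?_
      rw [← MulAut.mul_apply, ← map_mul, ← pow_add]
      congr 3
      omega
    have hc' : Commute (P : G) (y ^ 2) := by
      have h1 := congrArg Subtype.val hPfix
      rw [hφ, mul_inv_eq_iff_eq_mul] at h1
      exact h1.symm
    refine Subtype.ext (h.eq_one_of_commute_two hN (Or.inr rfl) ?_ (hVN P.2) hc')
    rw [orderOf_pow, hy]; rfl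
  have h10 : (r ^ 5) ^ 2 = 1 := by
    have h1 : ∏ j ∈ Finset.range 5, q j ^ 2 = 1 := Finset.prod_eq_one fun j _ => hq j
    rw [Finset.prod_pow, Finset.prod_mul_distrib, hfix, mul_one, Finset.prod_const,
      Finset.card_range] at h1
    simpa using congrArg Subtype.val h1
  obtain ⟨i, hi⟩ := hN ⟨r, hVN hr⟩
  have hi' : orderOf r ∣ 2 ^ i := orderOf_dvd_of_pow_eq_one (congrArg Subtype.val hi)
  rw [← pow_mul] at h10
  refine orderOf_dvd_iff_pow_eq_one.mp ?_
  have h5 : orderOf r ∣ 5 * 2 := orderOf_dvd_of_pow_eq_one h10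
  exact ((Nat.Coprime.pow_right i (show Nat.Coprime 5 2 by decide)).symm.coprime_dvd_left
    hi').dvd_of_dvd_mul_left h5

theorem alt_five_triple : ∃ a b : alternatingGroup (Fin 5), a ^ 3 = 1 ∧ a ≠ 1 ∧ b ^ 3 = 1 ∧ b ≠ 1 ∧
    (a * b) ^ 3 = 1 ∧ a * b ≠ 1 ∧ a * b ≠ b * a := by
  decide +kernel

theorem commute_conj_of_fpf {N : Subgroup G} (hN : N.Normal) {w : G} (hw : w ^ 3 = 1)
    (hfix : ∀ r ∈ N, Commute r w → r = 1) {r : G} (hr : r ∈ N) : Commute r (w * r * w⁻¹) := by
  let φ : N → N := fun x => ⟨(x : G)⁻¹ * (w * x * w⁻¹), mul_mem (inv_mem x.2) (hN.conj_mem x x.2 w)⟩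
  have hφ : Function.Injective φ := by
    intro a b e
    have e' : (a : G)⁻¹ * (w * a * w⁻¹) = (b : G)⁻¹ * (w * b * w⁻¹) := congrArg Subtype.val e
    refine Subtype.ext (mul_inv_eq_one.mp ?_).symm
    refine hfix _ (mul_mem b.2 (inv_mem a.2)) ?_
    show (b : G) * (a : G)⁻¹ * w = w * ((b : G) * (a : G)⁻¹)
    calc (b : G) * (a : G)⁻¹ * w = (b : G) * ((a : G)⁻¹ * (w * a * w⁻¹)) * (w * (a : G)⁻¹) := by group
      _ = w * ((b : G) * (a : G)⁻¹) := by rw [e']; group
  have key : ∀ z ∈ N, z * (w * z * w⁻¹) * (w * (w * z * w⁻¹) * w⁻¹) = 1 := by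
    intro z hz
    obtain ⟨x, hx⟩ := (Finite.injective_iff_bijective.mp hφ).2 ⟨z, hz⟩
    have hx' : (x : G)⁻¹ * (w * x * w⁻¹) = z := congrArg Subtype.val hx
    rw [← hx']
    calc (x : G)⁻¹ * (w * x * w⁻¹) * (w * ((x : G)⁻¹ * (w * x * w⁻¹)) * w⁻¹) *
          (w * (w * ((x : G)⁻¹ * (w * x * w⁻¹)) * w⁻¹) * w⁻¹)
        = (x : G)⁻¹ * w ^ 3 * x * (w ^ 3)⁻¹ := by simp [mul_assoc, pow_succ]
      _ = 1 := by rw [hw]; group
  have h1 := key r hr
  have h2 := key r⁻¹ (inv_mem hr)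
  set a := w * r * w⁻¹ with ha
  have e1 : w * (w * r⁻¹ * w⁻¹) * w⁻¹ = (w * a * w⁻¹)⁻¹ := by simp [ha, mul_assoc]
  have e2 : w * r⁻¹ * w⁻¹ = a⁻¹ := by rw [ha]; group
  rw [e1, e2, mul_inv_eq_one] at h2
  rw [← h2, ← mul_assoc] at h1
  -- `h1 : r * a * r⁻¹ * a⁻¹ = 1`
  rw [mul_inv_eq_one, mul_inv_eq_iff_eq_mul] at h1
  exact h1

/-- The normal `2`-subgroup under `A5` is elementary abelian. -/
theorem Bound.elementary (h : Bound G) {N : Subgroup G} [N.Normal] (hN : IsPGroup 2 N)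
    (hs : IsSimpleGroup (G ⧸ N)) (hc : ¬ IsMulCommutative (G ⧸ N))
    (hcard : Nat.card (G ⧸ N) = 60) :
    (∀ a ∈ N, ∀ b ∈ N, Commute a b) ∧ ∀ a ∈ N, a ^ 2 = 1 := by
  suffices H : ∀ (n : ℕ) (X : Type u) [Group X] [Finite X] (N : Subgroup X) [N.Normal],
      Nat.card X = n → Bound X → IsPGroup 2 N → IsSimpleGroup (X ⧸ N) →
      ¬ IsMulCommutative (X ⧸ N) → Nat.card (X ⧸ N) = 60 →
      (∀ a ∈ N, ∀ b ∈ N, Commute a b) ∧ ∀ a ∈ N, a ^ 2 = 1 from
    H _ G N rfl h hN hs hc hcard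
  intro n
  induction n using Nat.strong_induction_on with
  | _ n ih =>
  intro X _ _ N _ hn h hN hs hc hcard
  suffices hab : ∀ a ∈ N, ∀ b ∈ N, Commute a b from
    ⟨hab, h.exponent_two hN hs hc hcard inferInstance le_rfl hab⟩
  by_cases hbot : N = ⊥
  · intro a ha b hb
    rw [hbot, mem_bot] at ha
    rw [ha]; exact Commute.one_left b
  haveI : Fact (Nat.Prime 2) := ⟨Nat.prime_two⟩
  haveI : Nontrivial N := (nontrivial_iff_ne_bot N).mpr hbot
  set Z := (center N).map N.subtype with hZ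
  haveI hZn : Z.Normal := ConjAct.normal_of_characteristic_of_normal
  have hZN : Z ≤ N := map_subtype_le _
  have hZmem : ∀ {x : X}, x ∈ Z ↔ x ∈ N ∧ ∀ r ∈ N, Commute r x := by
    intro x
    constructor
    · rintro ⟨z, hz, rfl⟩
      exact ⟨z.2, fun r hr => congrArg Subtype.val (mem_center_iff.mp hz ⟨r, hr⟩)⟩
    · rintro ⟨hx, hall⟩
      exact ⟨⟨x, hx⟩, mem_center_iff.mpr fun r => Subtype.ext (hall r r.2), rfl⟩
  have hZ1 : Z ≠ ⊥ := by
    haveI := hN.center_nontrivial
    intro e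
    obtain ⟨z, hz⟩ := exists_ne (1 : center N)
    have h1 : ((z : N) : X) ∈ Z := mem_map_of_mem N.subtype z.2
    rw [e, mem_bot] at h1
    exact hz (Subtype.ext (Subtype.ext h1))
  -- the commutators of `N` are central
  set ρ := QuotientGroup.mk' Z
  haveI : (N.map ρ).Normal := Subgroup.Normal.map inferInstance ρ (QuotientGroup.mk'_surjective Z)
  let iso : (X ⧸ Z) ⧸ N.map ρ ≃* X ⧸ N := QuotientGroup.quotientQuotientEquivQuotient Z N hZN
  have hcomm : ∀ a ∈ N, ∀ b ∈ N, ⁅a, b⁆ ∈ Z := by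
    intro a ha b hb
    have hlt : Nat.card (X ⧸ Z) < n := by
      rw [← hn, Z.card_eq_card_quotient_mul_card_subgroup]
      exact lt_mul_of_one_lt_right Nat.card_pos ((one_lt_card_iff_ne_bot Z).mpr hZ1)
    haveI hs' : IsSimpleGroup ((X ⧸ Z) ⧸ N.map ρ) := by
      haveI := hs
      haveI : Nontrivial ((X ⧸ Z) ⧸ N.map ρ) := iso.toEquiv.nontrivial
      exact IsSimpleGroup.isSimpleGroup_of_surjective iso.symm.toMonoidHom iso.symm.surjective
    have hc' : ¬ IsMulCommutative ((X ⧸ Z) ⧸ N.map ρ) := fun hcc => hc ⟨⟨fun u v => by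
      have := congrArg iso (hcc.is_comm.comm (iso.symm u) (iso.symm v))
      simpa using this⟩⟩
    have h1 := (ih _ hlt (X ⧸ Z) (N.map ρ) rfl (h.quotient Z) (hN.map ρ) hs' hc'
      ((Nat.card_congr iso.toEquiv).trans hcard)).1 _ (mem_map_of_mem ρ ha) _ (mem_map_of_mem ρ hb)
    rw [← QuotientGroup.eq_one_iff (N := Z)]
    show ρ ⁅a, b⁆ = 1
    rw [map_commutatorElement]
    exact commutatorElement_eq_one_iff_mul_comm.mpr h1
  have hcen : ∀ a ∈ N, ∀ b ∈ N, ∀ z ∈ N, Commute z ⁅a, b⁆ := fun a ha b hb z hz =>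
    (hZmem.mp (hcomm a ha b hb)).2 z hz
  -- elements of order three
  obtain ⟨φ⟩ := @S0494.result (X ⧸ N) _ _ hs hcard
  obtain ⟨a', b', ha3, ha1, hb3, hb1, hab3, hab1, hne⟩ := alt_five_triple
  obtain ⟨w, hw⟩ := QuotientGroup.mk'_surjective N (φ.symm a')
  obtain ⟨w', hw'⟩ := QuotientGroup.mk'_surjective N (φ.symm b')
  haveI : Fact (Nat.Prime 3) := ⟨by norm_num⟩
  have hord : ∀ {c : alternatingGroup (Fin 5)}, c ^ 3 = 1 → c ≠ 1 → orderOf (φ.symm c) = 3 :=
    fun h3 h1 => by rw [MulEquiv.orderOf_eq]; exact orderOf_eq_prime h3 h1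
  have hwo : orderOf w = 3 := order_of_image h N (Or.inl rfl) (by rw [hw]; exact hord ha3 ha1)
  have hw'o : orderOf w' = 3 := order_of_image h N (Or.inl rfl) (by rw [hw']; exact hord hb3 hb1)
  have hA : orderOf (w * w') = 3 := order_of_image h N (Or.inl rfl) (by
    rw [map_mul, hw, hw', ← map_mul]; exact hord hab3 hab1)
  have hB : orderOf (w' * w) = 3 := by
    rw [show w' * w = w⁻¹ * (w * w') * w by group]
    have := MulEquiv.orderOf_eq (MulAut.conj w⁻¹) (w * w')
    rw [MulAut.conj_apply, inv_inv] at this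
    rw [this, hA]
  have hconj : ∀ (g : X) {r : X}, r ∈ N → g * r * g⁻¹ ∈ N := fun g r hr =>
    (inferInstance : N.Normal).conj_mem r hr g
  -- the pairing
  have hpair : ∀ g : X, orderOf g = 3 → ∀ r ∈ N, ∀ s ∈ N,
      ⁅r, g * s * g⁻¹⁆ = ⁅g * r * g⁻¹, s⁆ := by
    intro g hg r hr s hs
    have hg3 : g ^ 3 = 1 := by rw [← hg, pow_orderOf_eq_one]
    have hfix : ∀ z ∈ N, Commute z g → z = 1 := fun z hz hz' =>
      h.eq_one_of_commute_two hN (Or.inl rfl) hg hz hz'
    have c1 := commute_conj_of_fpf inferInstance hg3 hfix hr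
    have c2 := commute_conj_of_fpf inferInstance hg3 hfix hs
    have c3 := commute_conj_of_fpf inferInstance hg3 hfix (mul_mem hr hs)
    set R := g * r * g⁻¹ with hR
    set S := g * s * g⁻¹ with hS
    have hRS : g * (r * s) * g⁻¹ = R * S := by rw [hR, hS]; group
    rw [hRS] at c3
    have hRN : R ∈ N := hconj g hr
    have hSN : S ∈ N := hconj g hs
    set α := ⁅s, R⁆ with hα
    set β := ⁅r, S⁆ with hβ
    have hαc : ∀ z ∈ N, Commute z α := hcen s hs R hRN
    have hβc : ∀ z ∈ N, Commute z β := hcen r hr S hSN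
    have e1 : s * R = α * R * s := by rw [hα, commutatorElement_def]; group
    have e2 : r * S = β * S * r := by rw [hβ, commutatorElement_def]; group
    have hkey : α * β * (R * S * (r * s)) = R * S * (r * s) := by
      calc α * β * (R * S * (r * s)) = α * (β * R) * (S * r) * s := by group
        _ = α * R * (β * S * r) * s := by rw [← (hβc R hRN).eq]; group
        _ = α * (R * r) * (S * s) := by rw [← e2]; group
        _ = α * (r * R) * (s * S) := by rw [c1.eq, c2.eq]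
        _ = r * (α * R * s) * S := by
          rw [show r * (α * R * s) * S = r * α * (R * s) * S by group, (hαc r hr).eq]; group
        _ = r * s * (R * S) := by rw [← e1]; group
        _ = R * S * (r * s) := c3.eq
    have h0 : α * β = 1 := mul_eq_right.mp hkey
    rw [eq_inv_of_mul_eq_one_right h0, hα, commutatorElement_inv]
  have hAB : ∀ r ∈ N, ∀ s ∈ N,
      ⁅r, (w * w') * s * (w * w')⁻¹⁆ = ⁅r, (w' * w) * s * (w' * w)⁻¹⁆ := by
    intro r hr s hs
    rw [hpair _ hA r hr s hs,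
      show (w * w') * r * (w * w')⁻¹ = w * (w' * r * w'⁻¹) * w⁻¹ by group,
      ← hpair w hwo _ (hconj w' hr) s hs, ← hpair w' hw'o r hr _ (hconj w hs)]
    congr 1
    group
  -- a non-trivial element acting trivially modulo the centre
  set v := (w' * w) * (w * w')⁻¹ with hv
  have hvN : v ∉ N := by
    intro e
    have h1 : QuotientGroup.mk' N v = 1 := (QuotientGroup.eq_one_iff v).mpr e
    rw [hv, map_mul, map_inv, mul_inv_eq_one, map_mul, map_mul, hw, hw', ← map_mul, ← map_mul] at h1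
    exact hne (φ.symm.injective h1).symm
  have hmulc : ∀ r ∈ N, ∀ x ∈ N, ∀ z ∈ N, ⁅r, x * z⁆ = ⁅r, x⁆ * ⁅r, z⁆ := by
    intro r hr x hx z hz
    calc ⁅r, x * z⁆ = ⁅r, x⁆ * (x * ⁅r, z⁆ * x⁻¹) := by simp only [commutatorElement_def]; group
      _ = ⁅r, x⁆ * ⁅r, z⁆ := by rw [(hcen r hr z hz x hx).eq, mul_inv_cancel_right]
  let K : Subgroup X :=
    { carrier := {g | ∀ s ∈ N, s⁻¹ * (g * s * g⁻¹) ∈ Z}
      one_mem' := fun s _ => by simp
      mul_mem' := fun {g g'} hg hg' s hs => by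
        have h1 := hg _ (hconj g' hs)
        have h2 := hg' s hs
        have := mul_mem h2 h1
        convert this using 1
        group
      inv_mem' := fun {g} hg s hs => by
        have h1 := inv_mem (hg _ (hconj g⁻¹ hs))
        convert h1 using 1
        group }
  haveI hKn : K.Normal := ⟨fun g hg c s hs => by
    have h1 := hZn.conj_mem _ (hg _ (hconj c⁻¹ hs)) c
    convert h1 using 1
    group⟩
  have hNK : N ≤ K := fun g hg s hs => by
    have := hcomm s⁻¹ (inv_mem hs) g hg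
    rw [commutatorElement_def, inv_inv] at this
    simpa [mul_assoc] using this
  have hvK : v ∈ K := by
    intro s hs
    refine hZmem.mpr ⟨mul_mem (inv_mem hs) (hconj v hs), fun r hr => ?_⟩
    set s₀ := (w * w')⁻¹ * s * (w * w') with hs₀
    have hs₀N : s₀ ∈ N := by
      have := hconj (w * w')⁻¹ hs
      simpa [hs₀] using this
    have h1 := hAB r hr s₀ hs₀N
    rw [show (w * w') * s₀ * (w * w')⁻¹ = s by rw [hs₀]; group,
      show (w' * w) * s₀ * (w' * w)⁻¹ = v * s * v⁻¹ by rw [hs₀, hv]; group] at h1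
    rw [show v * s * v⁻¹ = s * (s⁻¹ * (v * s * v⁻¹)) by group,
      hmulc r hr s hs _ (mul_mem (inv_mem hs) (hconj v hs))] at h1
    exact commutatorElement_eq_one_iff_mul_comm.mp (left_eq_mul.mp h1)
  have hKtop : K = ⊤ := by
    haveI := hs
    have h1 := (hKn.map (QuotientGroup.mk' N) (QuotientGroup.mk'_surjective N)).eq_bot_or_eq_top
    rcases h1 with e | e
    · exfalso
      refine hvN ((QuotientGroup.eq_one_iff v).mp ?_)
      have := mem_map_of_mem (QuotientGroup.mk' N) hvK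
      rwa [e, mem_bot] at this
    · have h2 := congrArg (Subgroup.comap (QuotientGroup.mk' N)) e
      rwa [comap_map_eq, QuotientGroup.ker_mk', comap_top, sup_eq_left.mpr hNK] at h2
  -- so `N` equals its centre
  haveI : Fact (Nat.Prime 5) := ⟨by norm_num⟩
  obtain ⟨y, hy⟩ := exists_prime_orderOf_dvd_card' (G := X) 5
    (Dvd.dvd.trans (by rw [hcard]; norm_num : 5 ∣ Nat.card (X ⧸ N)) (Subgroup.card_quotient_dvd_card N))
  have hNZ : N ≤ Z := by
    intro r hr
    let ψ : Z → Z := fun z => ⟨(z : X)⁻¹ * (y * z * y⁻¹), mul_mem (inv_mem z.2) (hZn.conj_mem z z.2 y)⟩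
    have hinjN : ∀ a ∈ N, ∀ b ∈ N, a⁻¹ * (y * a * y⁻¹) = b⁻¹ * (y * b * y⁻¹) → a = b := by
      intro a ha b hb e
      refine (mul_inv_eq_one.mp (h.eq_one_of_commute_two hN (Or.inr rfl) hy
        (mul_mem hb (inv_mem ha)) ?_)).symm
      show b * a⁻¹ * y = y * (b * a⁻¹)
      calc b * a⁻¹ * y = b * (a⁻¹ * (y * a * y⁻¹)) * (y * a⁻¹) := by group
        _ = y * (b * a⁻¹) := by rw [e]; group
    have hψ : Function.Injective ψ := fun a b e =>
      Subtype.ext (hinjN a (hZN a.2) b (hZN b.2) (congrArg Subtype.val e))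
    have hyK : y ∈ K := hKtop ▸ mem_top y
    obtain ⟨z, hz⟩ := (Finite.injective_iff_bijective.mp hψ).2 ⟨_, hyK r hr⟩
    rw [← hinjN z (hZN z.2) r hr (congrArg Subtype.val hz)]
    exact z.2
  intro a ha b hb
  exact (hZmem.mp (hNZ hb)).2 a ha

/-- Under `A6` the normal `2`-subgroup is trivial. -/
theorem Bound.eq_bot_of_alt_six (h : Bound G) {N : Subgroup G} [N.Normal] (hN : IsPGroup 2 N)
    (hcard : 9 ∣ Nat.card (G ⧸ N)) : N = ⊥ := by
  by_contra hne
  haveI : Fact (Nat.Prime 2) := ⟨Nat.prime_two⟩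
  haveI : Fact (Nat.Prime 3) := ⟨by norm_num⟩
  obtain ⟨P, hP⟩ := Sylow.exists_subgroup_card_pow_prime (G := G) 3 (n := 2)
    (Dvd.dvd.trans (by norm_num; exact hcard) (Subgroup.card_quotient_dvd_card N))
  have hPcomm := IsPGroup.commutative_of_card_eq_prime_sq (G := P) hP
  haveI : Nontrivial P := Finite.one_lt_card_iff_nontrivial.mp (by rw [hP]; norm_num)
  obtain ⟨x, hx⟩ := exists_ne (1 : P)
  have hexp : ∀ z : P, (z : G) ^ 3 = 1 := fun z =>
    h.pow_eq_one_of_pgroup (Or.inl rfl) (IsPGroup.of_card (G := P) hP) z.2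
  have hxo : orderOf (x : G) = 3 := orderOf_eq_prime (hexp x) fun e => hx (Subtype.ext e)
  obtain ⟨z, hz⟩ : ∃ z : P, (z : G) ∉ zpowers (x : G) := by
    by_contra hc
    push Not at hc
    have h1 := Subgroup.card_le_of_le (show P ≤ zpowers (x : G) from fun z hz => hc ⟨z, hz⟩)
    rw [hP, Nat.card_zpowers, hxo] at h1
    omega
  haveI : Nontrivial N := (nontrivial_iff_ne_bot N).mpr hne
  haveI := hN.center_nontrivial
  set V := (center N).map N.subtype with hV
  haveI : V.Normal := ConjAct.normal_of_characteristic_of_normal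
  have hVc : ∀ a ∈ V, ∀ b ∈ V, Commute a b := by
    rintro _ ⟨a, ha, rfl⟩ _ ⟨b, hb, rfl⟩
    exact congrArg (Subtype.val : N → G) (mem_center_iff.mp hb a)
  obtain ⟨c, hc, hc1⟩ : ∃ c ∈ V, c ≠ (1 : G) := by
    obtain ⟨c, hc⟩ := exists_ne (1 : center N)
    exact ⟨_, mem_map_of_mem N.subtype c.2, fun e => hc (Subtype.ext (Subtype.ext e))⟩
  -- an element of order two in `V`
  obtain ⟨i, hi⟩ := IsPGroup.iff_card.mp (hN.to_le (show V ≤ N from map_subtype_le _))
  obtain ⟨e₂, he₂⟩ := exists_prime_orderOf_dvd_card' (G := V) 2 (by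
    rw [hi]
    refine dvd_pow_self 2 fun e => ?_
    rw [e, pow_zero, Subgroup.card_eq_one] at hi
    rw [hi, mem_bot] at hc
    exact hc1 hc)
  set W : Subgroup G :=
    { carrier := {v | v ∈ V ∧ v ^ 2 = 1}
      one_mem' := ⟨one_mem _, one_pow 2⟩
      mul_mem' := fun {a b} ha hb => ⟨mul_mem ha.1 hb.1, by
        rw [(hVc a ha.1 b hb.1).mul_pow, ha.2, hb.2, one_mul]⟩
      inv_mem' := fun {a} ha => ⟨inv_mem ha.1, by rw [inv_pow, ha.2, inv_one]⟩ }
  haveI : W.Normal := ⟨fun a ha g => ⟨‹V.Normal›.conj_mem a ha.1 g, by rw [conj_pow, ha.2]; simp⟩⟩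
  have hW : W ≠ ⊥ := fun e => by
    have h1 : (e₂ : G) ∈ W := ⟨e₂.2, by rw [← he₂, ← Subgroup.coe_pow, pow_orderOf_eq_one]; rfl⟩
    rw [e, mem_bot] at h1
    rw [show e₂ = 1 from Subtype.ext h1, orderOf_one] at he₂
    omega
  refine false_of_pair (V := W) (fun a ha b hb => hVc a ha.1 b hb.1) hW Nat.prime_two
    (show Nat.Prime 3 by norm_num) (by norm_num) (fun a ha => ha.2)
    (by rw [normalizer_eq_top (H := W)]; exact mem_top _)
    (by rw [normalizer_eq_top (H := W)]; exact mem_top _)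
    (congrArg Subtype.val (hPcomm x z)) (fun e => hx (Subtype.ext e)) (hexp x) (hexp z) hz
    fun a ha ha3 v hv hc => h.eq_one_of_commute_two hN (Or.inl rfl) (orderOf_eq_prime ha3 ha)
      (map_subtype_le (center N) hv.1) hc

/-- The structure theorem. -/
theorem Full.structure_five (h : Full G) :
    Nonempty (G ≃* alternatingGroup (Fin 6)) ∨
      ∃ (N : Subgroup G) (_ : N.Normal), IsElementaryAbelian 2 N ∧
        Nonempty (G ⧸ N ≃* alternatingGroup (Fin 5)) := by
  obtain ⟨N, hNn, hN, hNle, -⟩ := exists_max_normal_pgroup G 2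
  haveI := hNn
  set π := QuotientGroup.mk' N
  obtain ⟨a, hcardN⟩ := IsPGroup.iff_card.mp hN
  have hmul := N.card_mul_index
  rw [hcardN] at hmul
  have hodd : ∀ {r : ℕ}, (r = 3 ∨ r = 5) → r ∣ Nat.card G → r ∣ N.index := by
    intro r hr hd
    rw [← hmul] at hd
    refine (Nat.Coprime.pow_right a ?_).dvd_of_dvd_mul_left hd
    rcases hr with rfl | rfl <;> decide
  have hq3 : 3 ∣ Nat.card (G ⧸ N) := hodd (Or.inl rfl) h.three
  have hq5 : 5 ∣ Nat.card (G ⧸ N) := hodd (Or.inr rfl) h.five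
  have hq2 : 2 ∣ Nat.card (G ⧸ N) := by
    by_contra hnd
    refine h.bound.not_solvable h.two h.three h.five ?_
    haveI : Fact (Nat.Prime 2) := ⟨Nat.prime_two⟩
    haveI := hN.isNilpotent
    have h1 : Group.IsSolvable (G ⧸ N) := Char.solvable_of_card_eq_pow_mul_pow 3 5 (by norm_num)
      (by norm_num) _ rfl fun r hr hd => by
        rcases (h.bound.quotient N).prime_dvd hr hd with rfl | rfl | rfl
        · exact absurd hd hnd
        · exact Or.inl rfl
        · exact Or.inr rfl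
    exact Group.isSolvable_of_ker_le_range N.subtype (QuotientGroup.mk' N) (by simp)
  have hQ : Full (G ⧸ N) := ⟨h.bound.quotient N, hq2, hq3, hq5⟩
  have hcore : ∀ (r : ℕ) (V : Subgroup (G ⧸ N)), r.Prime → V.Normal → IsPGroup r V → V = ⊥ := by
    intro r V hr hV hVp
    haveI : Fact r.Prime := ⟨hr⟩
    by_cases hVd : r ∣ Nat.card (G ⧸ N)
    · rcases hQ.bound.prime_dvd hr hVd with rfl | hr35
      · rw [Subgroup.eq_bot_iff_forall]
        intro x hx
        obtain ⟨g, rfl⟩ := QuotientGroup.mk'_surjective N x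
        have hpre : IsPGroup 2 (V.comap π) :=
          hVp.comap_of_ker_isPGroup π (by rwa [QuotientGroup.ker_mk'])
        exact (QuotientGroup.eq_one_iff g).mpr (hNle _ (hV.comap π) hpre (mem_comap.mpr hx))
      · exact hQ.normal_pgroup_eq_bot hr35 hV hVp
    · obtain ⟨i, hi⟩ := IsPGroup.iff_card.mp hVp
      refine Subgroup.card_eq_one.mp ?_
      rcases Nat.eq_zero_or_pos i with rfl | h0
      · rw [hi, pow_zero]
      · exact absurd ((dvd_pow_self r h0.ne').trans (hi ▸ V.card_subgroup_dvd_card)) hVd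
  obtain ⟨M, hMn, hMs, hMc, hMcard, -⟩ := hQ.exists_simple_normal hcore
  haveI := hMn
  have hidx := hQ.bound.index_eq_one (fun V hV hVp => hcore 2 V Nat.prime_two hV hVp) hMs hMc hMcard
  have htop : M = ⊤ := Subgroup.index_eq_one.mp hidx
  subst htop
  have hs : IsSimpleGroup (G ⧸ N) := by
    haveI := hMs
    haveI : Nontrivial (G ⧸ N) := Finite.one_lt_card_iff_nontrivial.mp (by
      have := Nat.le_of_dvd Nat.card_pos hq5
      omega)
    exact IsSimpleGroup.isSimpleGroup_of_surjective (Subgroup.topEquiv (G := G ⧸ N)).toMonoidHom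
      Subgroup.topEquiv.surjective
  have hc : ¬ IsMulCommutative (G ⧸ N) := fun hcc =>
    hMc ⟨⟨fun u v => Subtype.ext (hcc.is_comm.comm u.1 v.1)⟩⟩
  rw [Subgroup.card_top] at hMcard
  haveI := hs
  rcases hMcard with e | e
  · obtain ⟨hab, hexp⟩ := h.bound.elementary hN hs hc e
    exact Or.inr ⟨N, hNn, ⟨⟨⟨fun x y => Subtype.ext (hab x x.2 y y.2)⟩⟩, hexp⟩, S0494.result e⟩
  · have hbot := h.bound.eq_bot_of_alt_six hN (by rw [e]; norm_num)
    obtain ⟨φ⟩ := S0497.result e
    exact Or.inl ⟨((QuotientGroup.quotientMulEquivOfEq hbot).trans QuotientGroup.quotientBot).symm.trans φ⟩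

end Cfsg.Agent.SpecFive
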