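import Mathlib.Data.Nat.Prime.Basic
import Mathlib.Data.Nat.Basic
import Mathlib.Data.Nat.GCD.Basic
import Mathlib.Algebra.Ring.Divisibility.Basic
import Mathlib.Data.Fintype.Basic
import Mathlib.Order.Interval.Finset.Nat
import Mathlib.Algebra.Order.Ring.Nat
import Mathlib.Tactic.IntervalCases
import Mathlib.Tactic.Linarith
import Mathlib.Tactic.LinearCombination
import Mathlib.Tactic.Ring
import Mathlib.Tactic.NormNum.Prime

/-!
# Arithmetic for simple groups with element orders at most five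
-/

set_option autoImplicit false

namespace Cfsg.Agent.SpecFive

theorem three_pow_mod_eight (j : ℕ) : 3 ^ j % 8 = if j % 2 = 0 then 1 else 3 := by
  induction j with
  | zero => rfl
  | succ j ih =>
    rw [pow_succ, Nat.mul_mod, ih]
    rcases Nat.mod_two_eq_zero_or_one j with h | h <;> simp [h, Nat.add_mod]

theorem five_pow_mod_four (j : ℕ) : 5 ^ j % 4 = 1 := by
  rw [Nat.pow_mod]; norm_num

/-- Consecutive powers of two and five. -/
theorem two_five_pairs {i j : ℕ} (hj : 0 < j) (h : 2 ^ i + 1 = 5 ^ j ∨ 5 ^ j + 1 = 2 ^ i) :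
    2 ^ i = 4 ∧ 5 ^ j = 5 := by
  have h5 : 5 ≤ 5 ^ j := Nat.le_self_pow hj.ne' 5
  rcases h with h | h
  swap
  · have h4 := five_pow_mod_four j
    have hi2 : i < 2 := by
      by_contra hc
      have hd : 2 ^ 2 ∣ 2 ^ i := pow_dvd_pow 2 (by omega)
      norm_num at hd
      omega
    interval_cases i <;> simp at h <;> omega
  have hi2 : 2 ≤ i := by
    by_contra hc
    have : i ≤ 1 := by omega
    interval_cases i <;> simp at h <;> omega
  rcases Nat.lt_or_ge i 3 with hlt | h3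
  · obtain rfl : i = 2 := by omega
    exact ⟨rfl, by simpa using h.symm⟩
  exfalso
  have h8 : 5 ^ j % 8 = 1 := by
    have hd : 2 ^ 3 ∣ 2 ^ i := pow_dvd_pow 2 h3
    norm_num at hd
    omega
  obtain ⟨k, rfl | rfl⟩ := j.even_or_odd'
  · have hfac : (5 ^ k - 1) * (5 ^ k + 1) = 2 ^ i := by
      rw [mul_comm (5 ^ k - 1), ← Nat.sq_sub_sq, one_pow, ← pow_mul, mul_comm k]
      omega
    obtain ⟨v, -, hv⟩ := (Nat.dvd_prime_pow Nat.prime_two).mp (Dvd.intro_left _ hfac)
    have h4 := five_pow_mod_four k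
    have hk : 5 ≤ 5 ^ k := Nat.le_self_pow (by omega) 5
    have hv2 : v < 2 := by
      by_contra hc
      have hd : 2 ^ 2 ∣ 2 ^ v := pow_dvd_pow 2 (by omega)
      norm_num at hd
      omega
    interval_cases v <;> simp at hv <;> omega
  · have : 5 ^ (2 * k + 1) % 8 = 5 := by
      rw [pow_succ, pow_mul, Nat.mul_mod, Nat.pow_mod]; norm_num
    omega

/-- Consecutive powers of two and three. -/
theorem two_three_pairs {i j : ℕ} (hi : 0 < i) (hj : 0 < j)
    (h : 2 ^ i + 1 = 3 ^ j ∨ 3 ^ j + 1 = 2 ^ i) :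
    2 ^ i * 3 ^ j = 6 ∨ 2 ^ i * 3 ^ j = 12 ∨ 2 ^ i * 3 ^ j = 72 := by
  have h8 := three_pow_mod_eight j
  have h3 : 3 ≤ 3 ^ j := Nat.le_self_pow hj.ne' 3
  rcases h with h | h
  swap
  · have hi3 : i ≤ 2 := by
      by_contra hc
      have hd : 2 ^ 3 ∣ 2 ^ i := pow_dvd_pow 2 (by omega)
      norm_num at hd
      split_ifs at h8 <;> omega
    interval_cases i
    · simp at h; omega
    · simp at h
      right; left; rw [show 3 ^ j = 3 by omega]; norm_num
  rcases Nat.lt_or_ge i 2 with hlt | h2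
  · obtain rfl : i = 1 := by omega
    simp at h
    left; rw [← h]; norm_num
  have h4 : 2 ^ 2 ∣ 2 ^ i := pow_dvd_pow 2 h2
  norm_num at h4
  obtain ⟨k, rfl | rfl⟩ := j.even_or_odd'
  swap
  · rw [if_neg (by omega)] at h8
    omega
  have hfac : (3 ^ k - 1) * (3 ^ k + 1) = 2 ^ i := by
    rw [mul_comm (3 ^ k - 1), ← Nat.sq_sub_sq, one_pow, ← pow_mul, mul_comm k]
    omega
  obtain ⟨u, -, hu⟩ := (Nat.dvd_prime_pow Nat.prime_two).mp (Dvd.intro _ hfac)
  obtain ⟨v, -, hv⟩ := (Nat.dvd_prime_pow Nat.prime_two).mp (Dvd.intro_left _ hfac)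
  have hk1 : 3 ≤ 3 ^ k := Nat.le_self_pow (by omega) 3
  have hu1 : u ≤ 1 := by
    by_contra hc
    have hd : 2 ^ 2 ∣ 2 ^ u := pow_dvd_pow 2 (by omega)
    norm_num at hd
    have hd' : 2 ^ 2 ∣ 2 ^ v := pow_dvd_pow 2 (by
      by_contra hc'
      have : v ≤ 1 := by omega
      interval_cases v <;> simp at hv <;> omega)
    norm_num at hd'
    omega
  have hu' : 3 ^ k = 3 := by interval_cases u <;> simp at hu <;> omega
  right; right
  rw [← hfac, pow_mul', hu']
  norm_num

/-- Two consecutive numbers greater than one made of the primes `2` and `q`. -/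
theorem consecutive_cases {s q B d D : ℕ} (hq : q.Prime) (hq2 : q ≠ 2) (hd : d ∣ s * B)
    (hD : D ∣ s * B) (hd1 : 1 < d) (hD1 : 1 < D) (hs : ∃ k, s = 2 ^ k) (hB : ∃ j, B = q ^ j)
    (hcons : D = d + 1 ∨ d = D + 1) :
    ∃ i j, 0 < i ∧ 0 < j ∧ d * D = 2 ^ i * q ^ j ∧ (2 ^ i + 1 = q ^ j ∨ q ^ j + 1 = 2 ^ i) := by
  obtain ⟨k, rfl⟩ := hs
  obtain ⟨j, rfl⟩ := hB
  have key : ∀ {m}, m ∣ 2 ^ k * q ^ j → Odd m → ∃ c, m = q ^ c := by
    intro m hm ho
    have h1 : m ∣ q ^ j :=
      (Nat.Coprime.pow_right k (Nat.coprime_two_right.mpr ho)).dvd_of_dvd_mul_left hm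
    obtain ⟨c, -, hc⟩ := (Nat.dvd_prime_pow hq).mp h1
    exact ⟨c, hc⟩
  have key2 : ∀ {m c}, m ∣ 2 ^ k * q ^ j → 0 < c → m.Coprime (q ^ c) → ∃ i, m = 2 ^ i := by
    intro m c hm hc hco
    have h1 : m ∣ 2 ^ k :=
      (((Nat.coprime_pow_right_iff hc _ _).mp hco).pow_right j).dvd_of_dvd_mul_right hm
    obtain ⟨i, -, hi⟩ := (Nat.dvd_prime_pow Nat.prime_two).mp h1
    exact ⟨i, hi⟩
  have hco : d.Coprime D := by
    rcases hcons with rfl | rfl
    · simp
    · simp
  rcases Nat.even_or_odd d with he | ho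
  · obtain ⟨c, rfl⟩ := key hD (by rcases hcons with h | h <;> grind)
    have hc : 0 < c := Nat.pos_of_ne_zero fun e => by simp [e] at hD1
    obtain ⟨i, rfl⟩ := key2 hd hc hco
    refine ⟨i, c, Nat.pos_of_ne_zero fun e => by simp [e] at hd1, hc, rfl, ?_⟩
    omega
  · obtain ⟨c, rfl⟩ := key hd ho
    have hc : 0 < c := Nat.pos_of_ne_zero fun e => by simp [e] at hd1
    obtain ⟨i, rfl⟩ := key2 hD hc hco.symm
    refine ⟨i, c, Nat.pos_of_ne_zero fun e => by simp [e] at hD1, hc, mul_comm _ _, ?_⟩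
    omega

/-- The case of a Sylow three-normalizer twice as large as the Sylow subgroup. -/
theorem size_three {i j k d D z n : ℕ} (hj : 0 < j) (hk : 0 < k) (hd1 : 1 < d) (hD1 : 1 < D)
    (hd : d ∣ 2 ^ k * 5 ^ j) (hD : D ∣ 2 ^ k * 5 ^ j) (hcons : D = d + 1 ∨ d = D + 1)
    (hz : z < 2 * d) (hz' : z < 2 * D) (heq : 2 ^ k * d * D = 5 ^ j * z ^ 2)
    (hn : n * 2 = 2 ^ k * 5 ^ j) (hmod : 3 ^ i ∣ n - 1) :
    2 ^ k * 3 ^ i * 5 ^ j ≤ 1092 := by
  obtain ⟨u, v, -, hv, hprod, hpair⟩ :=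
    consecutive_cases (by norm_num) (by norm_num) hd hD hd1 hD1 ⟨k, rfl⟩ ⟨j, rfl⟩ hcons
  obtain ⟨h4, h5⟩ := two_five_pairs hv hpair
  rw [h4, h5] at hprod
  have hz7 : z ≤ 7 := by
    rcases hcons with e | e <;> subst e <;> nlinarith
  rw [mul_assoc, hprod] at heq
  have hb : 5 ^ j ∣ 20 := by
    have h1 : 5 ^ j ∣ 2 ^ k * 20 := heq ▸ dvd_mul_right _ _
    exact (Nat.Coprime.pow j k (by decide)).dvd_of_dvd_mul_left h1
  have hb5 : 5 ^ j = 5 := by
    have h6 : 5 ^ j ≤ 20 := Nat.le_of_dvd (by norm_num) hb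
    have hj1 : j ≤ 1 := by
      by_contra hc
      have := Nat.pow_le_pow_right (show 0 < 5 by norm_num) (show 2 ≤ j by omega)
      omega
    obtain rfl : j = 1 := by omega
    rfl
  rw [hb5] at heq hn ⊢
  have hk4 : k ≤ 3 := by
    by_contra hc
    have := Nat.pow_le_pow_right (show 0 < 2 by norm_num) (show 4 ≤ k by omega)
    nlinarith
  have hn1 : n ≤ 20 ∧ 2 ≤ n := by interval_cases k <;> simp at hn <;> omega
  have ha : 3 ^ i ≤ 19 := le_trans (Nat.le_of_dvd (by omega) hmod) (by omega)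
  have h8 : 2 ^ k ≤ 8 := le_trans (Nat.pow_le_pow_right (by norm_num) hk4) (by norm_num)
  nlinarith

theorem five_check : ∀ c ∈ ({6, 12, 72} : Finset ℕ), ∀ a ∈ ({3, 9} : Finset ℕ),
    ∀ s ∈ ({2, 4, 8, 16, 32, 64, 128, 256} : Finset ℕ), ∀ z ∈ Finset.Icc 0 15,
    (c = 6 → z ≤ 3) → (c = 12 → z ≤ 5) → s * c = a * z ^ 2 →
    ∀ b ∈ ({5, 25, 125} : Finset ℕ), b ∣ s * a / 2 - 1 → s * a * b ≤ 1092 := by
  decide +kernel

theorem five_bound : ∀ c ∈ ({6, 12, 72} : Finset ℕ), ∀ a ∈ ({3, 9} : Finset ℕ),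
    ∀ s ∈ ({2, 4, 8, 16, 32, 64, 128, 256} : Finset ℕ), ∀ z ∈ Finset.Icc 0 15,
    (c = 6 → z ≤ 3) → (c = 12 → z ≤ 5) → s * c = a * z ^ 2 → s * a / 2 ≤ 124 := by
  decide +kernel

/-- The case of a Sylow five-normalizer twice as large as the Sylow subgroup. -/
theorem size_five {i j k d D z n : ℕ} (hi : 0 < i) (hj : 0 < j) (hk : 0 < k) (hd1 : 1 < d)
    (hD1 : 1 < D) (hd : d ∣ 2 ^ k * 3 ^ i) (hD : D ∣ 2 ^ k * 3 ^ i)
    (hcons : D = d + 1 ∨ d = D + 1) (hz : z < 2 * d) (hz' : z < 2 * D)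
    (heq : 2 ^ k * d * D = 3 ^ i * z ^ 2) (hn : n * 2 = 2 ^ k * 3 ^ i) (hmod : 5 ^ j ∣ n - 1) :
    2 ^ k * 3 ^ i * 5 ^ j ≤ 1092 := by
  obtain ⟨u, v, hu, hv, hprod, hpair⟩ :=
    consecutive_cases (by norm_num) (by norm_num) hd hD hd1 hD1 ⟨k, rfl⟩ ⟨i, rfl⟩ hcons
  set c := d * D with hc
  have hcases : c = 6 ∨ c = 12 ∨ c = 72 := hprod ▸ two_three_pairs hu hv hpair
  have hzb : z ≤ 15 ∧ (c = 6 → z ≤ 3) ∧ (c = 12 → z ≤ 5) := by
    rcases hcons with e | e <;> subst e
    · have hd8 : d ≤ 8 := by rcases hcases with h | h | h <;> nlinarith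
      refine ⟨by omega, fun h => ?_, fun h => ?_⟩
      · have : d ≤ 2 := by nlinarith
        omega
      · have : d ≤ 3 := by nlinarith
        omega
    · have hd8 : D ≤ 8 := by rcases hcases with h | h | h <;> nlinarith
      refine ⟨by omega, fun h => ?_, fun h => ?_⟩
      · have : D ≤ 2 := by nlinarith
        omega
      · have : D ≤ 3 := by nlinarith
        omega
  rw [mul_assoc, ← hc] at heq
  have hc72 : c ∣ 72 := by rcases hcases with h | h | h <;> rw [h] <;> norm_num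
  have ha : 3 ^ i ∣ 72 := by
    refine dvd_trans ?_ hc72
    have h1 : 3 ^ i ∣ 2 ^ k * c := heq ▸ dvd_mul_right _ _
    exact (Nat.Coprime.pow i k (by decide)).dvd_of_dvd_mul_left h1
  have ha' : 3 ^ i ∈ ({3, 9} : Finset ℕ) := by
    have hi2 : i ≤ 2 := by
      by_contra hc'
      have h1 : 3 ^ 3 ∣ 72 := (pow_dvd_pow 3 (by omega)).trans ha
      norm_num at h1
    interval_cases i <;> simp
  have hk8 : k ≤ 8 := by
    by_contra hc'
    have h1 := Nat.pow_le_pow_right (show 0 < 2 by norm_num) (show 9 ≤ k by omega)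
    have h2 : 3 ^ i ≤ 9 := by
      simp only [Finset.mem_insert, Finset.mem_singleton] at ha'
      omega
    have h3 : z ^ 2 ≤ 225 := by nlinarith [hzb.1]
    have h4 : 6 ≤ c := by omega
    nlinarith
  have hs' : 2 ^ k ∈ ({2, 4, 8, 16, 32, 64, 128, 256} : Finset ℕ) := by
    interval_cases k <;> simp
  have hcmem : c ∈ ({6, 12, 72} : Finset ℕ) := by simp [hcases]
  have hzmem : z ∈ Finset.Icc 0 15 := Finset.mem_Icc.mpr ⟨Nat.zero_le _, hzb.1⟩
  have hn' : 2 ^ k * 3 ^ i / 2 = n := by omega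
  have hb := five_bound c hcmem _ ha' _ hs' z hzmem hzb.2.1 hzb.2.2 heq
  rw [hn'] at hb
  have hn2 : 2 ≤ n := by
    have h1 : 3 ≤ 3 ^ i := Nat.le_self_pow hi.ne' 3
    have h2 : 2 ≤ 2 ^ k := Nat.le_self_pow hk.ne' 2
    nlinarith
  have hj3 : j ≤ 3 := by
    by_contra hc'
    have h1 : 5 ^ 4 ≤ 5 ^ j := Nat.pow_le_pow_right (by norm_num) (by omega)
    have h2 := Nat.le_of_dvd (by omega) hmod
    omega
  exact five_check c hcmem _ ha' _ hs' z hzmem hzb.2.1 hzb.2.2 heq _
    (by interval_cases j <;> simp) (hn'.symm ▸ hmod)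

/-- Both normalizer indices in `{4, 8}`. -/
theorem size_large {a b s e f m3 m5 : ℕ} (ha : ∃ i, 0 < i ∧ a = 3 ^ i)
    (hb : ∃ j, 0 < j ∧ b = 5 ^ j) (hs : ∃ k, s = 2 ^ k) (he : e = 4 ∨ e = 8) (hf : f = 4 ∨ f = 8)
    (hes : e ∣ s) (hfs : f ∣ s) (hea : e ∣ a - 1)
    (h3 : s * b = e * (a * m3 + 1)) (h5 : s * a = f * (b * m5 + 1))
    (hcount : s * (f * (a - 1) + e * (b - 1)) + e * f ≤ e * f * (a * b)) :
    s * a * b ≤ 1092 := by
  obtain ⟨i, hi, rfl⟩ := ha
  obtain ⟨j, hj, rfl⟩ := hb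
  obtain ⟨Se, rfl⟩ := hes
  obtain ⟨Sf, hSf⟩ := hfs
  have ha3 : 3 ≤ 3 ^ i := Nat.le_self_pow hi.ne' 3
  have hb5 : 5 ≤ 5 ^ j := Nat.le_self_pow hj.ne' 5
  have hco : (3 ^ i).Coprime (5 ^ j) := Nat.Coprime.pow i j (by decide)
  have hb4 := five_pow_mod_four j
  have hbodd : 5 ^ j % 2 = 1 := by omega
  have haodd : 3 ^ i % 2 = 1 := Nat.odd_iff.mp (Odd.pow (by decide))
  have ha4 : 3 ^ i % 4 = 1 := by
    have h4 : 4 ∣ 3 ^ i - 1 := Nat.dvd_trans (by rcases he with rfl | rfl <;> norm_num) hea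
    omega
  set a := 3 ^ i with haDef
  set b := 5 ^ j with hbDef
  have e3 : Se * b = a * m3 + 1 := by
    apply Nat.eq_of_mul_eq_mul_left (show 0 < e by omega)
    rw [← mul_assoc]; exact h3
  have e5 : Sf * a = b * m5 + 1 := by
    apply Nat.eq_of_mul_eq_mul_left (show 0 < f by omega)
    rw [← mul_assoc, ← hSf]; exact h5
  obtain ⟨μ, hμ⟩ : a * b ∣ a * m3 + b * m5 + 1 := by
    refine hco.mul_dvd_of_dvd_of_dvd ?_ ?_
    · rw [add_assoc, ← e5]
      exact dvd_add (dvd_mul_right _ _) (dvd_mul_left _ _)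
    · rw [show a * m3 + b * m5 + 1 = a * m3 + 1 + b * m5 by ring, ← e3]
      exact dvd_add (dvd_mul_left _ _) (dvd_mul_right _ _)
  have hcount' : Se * (a - 1) + Sf * (b - 1) + 1 ≤ a * b := by
    refine Nat.le_of_mul_le_mul_left ?_ (show 0 < e * f by rcases he with rfl | rfl <;> omega)
    refine le_trans (le_of_eq ?_) hcount
    calc e * f * (Se * (a - 1) + Sf * (b - 1) + 1)
        = e * Se * (f * (a - 1)) + f * Sf * (e * (b - 1)) + e * f := by ring
      _ = e * Se * (f * (a - 1) + e * (b - 1)) + e * f := by rw [← hSf]; ring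
  obtain ⟨k, hk⟩ := hs
  have hSe : ∃ c, Se = 2 ^ c := by
    obtain ⟨c, -, hc⟩ := (Nat.dvd_prime_pow Nat.prime_two).mp (hk ▸ dvd_mul_left Se e)
    exact ⟨c, hc⟩
  obtain ⟨c, hc⟩ := hSe
  obtain ⟨a', ha'⟩ : ∃ a', a = a' + 1 := ⟨a - 1, by omega⟩
  obtain ⟨b', hb'⟩ : ∃ b', b = b' + 1 := ⟨b - 1, by omega⟩
  have hμ3 : μ < 3 := by
    by_contra hge
    have h1 : 3 * (a * b) ≤ μ * (a * b) := Nat.mul_le_mul_right _ (by omega)
    rw [ha', hb'] at hμ e3 e5 hcount' h1
    simp only [Nat.add_sub_cancel] at hcount'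
    rcases he with rfl | rfl <;> rcases hf with rfl | rfl <;> nlinarith
  have hμ0 : 0 < μ := Nat.pos_of_ne_zero fun e' => by rw [e', mul_zero] at hμ; omega
  have hab4 : a * b % 4 = 1 := by rw [Nat.mul_mod, ha4, hb4]
  -- the case where `s` is the larger index
  by_cases hsmall : Se = 1 ∨ Sf = 1
  · exfalso
    rcases hsmall with h1 | h1
    · rw [h1, one_mul] at e3
      rcases he with rfl | rfl <;> rcases hf with rfl | rfl
      · obtain rfl : Sf = 1 := by omega
        rw [one_mul] at e5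
        rcases Nat.eq_zero_or_pos m3 with h0 | h0 <;> rcases Nat.eq_zero_or_pos m5 with h0' | h0' <;>
          (try subst h0) <;> (try subst h0') <;> first | omega | nlinarith
      · omega
      · obtain rfl : Sf = 2 := by omega
        rcases Nat.eq_zero_or_pos m3 with h0 | h0
        · rw [h0] at e3; omega
        have hm5 : m5 = 1 := by
          rcases Nat.lt_or_ge m5 2 with h | h
          · rcases Nat.eq_zero_or_pos m5 with h' | h'
            · rw [h'] at e5; omega
            · omega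
          · exfalso; nlinarith
        subst hm5
        have h2 : a * m3 + 2 = 2 * a := by omega
        rcases Nat.lt_or_ge m3 2 with h | h
        · obtain rfl : m3 = 1 := by omega
          omega
        · nlinarith
      · obtain rfl : Sf = 1 := by omega
        rw [one_mul] at e5
        rcases Nat.eq_zero_or_pos m3 with h0 | h0 <;> rcases Nat.eq_zero_or_pos m5 with h0' | h0' <;>
          (try subst h0) <;> (try subst h0') <;> first | omega | nlinarith
    · rw [h1, one_mul] at e5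
      rcases he with rfl | rfl <;> rcases hf with rfl | rfl
      · obtain rfl : Se = 1 := by omega
        rw [one_mul] at e3
        rcases Nat.eq_zero_or_pos m3 with h0 | h0 <;> rcases Nat.eq_zero_or_pos m5 with h0' | h0' <;>
          (try subst h0) <;> (try subst h0') <;> first | omega | nlinarith
      · obtain rfl : Se = 2 := by omega
        rcases Nat.eq_zero_or_pos m5 with h0 | h0
        · rw [h0] at e5; omega
        have hm3 : m3 = 1 := by
          rcases Nat.lt_or_ge m3 2 with h | h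
          · rcases Nat.eq_zero_or_pos m3 with h' | h'
            · rw [h'] at e3; omega
            · omega
          · exfalso; nlinarith
        subst hm3
        have h2 : b * m5 + 2 = 2 * b := by omega
        rcases Nat.lt_or_ge m5 2 with h | h
        · obtain rfl : m5 = 1 := by omega
          omega
        · nlinarith
      · omega
      · obtain rfl : Se = 1 := by omega
        rw [one_mul] at e3
        rcases Nat.eq_zero_or_pos m3 with h0 | h0 <;> rcases Nat.eq_zero_or_pos m5 with h0' | h0' <;>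
          (try subst h0) <;> (try subst h0') <;> first | omega | nlinarith
  push Not at hsmall
  have hc0 : 0 < c := Nat.pos_of_ne_zero fun e' => hsmall.1 (by rw [hc, e', pow_zero])
  have hSe2 : Se % 2 = 0 := by
    rw [hc]; exact Nat.mod_eq_zero_of_dvd (dvd_pow_self 2 hc0.ne')
  have hSf2 : Sf % 2 = 0 := by
    obtain ⟨c', -, hc'⟩ := (Nat.dvd_prime_pow Nat.prime_two).mp
      (show Sf ∣ 2 ^ k by rw [← hk, hSf]; exact dvd_mul_left _ _)
    have hc'0 : c' ≠ 0 := fun e' => hsmall.2 (by rw [hc', e', pow_zero])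
    rw [hc']; exact Nat.mod_eq_zero_of_dvd (dvd_pow_self 2 hc'0)
  have p1 : Se * b % 2 = 0 := by rw [Nat.mul_mod, hSe2]; simp
  have p2 : Sf * a % 2 = 0 := by rw [Nat.mul_mod, hSf2]; simp
  obtain rfl : μ = 1 := by
    by_contra hne
    obtain rfl : μ = 2 := by omega
    omega
  have hsum : Se * b + Sf * a = a * b + 1 := by omega
  rcases he with rfl | rfl <;> rcases hf with rfl | rfl
  · exfalso
    obtain rfl : Sf = Se := by omega
    rcases Nat.lt_or_ge c 2 with h | h
    · obtain rfl : c = 1 := by omega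
      subst hc
      norm_num at hsum
      omega
    · have h4 : 2 ^ 2 ∣ Sf := hc ▸ pow_dvd_pow 2 h
      obtain ⟨q, hq⟩ := h4
      have : (Sf * b + Sf * a) % 4 = 0 := by rw [hq]; grind
      omega
  · exfalso
    obtain rfl : Se = 2 * Sf := by omega
    rcases Nat.lt_or_ge c 3 with h | h
    · have hc2 : c = 2 := by
        interval_cases c
        · simp at hc; omega
        · rfl
      subst hc2
      obtain rfl : Sf = 2 := by omega
      have hb11 : b ≤ 11 := by
        by_contra hgt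
        have ha5 : 5 ≤ a := by omega
        nlinarith [Nat.mul_le_mul (show 5 ≤ a from ha5) (le_refl b), Nat.mul_le_mul (le_refl a) (show 12 ≤ b by omega)]
      have hj1 : j = 1 := by
        by_contra hne
        have := Nat.pow_le_pow_right (show 0 < 5 by norm_num) (show 2 ≤ j by omega)
        omega
      rw [hj1, pow_one] at hbDef
      rw [hbDef] at hsum
      omega
    · have h4 : 2 ^ 3 ∣ 2 * Sf := hc ▸ pow_dvd_pow 2 h
      norm_num at h4
      obtain ⟨q, hq⟩ : 4 ∣ Sf := by omega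
      have : (2 * Sf * b + Sf * a) % 4 = 0 := by rw [hq]; grind
      omega
  · obtain rfl : Sf = 2 * Se := by omega
    rcases Nat.lt_or_ge c 2 with h | h
    · obtain rfl : c = 1 := by omega
      subst hc
      norm_num at hsum ⊢
      have ha9 : a ≤ 9 := by
        by_contra hgt
        nlinarith
      have hi2 : i = 2 := by
        have hle : i ≤ 2 := by
          by_contra hne
          have := Nat.pow_le_pow_right (show 0 < 3 by norm_num) (show 3 ≤ i by omega)
          omega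
        interval_cases i
        · simp at haDef; omega
        · rfl
      rw [hi2] at haDef
      norm_num at haDef
      rw [haDef] at hsum ⊢
      omega
    · exfalso
      have h4 : 2 ^ 2 ∣ Se := hc ▸ pow_dvd_pow 2 h
      obtain ⟨q, hq⟩ := h4
      have : (Se * b + 2 * Se * a) % 4 = 0 := by rw [hq]; grind
      omega
  · exfalso
    obtain rfl : Sf = Se := by omega
    rcases Nat.lt_or_ge c 2 with h | h
    · obtain rfl : c = 1 := by omega
      subst hc
      norm_num at hsum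
      omega
    · have h4 : 2 ^ 2 ∣ Sf := hc ▸ pow_dvd_pow 2 h
      obtain ⟨q, hq⟩ := h4
      have : (Sf * b + Sf * a) % 4 = 0 := by rw [hq]; grind
      omega

end Cfsg.Agent.SpecFive
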