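import Cfsg.Agent.SpecFive.Order
import Mathlib.GroupTheory.SchurZassenhaus
import Mathlib.GroupTheory.GroupAction.ConjAct

/-!
# Groups with element orders at most five and three prime divisors: the simple normal subgroup
-/

set_option autoImplicit false
set_option linter.unusedSectionVars false
set_option linter.style.haveILetI false

namespace Cfsg.Agent.SpecFive

open Subgroup
open scoped Classical commutatorElement

universe u

/-- Element orders at most five, and all three primes occur. -/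
structure Full (G : Type*) [Group G] : Prop where
  bound : Bound G
  two : 2 ∣ Nat.card G
  three : 3 ∣ Nat.card G
  five : 5 ∣ Nat.card G

variable {G : Type u} [Group G] [Finite G]

/-- A non-trivial solvable normal subgroup contains a non-trivial elementary abelian normal one. -/
theorem exists_normal_elementary {M : Subgroup G} [M.Normal] (hM : M ≠ ⊥) (hs : Group.IsSolvable M) :
    ∃ (r : ℕ) (W : Subgroup G), r.Prime ∧ W.Normal ∧ W ≠ ⊥ ∧ W ≤ M ∧
      (∀ u ∈ W, ∀ v ∈ W, Commute u v) ∧ ∀ w ∈ W, w ^ r = 1 := by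
  obtain ⟨n, hn⟩ := hs.solvable
  have hex : ∃ n, derivedSeries M n = ⊥ := ⟨n, hn⟩
  have h0 : Nat.find hex ≠ 0 := fun e => by
    haveI : Nontrivial M := (nontrivial_iff_ne_bot M).mpr hM
    have h1 := Nat.find_spec hex
    rw [e, derivedSeries_zero] at h1
    exact top_ne_bot h1
  obtain ⟨i, hi⟩ := Nat.exists_eq_succ_of_ne_zero h0
  set A := (derivedSeries M i).map M.subtype with hA
  have hA0 : A ≠ ⊥ := fun e => Nat.find_min hex (show i < Nat.find hex by omega)
    ((map_eq_bot_iff_of_injective _ M.subtype_injective).mp e)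
  haveI hAn : A.Normal := ConjAct.normal_of_characteristic_of_normal
  have hAc : ∀ u ∈ A, ∀ v ∈ A, Commute u v := by
    rintro _ ⟨u, hu, rfl⟩ _ ⟨v, hv, rfl⟩
    have h1 : derivedSeries M (i + 1) = ⊥ := by
      have := Nat.find_spec hex; rwa [hi] at this
    rw [derivedSeries_succ] at h1
    have h2 : ⁅u, v⁆ ∈ (⊥ : Subgroup M) := h1 ▸ commutator_mem_commutator hu hv
    exact congrArg (M.subtype) (commutatorElement_eq_one_iff_mul_comm.mp (mem_bot.mp h2))
  obtain ⟨r, hr, hrA⟩ := Nat.exists_prime_and_dvd (n := Nat.card A)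
    (fun e => hA0 (Subgroup.card_eq_one.mp e))
  haveI : Fact r.Prime := ⟨hr⟩
  obtain ⟨w, hw⟩ := exists_prime_orderOf_dvd_card' r hrA
  let W : Subgroup G :=
    { carrier := {u | u ∈ A ∧ u ^ r = 1}
      one_mem' := ⟨one_mem _, one_pow r⟩
      mul_mem' := fun {u v} hu hv => ⟨mul_mem hu.1 hv.1, by
        rw [(hAc u hu.1 v hv.1).mul_pow, hu.2, hv.2, one_mul]⟩
      inv_mem' := fun {u} hu => ⟨inv_mem hu.1, by rw [inv_pow, hu.2, inv_one]⟩ }
  refine ⟨r, W, hr, ⟨fun u hu g => ⟨hAn.conj_mem u hu.1 g, ?_⟩⟩, ?_,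
    fun u hu => map_subtype_le _ hu.1, fun u hu v hv => hAc u hu.1 v hv.1, fun u hu => hu.2⟩
  · rw [conj_pow, hu.2]; simp
  · intro e
    have h1 : (w : G) ∈ W := ⟨w.2, by rw [← hw, ← Subgroup.coe_pow, pow_orderOf_eq_one]; rfl⟩
    rw [e, mem_bot] at h1
    rw [show w = 1 from Subtype.ext h1, orderOf_one] at hw
    exact hr.ne_one hw.symm

/-- An element of order `r` normalizing one of order `q` centralizes it, if `r ∤ q - 1`. -/
theorem commute_of_normalizes {q r : ℕ} (hfix : ∀ c : ZMod q, c ^ r = 1 → c = 1) {x y : G}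
    (hx : orderOf x = q) (hy : orderOf y = r) (hn : y * x * y⁻¹ ∈ zpowers x) : Commute x y := by
  obtain ⟨j, hj⟩ := mem_zpowers_iff.mp hn
  have hiter : ∀ n : ℕ, y ^ n * x * (y ^ n)⁻¹ = x ^ (j ^ n) := by
    intro n
    induction n with
    | zero => simp
    | succ n ih =>
      rw [pow_succ' y, pow_succ j n, mul_comm (j ^ n), zpow_mul, hj, conj_zpow, ← ih]
      group
  have hr1 := hiter r
  rw [← hy, pow_orderOf_eq_one, one_mul, inv_one, mul_one, hy] at hr1
  have hdvd : (q : ℤ) ∣ j ^ r - 1 := by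
    rw [← hx]
    refine orderOf_dvd_iff_zpow_eq_one.mpr ?_
    rw [zpow_sub, zpow_one, ← hr1, mul_inv_cancel]
  have hj1 : ((j : ZMod q) ^ r) = 1 := by
    have h3 := (ZMod.intCast_zmod_eq_zero_iff_dvd _ q).mpr hdvd
    push_cast at h3
    exact sub_eq_zero.mp h3
  have hdvd1 : (q : ℤ) ∣ j - 1 := by
    rw [← ZMod.intCast_zmod_eq_zero_iff_dvd]
    push_cast
    rw [hfix _ hj1, sub_self]
  rw [← hx, orderOf_dvd_iff_zpow_eq_one, zpow_sub, zpow_one, mul_inv_eq_one, hj] at hdvd1
  exact (mul_inv_eq_iff_eq_mul.mp hdvd1).symm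

theorem zmod_fix {q r : ℕ} (hq : q = 2 ∨ q = 3 ∨ q = 5) (hr : r = 3 ∨ r = 5) (hne : q ≠ r) :
    ∀ c : ZMod q, c ^ r = 1 → c = 1 := by
  rcases hq with rfl | rfl | rfl <;> rcases hr with rfl | rfl <;> first | omega | decide

/-- A solvable group with element orders at most five has at most two prime divisors. -/
theorem Bound.not_solvable (h : Bound G) (h2 : 2 ∣ Nat.card G) (h3 : 3 ∣ Nat.card G)
    (h5 : 5 ∣ Nat.card G) : ¬ Group.IsSolvable G := by
  suffices H : ∀ (n : ℕ) (X : Type u) [Group X] [Finite X], Nat.card X = n → Bound X →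
      2 ∣ Nat.card X → 3 ∣ Nat.card X → 5 ∣ Nat.card X → Group.IsSolvable X → False from
    H _ G rfl h h2 h3 h5
  intro n
  induction n using Nat.strong_induction_on with
  | _ n ih =>
  intro X _ _ hn h h2 h3 h5 hs
  haveI : Nontrivial X := Finite.one_lt_card_iff_nontrivial.mp (by
    have := Nat.le_of_dvd Nat.card_pos h2
    omega)
  obtain ⟨p, V, hp, hVn, hV, -, hVc, hVp⟩ := exists_normal_elementary
    (M := (⊤ : Subgroup X)) top_ne_bot inferInstance
  haveI : Fact p.Prime := ⟨hp⟩
  have hVpg : IsPGroup p V := fun v => ⟨1, Subtype.ext (by simpa using hVp v v.2)⟩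
  obtain ⟨i, hi⟩ := IsPGroup.iff_card.mp hVpg
  have hidx : Nat.card V * V.index = Nat.card X := V.card_mul_index
  have hi0 : 0 < i := Nat.pos_of_ne_zero fun e => hV (Subgroup.card_eq_one.mp (by rw [hi, e, pow_zero]))
  have hpd : p ∣ Nat.card X := by
    rw [← hidx, hi]
    exact dvd_mul_of_dvd_left (dvd_pow_self p hi0.ne') _
  have hother : ∀ {r : ℕ}, r.Prime → r ≠ p → r ∣ Nat.card X → r ∣ V.index := by
    intro r hr hne hd
    rw [← hidx, hi] at hd
    exact (((Nat.coprime_primes hr hp).mpr hne).pow_right i).dvd_of_dvd_mul_left hd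
  have hcardq : Nat.card (X ⧸ V) = V.index := rfl
  by_cases hpi : p ∣ V.index
  · refine ih (Nat.card (X ⧸ V)) ?_ (X ⧸ V) rfl (h.quotient V) ?_ ?_ ?_
      (Group.isSolvable_of_surjective (QuotientGroup.mk'_surjective V))
    · rw [hcardq, ← hn, ← hidx]
      exact lt_mul_of_one_lt_left (Nat.pos_of_ne_zero Subgroup.index_ne_zero_of_finite)
        ((one_lt_card_iff_ne_bot V).mpr hV)
    all_goals rw [hcardq]
    · by_cases e : (2 : ℕ) = p
      · exact e ▸ hpi
      · exact hother Nat.prime_two e h2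
    · by_cases e : (3 : ℕ) = p
      · exact e ▸ hpi
      · exact hother (by norm_num) e h3
    · by_cases e : (5 : ℕ) = p
      · exact e ▸ hpi
      · exact hother (by norm_num) e h5
  obtain ⟨K, hK⟩ := Subgroup.exists_right_complement'_of_coprime (N := V) (by
    rw [hi]; exact ((hp.coprime_iff_not_dvd.mpr hpi)).pow_left i)
  have hKcard : Nat.card K = V.index := hK.symm.index_eq_card.symm
  have hKr : ∀ a ∈ K, ∀ r : ℕ, r.Prime → orderOf a = r → r ≠ p := by
    intro a ha r hr hao e
    subst e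
    exact hpi (hKcard ▸ hao ▸ K.orderOf_dvd_natCard ha)
  have hfpf : ∀ a ∈ K, a ≠ 1 → ∀ v ∈ V, Commute v a → v = 1 := by
    intro a ha ha1 v hv hc
    by_contra hv1
    obtain ⟨r, hr, hrd⟩ := Nat.exists_prime_and_dvd (n := orderOf a)
      (fun e => ha1 (orderOf_eq_one_iff.mp e))
    obtain ⟨c, hc'⟩ := hrd
    have hor : orderOf (a ^ c) = r := by
      have h1 := orderOf_pos a
      rw [orderOf_pow, hc', Nat.gcd_eq_right (dvd_mul_left c r), Nat.mul_div_cancel _ ?_]
      rcases Nat.eq_zero_or_pos c with e | e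
      · rw [e, mul_zero] at hc'; omega
      · exact e
    exact h.not_commute_primes (orderOf_eq_prime (hVp v hv) hv1) hor hp hr
      (hKr _ (pow_mem ha c) r hr hor).symm (hc.pow_right c)
  haveI : Nontrivial K := Finite.one_lt_card_iff_nontrivial.mp (by
    rw [hKcard]
    by_contra hle
    have h1 : V.index = 1 := by
      have : V.index ≠ 0 := Subgroup.index_ne_zero_of_finite
      omega
    rw [h1, mul_one, hi] at hidx
    have e2 := Nat.prime_two.dvd_of_dvd_pow (hidx ▸ h2)
    have e3 := (show Nat.Prime 3 by norm_num).dvd_of_dvd_pow (hidx ▸ h3)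
    rw [Nat.prime_dvd_prime_iff_eq Nat.prime_two hp] at e2
    rw [Nat.prime_dvd_prime_iff_eq (by norm_num) hp] at e3
    omega)
  obtain ⟨q, W, hq, hWn, hW, -, hWc, hWq⟩ := exists_normal_elementary
    (M := (⊤ : Subgroup K)) top_ne_bot inferInstance
  haveI : Fact q.Prime := ⟨hq⟩
  obtain ⟨x, hxW, hx1⟩ : ∃ x ∈ W, x ≠ 1 := by
    by_contra hc
    push Not at hc
    exact hW ((Subgroup.eq_bot_iff_forall W).mpr hc)
  have hxo : orderOf (x : X) = q := by
    rw [Subgroup.orderOf_coe]; exact orderOf_eq_prime (hWq x hxW) hx1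
  have hqp : q ≠ p := hKr x x.2 q hq hxo
  have hWx : ∀ y ∈ W, (y : X) ∈ zpowers (x : X) := by
    intro y hy
    by_contra hne
    exact false_of_pair hVc hV hp hq hqp.symm hVp
      (by rw [normalizer_eq_top (H := V)]; exact mem_top _)
      (by rw [normalizer_eq_top (H := V)]; exact mem_top _)
      ((hWc x hxW y hy).map K.subtype) (fun e => hx1 (Subtype.ext e))
      (by simpa using congrArg Subtype.val (hWq x hxW))
      (by simpa using congrArg Subtype.val (hWq y hy)) hne
      (fun a ha har v hv hc => by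
        by_contra hv1
        exact h.not_commute_primes (orderOf_eq_prime (hVp v hv) hv1) (orderOf_eq_prime har ha) hp hq
          hqp.symm hc)
  have hq' := h.prime_dvd hq (hxo ▸ orderOf_dvd_natCard (x : X))
  have hp' := h.prime_dvd hp hpd
  obtain ⟨r, hr, hrp, hrq⟩ : ∃ r, (r = 2 ∨ r = 3 ∨ r = 5) ∧ r ≠ p ∧ r ≠ q :=
    ⟨10 - p - q, by omega, by omega, by omega⟩
  have hrpr : r.Prime := by rcases hr with rfl | rfl | rfl <;> norm_num
  haveI : Fact r.Prime := ⟨hrpr⟩
  obtain ⟨y, hy⟩ := exists_prime_orderOf_dvd_card' (G := K) r (hKcard ▸ hother hrpr hrp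
    (by rcases hr with rfl | rfl | rfl <;> assumption))
  rw [← Subgroup.orderOf_coe] at hy
  refine h.not_commute_primes hxo hy hq hrpr hrq.symm ?_
  rcases hr with rfl | hr35
  · -- the involution `y` and its conjugate invert `V`
    have hinv : ∀ a ∈ K, orderOf a = 2 → ∀ v ∈ V, a * v * a = v⁻¹ := by
      intro a ha hao
      have haa : a * a = 1 := by rw [← pow_two, ← hao, pow_orderOf_eq_one]
      refine inverts_of_fpf haa (fun v hv => ?_)
        (fun v hv hc => hfpf a ha (fun e => by simp [e] at hao) v hv hc)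
      have := hVn.conj_mem v hv a
      rwa [inv_eq_of_mul_eq_one_right haa] at this
    set a : X := (x : X) * y * (x : X)⁻¹
    have hao : orderOf a = 2 := by
      show orderOf (MulAut.conj (x : X) (y : X)) = 2
      rw [MulEquiv.orderOf_eq, hy]
    have haK : a ∈ K := mul_mem (mul_mem x.2 y.2) (inv_mem x.2)
    have hyy : (y : X) * y = 1 := by rw [← pow_two, ← hy, pow_orderOf_eq_one]
    have haa : a * a = 1 := by rw [← pow_two, ← hao, pow_orderOf_eq_one]
    have h1 : a * (y : X) = 1 := by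
      by_contra hne
      obtain ⟨v, hv, hv1⟩ : ∃ v ∈ V, v ≠ (1 : X) := by
        by_contra hc
        push Not at hc
        exact hV ((Subgroup.eq_bot_iff_forall V).mpr hc)
      exact hv1 (hfpf _ (mul_mem haK y.2) hne v hv (Commute.symm (commute_mul_of_inverts
        (hinv _ y.2 hy v hv) (by rw [hinv a haK hao _ (inv_mem hv), inv_inv]) hyy haa)))
    have h4 : a = y := by rw [eq_inv_of_mul_eq_one_left h1, inv_eq_of_mul_eq_one_right hyy]
    exact mul_inv_eq_iff_eq_mul.mp h4
  · refine commute_of_normalizes (zmod_fix hq' hr35 hrq.symm) hxo hy ?_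
    exact hWx _ (hWn.conj_mem x hxW y)

/-- No normal subgroup of odd prime power order. -/
theorem Full.normal_pgroup_eq_bot (h : Full G) {p : ℕ} (hp : p = 3 ∨ p = 5) {V : Subgroup G}
    (hV : V.Normal) (hVp : IsPGroup p V) : V = ⊥ := by
  by_contra hne
  have hpp : p.Prime := by rcases hp with rfl | rfl <;> norm_num
  haveI : Fact p.Prime := ⟨hpp⟩
  haveI : Fact (Nat.Prime 2) := ⟨Nat.prime_two⟩
  obtain ⟨t, ht⟩ := exists_prime_orderOf_dvd_card' (G := G) 2 h.two
  have htt : t * t = 1 := by rw [← pow_two, ← ht, pow_orderOf_eq_one]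
  have hinv : ∀ a : G, orderOf a = 2 → ∀ v ∈ V, a * v * a = v⁻¹ := by
    intro a ha
    have haa : a * a = 1 := by rw [← pow_two, ← ha, pow_orderOf_eq_one]
    refine inverts_of_fpf haa (fun v hv => ?_) fun v hv hc =>
      h.bound.eq_one_of_commute_involution hp (h.bound.pow_eq_one_of_pgroup hp hVp hv) ha hc
    have := hV.conj_mem v hv a
    rwa [inv_eq_of_mul_eq_one_right haa] at this
  obtain ⟨v, hv, hv1⟩ : ∃ v ∈ V, v ≠ (1 : G) := by
    by_contra hc
    push Not at hc
    exact hne ((Subgroup.eq_bot_iff_forall V).mpr hc)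
  have hC : ∀ z ∈ centralizer (V : Set G), z ^ p = 1 := fun z hz =>
    h.bound.pow_eq_one_of_commute hp hv1 (h.bound.pow_eq_one_of_pgroup hp hVp hv)
      (mem_centralizer_iff.mp hz v hv)
  obtain ⟨q, hq, hqd, hqp, hq4⟩ : ∃ q, q.Prime ∧ q ∣ Nat.card G ∧ q ≠ p ∧ ¬ q ∣ 4 := by
    rcases hp with rfl | rfl
    · exact ⟨5, by norm_num, h.five, by norm_num, by norm_num⟩
    · exact ⟨3, by norm_num, h.three, by norm_num, by norm_num⟩
  haveI : Fact q.Prime := ⟨hq⟩
  obtain ⟨y, hy⟩ := exists_prime_orderOf_dvd_card' (G := G) q hqd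
  set u := y * t * y⁻¹ * t
  have hu : u ∈ centralizer (V : Set G) := by
    refine mem_centralizer_iff.mpr fun z hz => (Commute.symm ?_ : Commute z u)
    have hc : orderOf (y * t * y⁻¹) = 2 := by rw [← MulAut.conj_apply, MulEquiv.orderOf_eq, ht]
    exact commute_mul_of_inverts (hinv t ht z hz)
      (by rw [hinv _ hc _ (inv_mem hz), inv_inv]) htt
      (by rw [← pow_two, ← hc, pow_orderOf_eq_one])
  set w := u ^ ((p - 1) / 2) with hw
  have hwC : w ∈ centralizer (V : Set G) := pow_mem hu _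
  have hw2 : w * w * u = 1 := by
    rw [hw, ← pow_add, ← pow_succ,
      show (p - 1) / 2 + (p - 1) / 2 + 1 = p by rcases hp with rfl | rfl <;> rfl, hC u hu]
  have hti : t⁻¹ = t := inv_eq_of_mul_eq_one_right htt
  have htu : t * u * t = u⁻¹ := by
    simp only [u, mul_inv_rev, inv_inv, hti]
    simp [mul_assoc, htt]
  have htw : t * w = w⁻¹ * t := by
    have : MulAut.conj t w = w⁻¹ := by
      rw [hw, map_pow, MulAut.conj_apply, hti, htu, inv_pow]
    rw [MulAut.conj_apply, hti] at this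
    rw [← this, mul_assoc _ t t, htt, mul_one]
  have hc : Commute t (w * y) := by
    have e1 : w⁻¹ = w * u := by
      rw [inv_eq_iff_mul_eq_one, ← mul_assoc]; exact hw2
    have e2 : y * t = u * t * y := by simp [u, mul_assoc, htt]
    show t * (w * y) = w * y * t
    rw [← mul_assoc, htw, mul_assoc w y t, e2, e1]
    group
  have h4 := h.bound.pow_four_of_commute ht hc
  set π := QuotientGroup.mk' (centralizer (V : Set G))
  have h5 : y ^ 4 ∈ centralizer (V : Set G) := by
    have h6 : π (y ^ 4) = 1 := by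
      have : π (w * y) = π y := by
        rw [map_mul, show π w = 1 from (QuotientGroup.eq_one_iff w).mpr hwC, one_mul]
      rw [map_pow, ← this, ← map_pow, h4, map_one]
    exact (QuotientGroup.eq_one_iff _).mp h6
  have h7 := orderOf_dvd_of_pow_eq_one (show y ^ (4 * p) = 1 by rw [pow_mul]; exact hC _ h5)
  rw [hy] at h7
  rcases hq.dvd_mul.mp h7 with e | e
  · exact hq4 e
  · exact hqp ((Nat.prime_dvd_prime_iff_eq hq hpp).mp e)

/-- The largest normal `r`-subgroup. -/
theorem exists_max_normal_pgroup (X : Type*) [Group X] [Finite X] (r : ℕ) :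
    ∃ W : Subgroup X, W.Normal ∧ IsPGroup r W ∧
      (∀ U : Subgroup X, U.Normal → IsPGroup r U → U ≤ W) ∧ W.Characteristic := by
  let S : Set (Subgroup X) := {U | U.Normal ∧ IsPGroup r U}
  obtain ⟨W, hW, hmax⟩ := S.toFinite.exists_maximal ⟨⊥, inferInstance, IsPGroup.of_bot⟩
  haveI := hW.1
  have hle : ∀ U : Subgroup X, U.Normal → IsPGroup r U → U ≤ W := by
    intro U hU hUp
    haveI := hU
    have h1 : W ⊔ U ∈ S := ⟨Subgroup.sup_normal W U, hW.2.to_sup_of_normal_right hUp⟩
    exact le_sup_right.trans (hmax h1 le_sup_left)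
  refine ⟨W, hW.1, hW.2, hle, characteristic_iff_map_le.mpr fun φ => ?_⟩
  exact hle _ (hW.1.map φ.toMonoidHom φ.surjective) (hW.2.map _)

/-- When all normal prime-power subgroups are trivial: a simple normal subgroup of order 60 or 360
with trivial centralizer. -/
theorem Full.exists_simple_normal (h : Full G)
    (hcore : ∀ (r : ℕ) (V : Subgroup G), r.Prime → V.Normal → IsPGroup r V → V = ⊥) :
    ∃ M : Subgroup G, M.Normal ∧ IsSimpleGroup M ∧ ¬ IsMulCommutative M ∧
      (Nat.card M = 60 ∨ Nat.card M = 360) ∧ centralizer (M : Set G) = ⊥ := by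
  haveI : Nontrivial G := Finite.one_lt_card_iff_nontrivial.mp (by
    have := Nat.card_pos (α := G)
    have := h.two
    omega)
  obtain ⟨M, hM, hMmin⟩ := ({U : Subgroup G | U.Normal ∧ U ≠ ⊥}).toFinite.exists_minimal
    ⟨⊤, inferInstance, top_ne_bot⟩
  haveI := hM.1
  have hnsol : ∀ U : Subgroup G, U.Normal → U ≠ ⊥ → ¬ Group.IsSolvable U := by
    intro U hU hUne hs
    haveI := hU
    obtain ⟨r, W, hr, hWn, hW, -, -, hWr⟩ := exists_normal_elementary hUne hs
    exact hW (hcore r W hr hWn fun w => ⟨1, Subtype.ext (by simpa using hWr w w.2)⟩)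
  haveI : Nontrivial M := (nontrivial_iff_ne_bot M).mpr hM.2
  have hnop : ∀ (r : ℕ) (U : Subgroup M), r.Prime → U.Normal → IsPGroup r U → U = ⊥ := by
    intro r U hr hU hUp
    obtain ⟨W, -, hWp, hWle, hWc⟩ := exists_max_normal_pgroup M r
    haveI := hWc
    have h1 := hcore r _ hr ConjAct.normal_of_characteristic_of_normal (hWp.map M.subtype)
    rw [map_eq_bot_iff_of_injective _ M.subtype_injective] at h1
    exact le_bot_iff.mp (h1 ▸ hWle U hU hUp)
  have hsimple : IsSimpleGroup M := by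
    refine ⟨fun U hU => or_iff_not_imp_left.mpr fun hUne => ?_⟩
    obtain ⟨S, hS, hSmin⟩ := ({T : Subgroup M | T.Normal ∧ T ≠ ⊥ ∧ T ≤ U}).toFinite.exists_minimal
      ⟨U, hU, hUne, le_rfl⟩
    refine top_le_iff.mp (le_trans ?_ hS.2.2)
    haveI hSn := hS.1
    -- the conjugates of `S`
    by_contra hnot
    obtain ⟨g, hg⟩ : ∃ g : G, ¬ S.map (MulAut.conjNormal g : MulAut M).toMonoidHom ≤ S := by
      by_contra hc
      push Not at hc
      refine hnot ?_
      have hn : (S.map M.subtype).Normal := ⟨by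
        rintro _ ⟨s, hs, rfl⟩ g
        exact ⟨MulAut.conjNormal g s, hc g ⟨s, hs, rfl⟩, MulAut.conjNormal_apply g s⟩⟩
      have h1 : M ≤ S.map M.subtype := hMmin ⟨hn, fun e => hS.2.1
        ((map_eq_bot_iff_of_injective _ M.subtype_injective).mp e)⟩ (map_subtype_le S)
      intro m _
      obtain ⟨s, hs, e⟩ := h1 m.2
      exact (show s = m from Subtype.ext e) ▸ hs
    set φ : MulAut M := MulAut.conjNormal g
    set S' := S.map φ.toMonoidHom
    haveI hS'n : S'.Normal := hSn.map φ.toMonoidHom φ.surjective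
    have hdisj : Disjoint S S' := by
      rw [disjoint_iff]
      by_contra hne
      have h1 : S ≤ S ⊓ S' := hSmin
        ⟨inferInstance, hne, inf_le_left.trans hS.2.2⟩ inf_le_left
      have h2 : S ≤ S' := h1.trans inf_le_right
      have h3 : Nat.card S' = Nat.card S :=
        Nat.card_congr (S.equivMapOfInjective φ.toMonoidHom φ.injective).toEquiv.symm
      exact hg (le_of_eq (Subgroup.eq_of_le_of_card_ge h2 h3.le).symm)
    obtain ⟨r, hr, hrd⟩ := Nat.exists_prime_and_dvd (n := Nat.card S)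
      (fun e => hS.2.1 (Subgroup.card_eq_one.mp e))
    haveI : Fact r.Prime := ⟨hr⟩
    obtain ⟨r', hr', hr'd, hne⟩ : ∃ r', r'.Prime ∧ r' ∣ Nat.card S ∧ r' ≠ r := by
      by_contra hc
      push Not at hc
      refine hS.2.1 (hnop r S hr hS.1 (IsPGroup.of_card (n := (Nat.card S).primeFactorsList.length) ?_))
      exact Nat.eq_prime_pow_of_unique_prime_dvd Nat.card_pos.ne' fun {d} hd hdd => hc d hd hdd
    haveI : Fact r'.Prime := ⟨hr'⟩
    obtain ⟨x, hx⟩ := exists_prime_orderOf_dvd_card' r hrd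
    obtain ⟨y, hy⟩ := exists_prime_orderOf_dvd_card' r' hr'd
    rw [← Subgroup.orderOf_coe] at hx hy
    refine (h.bound.subgroup M).not_commute_primes hx
      (show orderOf (φ (y : M)) = r' by rw [MulEquiv.orderOf_eq, hy]) hr hr' hne.symm ?_
    exact Subgroup.commute_of_normal_of_disjoint S S' hSn hS'n hdisj _ _ x.2 ⟨y, y.2, rfl⟩
  have hnc : ¬ IsMulCommutative M := fun hc => hnsol M hM.1 hM.2
    (Group.isSolvable_of_comm fun a b => hc.is_comm.comm a b)
  refine ⟨M, hM.1, hsimple, hnc, (h.bound.subgroup M).card_simple hnc, ?_⟩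
  haveI := hsimple
  rw [Subgroup.eq_bot_iff_forall]
  by_contra hc
  push Not at hc
  obtain ⟨c, hcC, hc1⟩ := hc
  obtain ⟨r, hr, k, hk⟩ := Nat.exists_prime_and_dvd (n := orderOf c)
    (fun e => hc1 (orderOf_eq_one_iff.mp e))
  have hor : orderOf (c ^ k) = r := by
    have h1 := orderOf_pos c
    rw [orderOf_pow, hk, Nat.gcd_eq_right (dvd_mul_left k r), Nat.mul_div_cancel _ ?_]
    rcases Nat.eq_zero_or_pos k with e | e
    · rw [e, mul_zero] at hk; omega
    · exact e
  have key : ∀ s, (s = 3 ∨ s = 5) → r = s := by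
    intro s hs
    by_contra hne
    have hsp : s.Prime := by rcases hs with rfl | rfl <;> norm_num
    haveI : Fact s.Prime := ⟨hsp⟩
    obtain ⟨m, hm⟩ := exists_prime_orderOf_dvd_card' (G := M) s
      ((h.bound.subgroup M).dvd_card hnc (by tauto))
    rw [← Subgroup.orderOf_coe] at hm
    exact h.bound.not_commute_primes hm hor hsp hr (Ne.symm hne)
      (mem_centralizer_iff.mp (pow_mem hcC k) m m.2)
  have h3' := key 3 (Or.inl rfl)
  have h5' := key 5 (Or.inr rfl)
  omega

end Cfsg.Agent.SpecFive
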