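import Cfsg.Agent.SpecFive.Full
import Cfsg.Agent.Invol.BaerSuzuki
import Cfsg.Agent.S0497
import Mathlib.GroupTheory.Perm.Cycle.Type
import Mathlib.GroupTheory.SpecificGroups.Cyclic

/-!
# A group with element orders at most five over a simple normal subgroup equals it
-/

set_option autoImplicit false
set_option linter.unusedSectionVars false
set_option linter.style.haveILetI false

namespace Cfsg.Agent.SpecFive

open Subgroup
open scoped Classical

universe u

theorem cycleType_of_order_four {σ : Equiv.Perm (Fin 6)} (h4 : σ ^ 4 = 1) (h2 : σ ^ 2 ≠ 1)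
    (hs : Equiv.Perm.sign σ = 1) : σ.cycleType = {4, 2} := by
  have hord : orderOf σ = 4 := orderOf_eq_prime_pow (p := 2) (n := 1) (by simpa using h2) (by simpa using h4)
  have hmem : ∀ n ∈ σ.cycleType, n = 2 ∨ n = 4 := by
    intro n hn
    have h1 : n ∣ 4 := hord ▸ Equiv.Perm.dvd_of_mem_cycleType hn
    have h3 := Equiv.Perm.two_le_of_mem_cycleType hn
    have := Nat.le_of_dvd (by norm_num) h1
    interval_cases n <;> simp_all
  have h4m : 4 ∈ σ.cycleType := by
    by_contra hc
    have h1 : σ.cycleType.lcm ∣ 2 := Multiset.lcm_dvd.mpr fun n hn => by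
      rcases hmem n hn with rfl | rfl
      · exact dvd_rfl
      · exact absurd hn hc
    rw [Equiv.Perm.lcm_cycleType, hord] at h1
    norm_num at h1
  obtain ⟨m, hm⟩ := Multiset.exists_cons_of_mem h4m
  have hsum := Equiv.Perm.sum_cycleType σ
  have hle : σ.support.card ≤ 6 := (Finset.card_le_univ _).trans (by simp)
  rw [hm, Multiset.sum_cons] at hsum
  have hm2 : ∀ n ∈ m, n = 2 := fun n hn => by
    have h1 := hmem n (by rw [hm]; exact Multiset.mem_cons_of_mem hn)
    have h5 := Multiset.le_sum_of_mem hn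
    omega
  have hrep : m = Multiset.replicate (Multiset.card m) 2 := Multiset.eq_replicate_card.mpr hm2
  rw [hrep, Multiset.sum_replicate, smul_eq_mul] at hsum
  have hcases : Multiset.card m = 0 ∨ Multiset.card m = 1 := by omega
  rcases hcases with e | e
  · exfalso
    rw [e, Multiset.replicate_zero] at hrep
    have h7 := Equiv.Perm.sign_of_cycleType σ
    rw [hm, hrep, hs] at h7
    simp at h7
    exact absurd h7 (by decide)
  · rw [e, Multiset.replicate_one] at hrep
    rw [hm, hrep]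
    rfl

/-- In `A6` elements of order four are inverted by involutions. -/
theorem alt_six_inverted (σ : alternatingGroup (Fin 6)) (h4 : σ ^ 4 = 1) (h2 : σ ^ 2 ≠ 1) :
    ∃ v : alternatingGroup (Fin 6), v ^ 2 = 1 ∧ v * σ * v = σ⁻¹ := by
  let x₀ : Equiv.Perm (Fin 6) := Equiv.swap 0 1 * Equiv.swap 1 2 * Equiv.swap 2 3 * Equiv.swap 4 5
  let v₀ : Equiv.Perm (Fin 6) := Equiv.swap 1 3 * Equiv.swap 4 5
  have hx := cycleType_of_order_four (σ := x₀) (by decide) (by decide) (by decide)
  have hσ := cycleType_of_order_four (σ := (σ : Equiv.Perm (Fin 6)))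
    (by simpa using congrArg Subtype.val h4)
    (fun e => h2 (Subtype.ext (by simpa using e))) (Equiv.Perm.mem_alternatingGroup.mp σ.2)
  obtain ⟨g, hg⟩ := isConj_iff.mp (Equiv.Perm.isConj_iff_cycleType_eq.mpr (hx.trans hσ.symm))
  have hv1 : v₀ ^ 2 = 1 := by decide
  have hv2 : v₀ * x₀ * v₀ = x₀⁻¹ := by decide
  refine ⟨⟨g * v₀ * g⁻¹, ?_⟩, ?_, ?_⟩
  · rw [Equiv.Perm.mem_alternatingGroup, map_mul, map_mul, map_inv, mul_right_comm, mul_inv_cancel,
      one_mul]
    decide
  · refine Subtype.ext ?_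
    simp only [SubmonoidClass.coe_pow, OneMemClass.coe_one]
    rw [conj_pow, hv1, mul_one, mul_inv_cancel]
  · refine Subtype.ext ?_
    simp only [Subgroup.coe_mul, Subgroup.coe_inv]
    rw [← hg]
    calc g * v₀ * g⁻¹ * (g * x₀ * g⁻¹) * (g * v₀ * g⁻¹) = g * (v₀ * x₀ * v₀) * g⁻¹ := by group
      _ = (g * x₀ * g⁻¹)⁻¹ := by rw [hv2]; group

variable {G : Type u} [Group G] [Finite G] {M : Subgroup G} [M.Normal]

/-- Frattini: normalizers of Sylow subgroups of a normal subgroup. -/
theorem card_normalizer_map {p : ℕ} [Fact p.Prime] (P : Sylow p M) :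
    Nat.card (normalizer (((P : Subgroup M).map M.subtype : Subgroup G) : Set G)) =
      M.index * Nat.card (normalizer ((P : Subgroup M) : Set M)) := by
  set N := normalizer (((P : Subgroup M).map M.subtype : Subgroup G) : Set G) with hN
  set f := (QuotientGroup.mk' M).comp N.subtype with hf
  have hsurj : Function.Surjective f := fun q => by
    obtain ⟨g, rfl⟩ := QuotientGroup.mk'_surjective M q
    have hg : g ∈ N ⊔ M := by rw [hN, Sylow.normalizer_sup_eq_top P]; exact mem_top g
    obtain ⟨n, hn, l, hl, rfl⟩ := Subgroup.mem_sup_of_normal_right.mp hg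
    refine ⟨⟨n, hn⟩, ?_⟩
    show QuotientGroup.mk' M n = _
    rw [map_mul, show QuotientGroup.mk' M l = 1 from (QuotientGroup.eq_one_iff (N := M) l).mpr hl,
      mul_one]
  have h1 := f.ker.card_mul_index
  rw [Subgroup.index_ker, MonoidHom.range_eq_top.mpr hsurj, Subgroup.card_top] at h1
  rw [← h1, mul_comm]
  congr 1
  refine Nat.card_eq_of_bijective (fun n : f.ker =>
    (⟨⟨((n : N) : G), (QuotientGroup.eq_one_iff (N := M) ((n : N) : G)).mp (MonoidHom.mem_ker.mp n.2)⟩, ?_⟩ :
      normalizer ((P : Subgroup M) : Set M))) ⟨?_, ?_⟩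
  · refine mem_normalizer_iff.mpr fun x => ?_
    have h2 := mem_normalizer_iff.mp (n : N).2 (x : G)
    refine ⟨fun hx => ?_, fun hx => ?_⟩
    · exact (Subgroup.mem_map_iff_mem M.subtype_injective).mp (h2.mp (mem_map_of_mem _ hx))
    · obtain ⟨y, hy, e⟩ := h2.mpr ⟨_, hx, rfl⟩
      exact (show y = x from Subtype.ext e) ▸ hy
  · intro a b e
    exact Subtype.ext (Subtype.ext (congrArg (fun z : normalizer ((P : Subgroup M) : Set M) =>
      ((z : M) : G)) e))
  · rintro ⟨⟨g, hgM⟩, hg⟩
    have hgN : g ∈ N := by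
      rw [hN, mem_normalizer_iff]
      intro x
      constructor
      · rintro ⟨y, hy, rfl⟩
        exact ⟨⟨g, hgM⟩ * y * ⟨g, hgM⟩⁻¹, (mem_normalizer_iff.mp hg y).mp hy, rfl⟩
      · rintro ⟨y, hy, e⟩
        refine ⟨⟨g, hgM⟩⁻¹ * y * ⟨g, hgM⟩, (mem_normalizer_iff''.mp hg y).mp hy, ?_⟩
        simp only [coe_subtype, Subgroup.coe_mul, Subgroup.coe_inv] at e ⊢
        rw [e]; group
    exact ⟨⟨⟨g, hgN⟩, MonoidHom.mem_ker.mpr ((QuotientGroup.eq_one_iff (N := M) g).mpr hgM)⟩, rfl⟩

/-- The normalizer of a subgroup of order three or five. -/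
theorem Bound.card_normalizer_zpowers (h : Bound G) {p : ℕ} [Fact p.Prime] (hp : p = 3 ∨ p = 5)
    {x : G} (hx : orderOf x = p) :
    ∃ j, Nat.card (normalizer ((zpowers x : Subgroup G) : Set G)) ∣ (p - 1) * p ^ j := by
  set f := normalizerMonoidHom (zpowers x) with hf
  have hker : IsPGroup p f.ker := by
    intro n
    refine ⟨1, Subtype.ext (Subtype.ext ?_)⟩
    have hn := MonoidHom.mem_ker.mp n.2
    have h1 := DFunLike.congr_fun hn (⟨x, mem_zpowers x⟩ : zpowers x)
    have e : ((n : normalizer ((zpowers x : Subgroup G) : Set G)) : G) * x *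
        ((n : normalizer ((zpowers x : Subgroup G) : Set G)) : G)⁻¹ = x := congrArg Subtype.val h1
    have hx1 : x ≠ 1 := fun e' => by
      rw [e', orderOf_one] at hx; exact (Fact.out : p.Prime).ne_one hx.symm
    simpa using h.pow_eq_one_of_commute hp hx1 (by rw [← hx, pow_orderOf_eq_one])
      ((mul_inv_eq_iff_eq_mul.mp e).symm : Commute x _)
  obtain ⟨j, hj⟩ := IsPGroup.iff_card.mp hker
  refine ⟨j, ?_⟩
  have h1 := f.ker.card_mul_index
  rw [Subgroup.index_ker, hj, mul_comm] at h1
  rw [← h1]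
  refine mul_dvd_mul ?_ dvd_rfl
  have h2 := Subgroup.card_subgroup_dvd_card f.range
  rwa [IsCyclic.card_mulAut, Nat.card_zpowers, hx, Nat.totient_prime Fact.out] at h2

theorem sixty_facts (h : Bound G) [Fact (Nat.Prime 3)] [Fact (Nat.Prime 5)] (hs : IsSimpleGroup G)
    (hc : ¬ IsMulCommutative G) (hcard : Nat.card G = 60) (P : Sylow 3 G) (Q : Sylow 5 G) :
    Nat.card P = 3 ∧ eN P = 2 ∧ Nat.card Q = 5 ∧ eN Q = 2 := by
  have hP : Nat.card P = 3 := card_sylow_eq_prime P (by omega) (by omega)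
  have hQ : Nat.card Q = 5 := card_sylow_eq_prime Q (by omega) (by omega)
  have e1 := h.eN_cases (Or.inl rfl) P (P.ne_bot_of_dvd_card (by omega))
  have e2 := h.eN_cases (Or.inr rfl) Q (Q.ne_bot_of_dvd_card (by omega))
  letI := Fintype.ofFinite G
  haveI := hs
  have f1 := h.eN_ne_one hc (Or.inl rfl) P (P.ne_bot_of_dvd_card (by omega))
  have f2 := h.eN_ne_one hc (Or.inr rfl) Q (Q.ne_bot_of_dvd_card (by omega))
  have h1 := card_sylow_mul P
  have h2 := card_sylow_mul Q
  rw [hP, hcard] at h1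
  rw [hQ, hcard] at h2
  have m1 := card_sylow_modEq_one 3 G
  have m2 := card_sylow_modEq_one 5 G
  have hne5 : eN P ≠ 5 := by
    intro e
    obtain ⟨y, hy⟩ := exists_prime_orderOf_dvd_card' 5
      ((dvd_of_eq e.symm).trans (Dvd.intro _ (card_normalizer_sylow P).symm))
    rw [← Subgroup.orderOf_coe] at hy
    haveI : IsCyclic (P : Subgroup G) := isCyclic_of_prime_card hP
    obtain ⟨x, hx⟩ := exists_prime_orderOf_dvd_card' (G := (P : Subgroup G)) 3 (dvd_of_eq hP.symm)
    rw [← Subgroup.orderOf_coe] at hx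
    have hPx : zpowers (x : G) = (P : Subgroup G) := Subgroup.eq_of_le_of_card_ge
      (zpowers_le.mpr x.2) (by rw [Nat.card_zpowers, hx, hP])
    refine h.not_commute_primes hx hy (by norm_num) (by norm_num) (by norm_num)
      (commute_of_normalizes (zmod_fix (Or.inr (Or.inl rfl)) (Or.inr rfl) (by norm_num)) hx hy ?_)
    rw [hPx]; exact (mem_normalizer_iff.mp y.2 x).mp x.2
  simp only [Finset.mem_insert, Finset.mem_singleton] at e1 e2
  unfold Nat.ModEq at m1 m2
  refine ⟨hP, ?_, hQ, ?_⟩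
  · rcases e1 with e | e | e | e | e <;> rw [e] at h1 <;> omega
  · rcases e2 with e | e | e | e | e <;> rw [e] at h2 <;> omega

theorem threesixty_facts (h : Bound G) [Fact (Nat.Prime 3)] [Fact (Nat.Prime 5)]
    (hs : IsSimpleGroup G) (hc : ¬ IsMulCommutative G) (hcard : Nat.card G = 360) (P : Sylow 3 G)
    (Q : Sylow 5 G) : Nat.card P = 9 ∧ eN P = 4 ∧ Nat.card Q = 5 ∧ eN Q = 2 := by
  obtain ⟨k, hk⟩ := IsPGroup.iff_card.mp P.2
  have hP : Nat.card P = 9 := by
    have hd := P.pow_dvd_card_of_pow_dvd_card (n := 2) (by rw [hcard]; norm_num)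
    have hd' := Subgroup.card_subgroup_dvd_card (P : Subgroup G)
    rw [hk] at hd hd' ⊢
    rw [hcard] at hd'
    have hk2 : 2 ≤ k := (Nat.pow_dvd_pow_iff_le_right (by norm_num)).mp hd
    have hk3 : k < 3 := by
      by_contra hc'
      have := (pow_dvd_pow 3 (show 3 ≤ k by omega)).trans hd'
      norm_num at this
    obtain rfl : k = 2 := by omega
    norm_num
  have hQ : Nat.card Q = 5 := card_sylow_eq_prime Q (by omega) (by omega)
  have e1 := h.eN_cases (Or.inl rfl) P (P.ne_bot_of_dvd_card (by omega))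
  have e2 := h.eN_cases (Or.inr rfl) Q (Q.ne_bot_of_dvd_card (by omega))
  letI := Fintype.ofFinite G
  haveI := hs
  have f1 := h.eN_ne_one hc (Or.inl rfl) P (P.ne_bot_of_dvd_card (by omega))
  have f2 := h.eN_ne_one hc (Or.inr rfl) Q (Q.ne_bot_of_dvd_card (by omega))
  have h1 := card_sylow_mul P
  have h2 := card_sylow_mul Q
  have m1 := h.sylow_count_mod (Or.inl rfl) P
  have m2 := h.sylow_count_mod (Or.inr rfl) Q
  rw [hP] at h1 m1
  rw [hQ] at h2 m2
  rw [hcard] at h1 h2
  simp only [Finset.mem_insert, Finset.mem_singleton] at e1 e2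
  refine ⟨hP, ?_, hQ, ?_⟩
  · rcases e1 with e | e | e | e | e <;> rw [e] at h1 <;> omega
  · rcases e2 with e | e | e | e | e <;> rw [e] at h2 <;> omega

/-- No extension of index two over a simple group of order 360. -/
theorem Bound.index_ne_two (h : Bound G)
    (hcore : ∀ V : Subgroup G, V.Normal → IsPGroup 2 V → V = ⊥) (hs : IsSimpleGroup M)
    (hc : ¬ IsMulCommutative M) (hcard : Nat.card M = 360) : M.index ≠ 2 := by
  intro hidx
  haveI := hs
  haveI : Fact (Nat.Prime 2) := ⟨Nat.prime_two⟩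
  haveI : Fact (Nat.Prime 3) := ⟨by norm_num⟩
  haveI : Fact (Nat.Prime 5) := ⟨by norm_num⟩
  have hG : Nat.card G = 720 := by rw [← M.card_mul_index, hcard, hidx]
  have hmem : ∀ {z : G}, Odd (orderOf z) → z ∈ M := by
    intro z hz
    rw [← QuotientGroup.eq_one_iff (N := M)]
    refine orderOf_eq_one_iff.mp (Nat.Coprime.eq_one_of_dvd
      ((Nat.coprime_two_right.mpr hz).coprime_dvd_left (orderOf_map_dvd (QuotientGroup.mk' M) z)) ?_)
    have h1 := orderOf_dvd_natCard (QuotientGroup.mk' M z)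
    rwa [show Nat.card (G ⧸ M) = 2 from hidx] at h1
  -- Sylow subgroups of odd order and their normalizers
  have hsylM : ∀ {p : ℕ} [Fact p.Prime], p ≠ 2 → ∀ R : Sylow p G, (R : Subgroup G) ≤ M := by
    intro p _ hp2 R z hz
    obtain ⟨i, hi⟩ := R.2 ⟨z, hz⟩
    exact hmem (((Fact.out : p.Prime).odd_of_ne_two hp2).pow.of_dvd_nat
      (orderOf_dvd_of_pow_eq_one (congrArg Subtype.val hi : z ^ p ^ i = 1)))
  have hinvM : ∀ {p : ℕ} [Fact p.Prime], (p = 3 ∨ p = 5) → ∀ R : Sylow p G, ∀ u : G,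
      orderOf u = 2 → u ∈ normalizer ((R : Subgroup G) : Set G) → u ∈ M := by
    intro p _ hp R u hu huN
    let R' := R.subtype (hsylM (by rcases hp with rfl | rfl <;> norm_num) R)
    have he : 2 ∣ eN R' := by
      obtain ⟨P⟩ : Nonempty (Sylow 3 M) := inferInstance
      obtain ⟨Q⟩ : Nonempty (Sylow 5 M) := inferInstance
      rcases hp with rfl | rfl
      · rw [(threesixty_facts (h.subgroup M) hs hc hcard R' Q).2.1]; norm_num
      · rw [(threesixty_facts (h.subgroup M) hs hc hcard P R').2.2.2]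
    obtain ⟨v, hv⟩ := exists_prime_orderOf_dvd_card' 2
      (he.trans (Dvd.intro _ (card_normalizer_sylow R').symm))
    rw [← Subgroup.orderOf_coe, ← Subgroup.orderOf_coe] at hv
    have hvR : ((v : M) : G) ∈ normalizer ((R : Subgroup G) : Set G) := by
      rw [mem_normalizer_iff]
      intro x
      refine ⟨fun hx => ?_, fun hx => ?_⟩
      · exact (mem_normalizer_iff.mp v.2 ⟨x, hsylM (by rcases hp with rfl | rfl <;> norm_num) R hx⟩).mp hx
      · have hxM : x ∈ M := by
          have h1 := hsylM (by rcases hp with rfl | rfl <;> norm_num) R hx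
          have := mul_mem (mul_mem (inv_mem (v : M).2) h1) (v : M).2
          simpa [mul_assoc] using this
        exact (mem_normalizer_iff.mp v.2 ⟨x, hxM⟩).mpr hx
    obtain ⟨x, hx, hx1⟩ : ∃ x ∈ (R : Subgroup G), x ≠ 1 := by
      by_contra hc'
      push Not at hc'
      exact R.ne_bot_of_dvd_card (by rcases hp with rfl | rfl <;> omega)
        ((Subgroup.eq_bot_iff_forall _).mpr hc')
    have hvv : ((v : M) : G) * (v : M) = 1 := by
      rw [← pow_two]; exact orderOf_dvd_iff_pow_eq_one.mp (dvd_of_eq hv)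
    have huu : u * u = 1 := by rw [← pow_two, ← hu, pow_orderOf_eq_one]
    have h2 : u * (v : M) ∈ (R : Subgroup G) := by
      refine h.centralizer_le hp R hx hx1 (Commute.symm ?_)
      refine commute_mul_of_inverts (h.inverts hp R hv hvR x hx) ?_ hvv huu
      rw [h.inverts hp R hu huN _ (inv_mem hx), inv_inv]
    have := mul_mem (hsylM (by rcases hp with rfl | rfl <;> norm_num) R h2) (v : M).2
    rwa [mul_assoc, hvv, mul_one] at this
  -- all involutions lie in `M`
  have hinvol : ∀ u : G, orderOf u = 2 → u ∈ M := by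
    intro u hu
    obtain ⟨z, hz1, hzo, hzi⟩ := Invol.exists_inverted_odd u hu fun N hN hNp hm => by
      rw [hcore N hN hNp, mem_bot] at hm
      simp [hm] at hu
    have hz35 : orderOf z = 3 ∨ orderOf z = 5 := by
      have h0 : orderOf z ≠ 1 := fun e => hz1 (orderOf_eq_one_iff.mp e)
      obtain ⟨c, hc'⟩ := hzo
      have := h z
      omega
    have key : ∀ {p : ℕ} [Fact p.Prime], (p = 3 ∨ p = 5) → orderOf z = p → u ∈ M := by
      intro p _ hp hzp
      obtain ⟨R, hR⟩ := (IsPGroup.of_card (G := zpowers z) (p := p) (n := 1)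
        (by rw [Nat.card_zpowers, hzp, pow_one])).exists_le_sylow
      refine hinvM hp R u hu (h.fusion hp R (hR (mem_zpowers z)) hz1 ?_)
      rw [hzi]; exact inv_mem (hR (mem_zpowers z))
    rcases hz35 with e | e
    · exact key (Or.inl rfl) e
    · exact key (Or.inr rfl) e
  -- the normalizer of a Sylow three-subgroup
  obtain ⟨R⟩ : Nonempty (Sylow 3 G) := inferInstance
  set R' := R.subtype (hsylM (by norm_num) R)
  obtain ⟨Q⟩ : Nonempty (Sylow 5 M) := inferInstance
  obtain ⟨hR9, heR, -, -⟩ := threesixty_facts (h.subgroup M) hs hc hcard R' Q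
  set N := normalizer ((R : Subgroup G) : Set G) with hNdef
  have hRmap : (R' : Subgroup M).map M.subtype = (R : Subgroup G) := by
    rw [show (R' : Subgroup M) = (R : Subgroup G).subgroupOf M from rfl, subgroupOf_map_subtype,
      inf_eq_left.mpr (hsylM (by norm_num) R)]
  have hNcard : Nat.card N = 72 := by
    have h1 := card_normalizer_map R'
    rw [hRmap, hidx, card_normalizer_sylow R', heR, hR9] at h1
    exact h1
  obtain ⟨S⟩ : Nonempty (Sylow 2 N) := inferInstance
  have hS8 : 8 ∣ Nat.card S := S.pow_dvd_card_of_pow_dvd_card (n := 3) (by rw [hNcard]; norm_num)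
  have hpow4 : ∀ x : S, x ^ 4 = 1 := by
    intro x
    obtain ⟨j, hj⟩ := S.2 x
    obtain ⟨k, -, hk⟩ := (Nat.dvd_prime_pow Nat.prime_two).mp (orderOf_dvd_of_pow_eq_one hj)
    refine orderOf_dvd_iff_pow_eq_one.mp ?_
    have hle := h ((x : N) : G)
    rw [Subgroup.orderOf_coe, Subgroup.orderOf_coe, hk] at hle
    rw [hk]
    have hk2 : k ≤ 2 := by
      by_contra hlt
      have := Nat.pow_le_pow_right (show 0 < 2 by omega) (show 3 ≤ k by omega)
      omega
    exact (pow_dvd_pow 2 hk2 : 2 ^ k ∣ 2 ^ 2)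
  -- uniqueness of the involution of `S`
  obtain ⟨x₀, hx₀, hx₀1⟩ : ∃ x ∈ (R : Subgroup G), x ≠ 1 := by
    by_contra hc'
    push Not at hc'
    exact R.ne_bot_of_dvd_card (by omega) ((Subgroup.eq_bot_iff_forall _).mpr hc')
  have huniq : ∀ x y : S, x ≠ 1 → y ≠ 1 → x ^ 2 = 1 → y ^ 2 = 1 → x = y := by
    intro x y hx hy hx2 hy2
    have hord : ∀ z : S, z ≠ 1 → z ^ 2 = 1 → orderOf ((z : N) : G) = 2 := fun z hz hz2 => by
      rw [Subgroup.orderOf_coe, Subgroup.orderOf_coe]; exact orderOf_eq_prime hz2 hz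
    have hsq : ∀ z : S, z ≠ 1 → z ^ 2 = 1 → ((z : N) : G) * ((z : N) : G) = 1 := fun z hz hz2 => by
      rw [← pow_two]; exact orderOf_dvd_iff_pow_eq_one.mp (dvd_of_eq (hord z hz hz2))
    have hmem2 : ((x : N) : G) * ((y : N) : G) ∈ R := by
      refine h.centralizer_le (Or.inl rfl) R hx₀ hx₀1 (Commute.symm ?_)
      refine commute_mul_of_inverts (h.inverts (Or.inl rfl) R (hord y hy hy2) (y : N).2 x₀ hx₀) ?_
        (hsq y hy hy2) (hsq x hx hx2)
      rw [h.inverts (Or.inl rfl) R (hord x hx hx2) (x : N).2 _ (inv_mem hx₀), inv_inv]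
    have h3 : (x * y) ^ 3 = 1 := Subtype.ext (Subtype.ext (by
      simpa using h.pow_eq_one_of_pgroup (Or.inl rfl) R.2 hmem2))
    have h4 : x * y = 1 := orderOf_eq_one_iff.mp (Nat.Coprime.eq_one_of_dvd
      ((show Nat.Coprime 3 4 by decide).coprime_dvd_left (orderOf_dvd_of_pow_eq_one h3))
      (orderOf_dvd_of_pow_eq_one (hpow4 (x * y))))
    calc x = x * y ^ 2 := by rw [hy2, mul_one]
      _ = x * y * y := by rw [pow_two, mul_assoc]
      _ = y := by rw [h4, one_mul]
  -- the intersection with `M` contains an element of order four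
  set F := (M.subgroupOf N).subgroupOf (S : Subgroup N) with hF
  have hFidx : F.index ∣ 2 := by
    have h0 : (S : Subgroup N) ⊔ ⊥ ≤ ⊤ := le_top
    haveI : (M.subgroupOf N).Normal := inferInstance
    have h1 : F.index ∣ (M.subgroupOf N).index := Subgroup.relIndex_dvd_index_of_normal _ _
    refine h1.trans ?_
    have h2 : (M.subgroupOf N).index ∣ M.index := Subgroup.relIndex_dvd_index_of_normal M N
    exact hidx ▸ h2
  obtain ⟨c, hcM, hc2⟩ : ∃ c : S, ((c : N) : G) ∈ M ∧ c ^ 2 ≠ 1 := by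
    by_contra hc'
    push Not at hc'
    have h1 : Nat.card F ≤ 2 := by
      letI := Fintype.ofFinite F
      rw [Nat.card_eq_fintype_card, ← Finset.card_univ,
        ← Finset.card_erase_add_one (Finset.mem_univ (1 : F))]
      have : ((Finset.univ : Finset F).erase 1).card ≤ 1 := Finset.card_le_one.mpr fun a ha b hb =>
        Subtype.ext (huniq a b (fun e => Finset.ne_of_mem_erase ha (Subtype.ext e))
          (fun e => Finset.ne_of_mem_erase hb (Subtype.ext e)) (hc' a a.2) (hc' b b.2))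
      omega
    have h2 := Nat.le_of_dvd Nat.card_pos hS8
    rw [← F.card_mul_index] at h2
    have := Nat.le_of_dvd two_pos hFidx
    nlinarith
  -- and `S` has an element outside
  obtain ⟨q, hqM⟩ : ∃ q : S, ((q : N) : G) ∉ M := by
    by_contra hc'
    push Not at hc'
    have h1 : 8 ∣ Nat.card ((S : Subgroup N).map N.subtype) := by
      rwa [Nat.card_congr (Subgroup.equivMapOfInjective _ _ N.subtype_injective).toEquiv.symm]
    have h2 : (S : Subgroup N).map N.subtype ≤ N ⊓ M := by
      rintro _ ⟨x, hx, rfl⟩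
      exact mem_inf.mpr ⟨x.2, hc' ⟨x, hx⟩⟩
    have h3 : Nat.card (N ⊓ M : Subgroup G) ∣ 36 := by
      rw [← subgroupOf_map_subtype N M,
        Nat.card_congr (Subgroup.equivMapOfInjective _ _ M.subtype_injective).toEquiv.symm]
      refine dvd_of_eq ?_
      rw [show N.subgroupOf M = normalizer ((R' : Subgroup M) : Set M) from ?_, card_normalizer_sylow,
        heR, hR9]
      ext m
      rw [mem_subgroupOf, mem_normalizer_iff, mem_normalizer_iff]
      refine ⟨fun hm x => hm x, fun hm x => ?_⟩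
      by_cases hx : x ∈ M
      · exact hm ⟨x, hx⟩
      · refine ⟨fun hxR => absurd (hsylM (by norm_num) R hxR) hx, fun hxR => ?_⟩
        refine absurd ?_ hx
        have := mul_mem (mul_mem (inv_mem m.2) (hsylM (by norm_num) R hxR)) m.2
        simpa [mul_assoc] using this
    have h4 := (h1.trans (Subgroup.card_dvd_of_le h2)).trans h3
    norm_num at h4
  have hq4 : ∀ z : S, ((z : N) : G) ∉ M → z ^ 2 = c ^ 2 := by
    intro z hz
    have h2 : z ^ 2 ≠ 1 := fun e => hz (hinvol _ (by
      rw [Subgroup.orderOf_coe, Subgroup.orderOf_coe]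
      exact orderOf_eq_prime e fun e1 => hz (by rw [e1]; exact one_mem M)))
    exact huniq _ _ h2 hc2 (by rw [← pow_mul]; exact hpow4 z) (by rw [← pow_mul]; exact hpow4 c)
  set cG : G := ((c : N) : G)
  set qG : G := ((q : N) : G)
  have hq2 : qG ^ 2 = cG ^ 2 := congrArg (fun z : S => ((z : N) : G)) (hq4 q hqM)
  have hqcM : qG * cG ∉ M := fun e => hqM (by
    have := mul_mem e (inv_mem hcM)
    rwa [mul_inv_cancel_right] at this)
  have hqc2 : (qG * cG) ^ 2 = cG ^ 2 := congrArg (fun z : S => ((z : N) : G)) (hq4 (q * c) hqcM)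
  have hqconj : qG * cG * qG⁻¹ = cG⁻¹ := by
    have h1 : qG * cG * (qG * cG) = qG * qG := by rw [← pow_two, hqc2, ← pow_two, hq2]
    rw [mul_assoc, mul_right_inj] at h1
    calc qG * cG * qG⁻¹ = cG⁻¹ * (cG * (qG * cG)) * qG⁻¹ := by group
      _ = cG⁻¹ := by rw [h1]; group
  -- an involution inverting `c` in `M`
  obtain ⟨φ⟩ := S0497.result (G := M) hcard
  have hc4 : cG ^ 4 = 1 := congrArg (fun z : S => ((z : N) : G)) (hpow4 c)
  have hc2' : cG ^ 2 ≠ 1 := fun e => hc2 (Subtype.ext (Subtype.ext e))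
  obtain ⟨v', hv2, hvinv⟩ := alt_six_inverted (φ ⟨cG, hcM⟩)
    (by rw [← map_pow, show (⟨cG, hcM⟩ : M) ^ 4 = 1 from Subtype.ext hc4, map_one])
    (by rw [← map_pow, ← map_one φ, φ.injective.ne_iff]; exact fun e => hc2' (congrArg Subtype.val e))
  set v : G := ((φ.symm v' : M) : G)
  have hvv : v * v = 1 := by
    rw [← Subgroup.coe_mul, ← map_mul, ← pow_two, hv2, map_one]; rfl
  have hvM : v ∈ M := (φ.symm v').2
  have hvc : v * cG * v = cG⁻¹ := by
    have h1 := congrArg (fun z => ((φ.symm z : M) : G)) hvinv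
    simpa [v] using h1
  have hvx : ∀ x : G, v * (v * x) = x := fun x => by rw [← mul_assoc, hvv, one_mul]
  set w := qG * v * qG⁻¹ with hwdef
  have hwc : w * cG * w = cG⁻¹ := by
    have e : qG⁻¹ * cG * qG = cG⁻¹ := by
      have h1 := congrArg (·⁻¹) hqconj
      simp only [mul_inv_rev, inv_inv] at h1
      calc qG⁻¹ * cG * qG = qG⁻¹ * (qG * (cG⁻¹ * qG⁻¹)) * qG := by rw [h1]
        _ = cG⁻¹ := by group
    have hvc' : v * cG⁻¹ * v = cG := by
      have h1 := congrArg (·⁻¹) hvc
      simpa [mul_inv_rev, inv_eq_of_mul_eq_one_right hvv, mul_assoc] using h1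
    rw [hwdef]
    calc qG * v * qG⁻¹ * cG * (qG * v * qG⁻¹) = qG * v * (qG⁻¹ * cG * qG) * v * qG⁻¹ := by group
      _ = qG * (v * cG⁻¹ * v) * qG⁻¹ := by rw [e]; group
      _ = cG⁻¹ := by rw [hvc', hqconj]
  have hwM : w ∈ M := ‹M.Normal›.conj_mem v hvM qG
  have hww : w * w = 1 := by
    rw [hwdef]
    calc qG * v * qG⁻¹ * (qG * v * qG⁻¹) = qG * (v * v) * qG⁻¹ := by group
      _ = 1 := by rw [hvv]; group
  have hcomm : Commute (w * v) cG :=
    commute_mul_of_inverts hvc (by
      have h1 := congrArg (·⁻¹) hwc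
      simpa [mul_inv_rev, inv_eq_of_mul_eq_one_right hww, mul_assoc] using h1) hvv hww
  -- the centraliser of `c` in `M` is cyclic of order four
  have hCc : ∀ z ∈ M, Commute z cG → z = 1 ∨ z = cG ∨ z = cG ^ 2 ∨ z = cG ^ 3 := by
    set C := centralizer ({(⟨cG, hcM⟩ : M)} : Set M) with hC
    have hCp : IsPGroup 2 C := by
      intro y
      refine ⟨2, Subtype.ext (Subtype.ext ?_)⟩
      have ht : orderOf (cG ^ 2) = 2 := orderOf_eq_prime (by rw [← pow_mul]; exact hc4) hc2'
      have hy := congrArg Subtype.val (mem_centralizer_singleton_iff.mp y.2)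
      simpa using h.pow_four_of_commute ht (Commute.pow_left (show Commute cG ((y : M) : G) from hy.symm) 2)
    set vM : M := φ.symm v' with hvMdef
    have hvM' : vM * ⟨cG, hcM⟩ * vM = ⟨cG, hcM⟩⁻¹ := Subtype.ext hvc
    have hvv' : vM * vM = 1 := Subtype.ext hvv
    have hvN : vM ∈ normalizer (C : Set M) := by
      have key : ∀ x ∈ C, vM * x * vM⁻¹ ∈ C := by
        intro x hx
        rw [hC, mem_centralizer_singleton_iff] at hx ⊢
        rw [inv_eq_of_mul_eq_one_right hvv']
        have hx' : x * (⟨cG, hcM⟩ : M)⁻¹ = (⟨cG, hcM⟩ : M)⁻¹ * x := (Commute.inv_right hx).eq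
        rw [← hvM'] at hx'
        calc vM * x * vM * ⟨cG, hcM⟩
            = vM * (x * (vM * ⟨cG, hcM⟩ * vM)) * vM := by simp [mul_assoc, hvv']
          _ = vM * ((vM * ⟨cG, hcM⟩ * vM) * x) * vM := by rw [hx']
          _ = ⟨cG, hcM⟩ * (vM * x * vM) := by simp [← mul_assoc, hvv']
      rw [mem_normalizer_iff]
      intro x
      refine ⟨key x, fun hx => ?_⟩
      have h1 := key _ hx
      rwa [inv_eq_of_mul_eq_one_right hvv', ← mul_assoc, ← mul_assoc, hvv', one_mul, mul_assoc,
        hvv', mul_one] at h1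
    have hvC : vM ∉ C := fun e => hc2' (by
      have h1 := congrArg Subtype.val (mem_centralizer_singleton_iff.mp e)
      have h2 : v * cG * v = cG := by rw [show v * cG = cG * v from h1, mul_assoc, hvv, mul_one]
      rw [hvc] at h2
      rw [pow_two]
      calc cG * cG = cG * cG⁻¹ := by rw [h2]
        _ = 1 := mul_inv_cancel cG)
    have hzp : IsPGroup 2 (zpowers vM) := IsPGroup.of_card (n := 1) (by
      rw [Nat.card_zpowers, pow_one]
      exact orderOf_eq_prime (by rw [pow_two, hvv']) fun e => hvC (e ▸ one_mem C))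
    obtain ⟨T, hT⟩ := (hzp.to_sup_of_normal_right' hCp (zpowers_le.mpr hvN)).exists_le_sylow
    have hT8 : Nat.card T ≤ 8 := by
      obtain ⟨i, hi⟩ := IsPGroup.iff_card.mp T.2
      have hd := Subgroup.card_subgroup_dvd_card (T : Subgroup M)
      rw [hi, hcard] at hd
      rw [hi]
      have : i ≤ 3 := by
        by_contra hc'
        have := (pow_dvd_pow 2 (show 4 ≤ i by omega)).trans hd
        norm_num at this
      calc 2 ^ i ≤ 2 ^ 3 := Nat.pow_le_pow_right two_pos this
        _ = 8 := rfl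
    have hC4 : Nat.card C ≤ 4 := by
      have h1 : C < (T : Subgroup M) := lt_of_le_of_ne (le_sup_right.trans hT)
        fun e => hvC (e ▸ hT (mem_sup_left (mem_zpowers _)))
      have h2 := Subgroup.card_dvd_of_le h1.le
      have h3 : Nat.card C ≠ Nat.card T := fun e => h1.ne (Subgroup.eq_of_le_of_card_ge h1.le e.ge)
      obtain ⟨d, hd⟩ := h2
      rcases d with _ | _ | d
      · rw [mul_zero] at hd
        exact absurd hd Nat.card_pos.ne'
      · omega
      · nlinarith
    have hco : orderOf (⟨cG, hcM⟩ : M) = 4 := by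
      refine orderOf_eq_prime_pow (p := 2) (n := 1) ?_ (Subtype.ext (by simpa using hc4))
      exact fun e => hc2' (by simpa using congrArg Subtype.val e)
    have hz : zpowers (⟨cG, hcM⟩ : M) = C := Subgroup.eq_of_le_of_card_ge
      (zpowers_le.mpr (mem_centralizer_singleton_iff.mpr rfl)) (by rw [Nat.card_zpowers, hco]; exact hC4)
    intro z hzM hzc
    have h1 : (⟨z, hzM⟩ : M) ∈ C := mem_centralizer_singleton_iff.mpr (Subtype.ext hzc.eq)
    rw [← hz, mem_zpowers_iff_mem_range_orderOf, hco] at h1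
    obtain ⟨i, hi, e⟩ := Finset.mem_image.mp h1
    have e' : cG ^ i = z := congrArg Subtype.val e
    rw [Finset.mem_range] at hi
    interval_cases i <;> simp_all
  -- an element `qG'` outside `M` with `qG' v qG'⁻¹ = c ^ 2 v`
  have hfinal : ∀ z : G, z ∉ M → z ^ 2 = cG ^ 2 → z * v * z⁻¹ = cG ^ 2 * v → False := by
    intro z hz hz2 hzv
    have h1 : (z * v) ^ 2 = 1 := by
      rw [pow_two]
      calc z * v * (z * v) = z * v * z⁻¹ * z ^ 2 * v := by group
        _ = cG ^ 2 * (v * cG * v) * (v * cG * v) := by rw [hzv, hz2]; simp [pow_two, mul_assoc, hvv, hvx]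
        _ = 1 := by rw [hvc]; simp [pow_two, mul_assoc]
    have hne : z * v ∉ M := fun e => hz (by
      have := mul_mem e hvM
      rwa [mul_assoc, hvv, mul_one] at this)
    exact hne (hinvol _ (orderOf_eq_prime h1 fun e => hne (e ▸ one_mem M)))
  have hwv : w = w * v * v := by rw [mul_assoc, hvv, mul_one]
  rcases hCc _ (mul_mem hwM hvM) hcomm with e | e | e | e
  · -- replace `q` by `q c`
    rw [e, one_mul] at hwv
    refine hfinal (qG * cG) hqcM hqc2 ?_
    have e1 : cG * v * cG⁻¹ = cG ^ 2 * v := by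
      rw [← hvc]; simp [pow_two, mul_assoc, hvv, hvx]
    calc qG * cG * v * (qG * cG)⁻¹ = qG * (cG * v * cG⁻¹) * qG⁻¹ := by group
      _ = qG * cG * qG⁻¹ * (qG * cG * qG⁻¹) * (qG * v * qG⁻¹) := by rw [e1, pow_two]; group
      _ = cG ^ 2 * v := by
        rw [hqconj, ← hwdef, hwv, ← mul_inv_rev, ← pow_two]
        congr 1
        exact inv_eq_of_mul_eq_one_right (by rw [← pow_add]; exact hc4)
  · exfalso
    rw [e] at hwv
    have h2 : (qG * v) ^ 2 = cG ^ 3 := by
      rw [pow_two]
      calc qG * v * (qG * v) = qG * v * qG⁻¹ * qG ^ 2 * v := by group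
        _ = cG * ((v * cG * v) * (v * cG * v)) := by
          rw [← hwdef, hwv, hq2]; simp [pow_two, mul_assoc, hvv, hvx]
        _ = cG ^ 3 := by
          rw [hvc, inv_eq_of_mul_eq_one_right (show cG * cG ^ 3 = 1 by rw [← pow_succ']; exact hc4)]
          simp only [← pow_add, ← pow_succ']
          rw [show 3 + 3 + 1 = 4 + 3 from rfl, pow_add, hc4, one_mul]
    have h8 : orderOf (qG * v) = 8 := by
      refine orderOf_eq_prime_pow (p := 2) (n := 2) (fun e' => hc2' ?_) ?_
      · rw [show (2 : ℕ) ^ 2 = 2 * 2 from rfl, pow_mul, h2, ← pow_mul,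
          show 3 * 2 = 4 + 2 from rfl, pow_add, hc4, one_mul] at e'
        exact e'
      · rw [show (2 : ℕ) ^ (2 + 1) = 2 * 4 from rfl, pow_mul, h2, ← pow_mul, mul_comm, pow_mul, hc4,
          one_pow]
    have := h (qG * v)
    omega
  · rw [e] at hwv
    exact hfinal qG hqM hq2 hwv
  · exfalso
    rw [e] at hwv
    have h2 : (qG * v) ^ 2 = cG := by
      rw [pow_two]
      calc qG * v * (qG * v) = qG * v * qG⁻¹ * qG ^ 2 * v := by group
        _ = cG ^ 3 * ((v * cG * v) * (v * cG * v)) := by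
          rw [← hwdef, hwv, hq2]; simp [pow_two, mul_assoc, hvv, hvx]
        _ = cG := by rw [hvc]; group
    have h8 : orderOf (qG * v) = 8 := by
      refine orderOf_eq_prime_pow (p := 2) (n := 2) (fun e' => hc2' ?_) ?_
      · rw [show (2 : ℕ) ^ 2 = 2 * 2 from rfl, pow_mul, h2] at e'
        exact e'
      · rw [show (2 : ℕ) ^ (2 + 1) = 2 * 4 from rfl, pow_mul, h2, hc4]
    have := h (qG * v)
    omega

/-- The simple normal subgroup is everything. -/
theorem Bound.index_eq_one (h : Bound G)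
    (hcore : ∀ V : Subgroup G, V.Normal → IsPGroup 2 V → V = ⊥) (hs : IsSimpleGroup M)
    (hc : ¬ IsMulCommutative M) (hcard : Nat.card M = 60 ∨ Nat.card M = 360) : M.index = 1 := by
  haveI : Fact (Nat.Prime 3) := ⟨by norm_num⟩
  haveI : Fact (Nat.Prime 5) := ⟨by norm_num⟩
  obtain ⟨P⟩ : Nonempty (Sylow 3 M) := inferInstance
  obtain ⟨Q⟩ : Nonempty (Sylow 5 M) := inferInstance
  have h5 : Nat.card Q = 5 ∧ eN Q = 2 := by
    rcases hcard with e | e
    · exact (sixty_facts (h.subgroup M) hs hc e P Q).2.2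
    · exact (threesixty_facts (h.subgroup M) hs hc e P Q).2.2
  have hbound : ∀ {p : ℕ} [Fact p.Prime], (p = 3 ∨ p = 5) → ∀ R : Sylow p M, Nat.card R = p →
      eN R = 2 → ∃ j, M.index * (2 * p) ∣ (p - 1) * p ^ j := by
    intro p _ hp R hR heR
    obtain ⟨x, hx⟩ := exists_prime_orderOf_dvd_card' (G := (R : Subgroup M)) p (dvd_of_eq hR.symm)
    rw [← Subgroup.orderOf_coe, ← Subgroup.orderOf_coe] at hx
    obtain ⟨j, hj⟩ := h.card_normalizer_zpowers hp hx
    have hz : zpowers ((x : M) : G) = (R : Subgroup M).map M.subtype := by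
      refine Subgroup.eq_of_le_of_card_ge (zpowers_le.mpr (mem_map_of_mem _ x.2)) ?_
      rw [Nat.card_zpowers, hx,
        Nat.card_congr (Subgroup.equivMapOfInjective _ _ M.subtype_injective).toEquiv.symm, hR]
    rw [hz, card_normalizer_map, card_normalizer_sylow, heR, hR] at hj
    exact ⟨j, hj⟩
  obtain ⟨j5, hj5⟩ := hbound (Or.inr rfl) Q h5.1 h5.2
  have hk2 : M.index ∣ 2 * 5 ^ j5 := by
    have h1 : M.index * 2 * 5 ∣ 2 * 5 ^ j5 * 2 := by
      rw [mul_assoc, show 2 * 5 ^ j5 * 2 = (5 - 1) * 5 ^ j5 by ring]; exact hj5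
    have h2 : M.index * 2 ∣ 2 * 5 ^ j5 * 2 := (dvd_mul_right _ _).trans h1
    exact Nat.dvd_of_mul_dvd_mul_right (by norm_num) h2
  rcases hcard with e | e
  · obtain ⟨hP, heP, -, -⟩ := sixty_facts (h.subgroup M) hs hc e P Q
    obtain ⟨j3, hj3⟩ := hbound (Or.inl rfl) P hP heP
    have hk3 : M.index ∣ 3 ^ j3 := by
      have h1 : M.index * (2 * 3) ∣ 3 ^ j3 * 2 := by
        rw [mul_comm (3 ^ j3) 2]; exact hj3
      have h2 : M.index * 2 ∣ 3 ^ j3 * 2 := (Dvd.intro 3 (by ring)).trans h1
      exact Nat.dvd_of_mul_dvd_mul_right (by norm_num) h2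
    have hco : (3 ^ j3).Coprime (2 * 5 ^ j5) :=
      Nat.Coprime.mul_right (Nat.Coprime.pow_left j3 (show Nat.Coprime 3 2 by decide))
        (Nat.Coprime.pow j3 j5 (show Nat.Coprime 3 5 by decide))
    exact Nat.Coprime.eq_one_of_dvd (hco.coprime_dvd_left hk3) hk2
  · have h3 : ¬ 3 ∣ M.index := by
      intro h3
      have h1 := h3.trans hk2
      rcases (show Nat.Prime 3 by norm_num).dvd_mul.mp h1 with h' | h'
      · norm_num at h'
      · have := (show Nat.Prime 3 by norm_num).dvd_of_dvd_pow h'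
        norm_num at this
    -- a Sylow three-subgroup of `M` is one of `G`
    obtain ⟨hP, heP, -, -⟩ := threesixty_facts (h.subgroup M) hs hc e P Q
    have hPi : ¬ 3 ∣ ((P : Subgroup M).map M.subtype).index := by
      intro hd
      rw [Subgroup.index_map_subtype] at hd
      rcases (show Nat.Prime 3 by norm_num).dvd_mul.mp hd with h' | h'
      · exact P.not_dvd_index h'
      · exact h3 h'
    set R := (P.2.map M.subtype).toSylow hPi with hR
    have hRne : (R : Subgroup G) ≠ ⊥ := R.ne_bot_of_dvd_card (by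
      rw [← M.card_mul_index, e]; exact dvd_mul_of_dvd_left (by norm_num) _)
    have h1 := card_normalizer_sylow R
    have hcN := card_normalizer_map P
    rw [card_normalizer_sylow, heP, hP] at hcN
    have hRc : Nat.card R = 9 := by
      show Nat.card ((P : Subgroup M).map M.subtype) = 9
      rw [Nat.card_congr (Subgroup.equivMapOfInjective _ _ M.subtype_injective).toEquiv.symm, hP]
    have h4 : eN R * 9 = M.index * (4 * 9) := by
      rw [← hcN, ← hRc, ← h1]; rfl
    have h6 := h.eN_cases (Or.inl rfl) R hRne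
    simp only [Finset.mem_insert, Finset.mem_singleton] at h6
    have h7 : M.index = 1 ∨ M.index = 2 := by omega
    exact h7.resolve_right (h.index_ne_two hcore hs hc e)

end Cfsg.Agent.SpecFive
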