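import Cfsg.Agent.SpecFive.Normalizer
import Cfsg.Agent.Recog.Icosahedral
import Mathlib.Data.Set.Card

/-!
# Pairs of conjugate involutions and subgroups generated by a (2,3,5)-triple
-/

set_option autoImplicit false
set_option linter.unusedSectionVars false
set_option linter.style.haveILetI false

namespace Cfsg.Agent.SpecFive

open Subgroup
open scoped Pointwise Classical

variable {G : Type*} [Group G] [Finite G]

/-- Elements of order `p` in the Sylow `p`-subgroups. -/
theorem Bound.card_order_le (h : Bound G) {p : ℕ} [Fact p.Prime] (hp : p = 3 ∨ p = 5)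
    (P : Sylow p G) :
    Nat.card (Sylow p G) * (Nat.card P - 1) ≤ Nat.card {x : G // orderOf x = p} := by
  letI := Fintype.ofFinite (Sylow p G)
  let f : (Σ R : Sylow p G, {x : (R : Subgroup G) // x ≠ 1}) → {x : G // orderOf x = p} := fun z =>
    ⟨((z.2.1 : (z.1 : Subgroup G)) : G), orderOf_eq_prime (h.pow_eq_one_of_pgroup hp z.1.2 z.2.1.2)
      fun e => z.2.2 (Subtype.ext e)⟩
  have hf : Function.Injective f := by
    rintro ⟨R, ⟨x, hx⟩⟩ ⟨R', ⟨y, hy⟩⟩ e
    have e' : (x : G) = (y : G) := congrArg Subtype.val e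
    obtain rfl : R = R' := by
      by_contra hne
      have h1 : (x : G) ∈ (R : Subgroup G) ⊓ R' := mem_inf.mpr ⟨x.2, by rw [e']; exact y.2⟩
      rw [h.ti hp R R' hne, mem_bot] at h1
      exact hx (Subtype.ext h1)
    obtain rfl : x = y := Subtype.ext e'
    rfl
  refine le_trans (le_of_eq ?_) (Nat.card_le_card_of_injective f hf)
  rw [Nat.card_sigma, Finset.sum_congr rfl (fun R _ => ?_), Finset.sum_const, Finset.card_univ,
    smul_eq_mul, ← Nat.card_eq_fintype_card]
  letI := Fintype.ofFinite (R : Subgroup G)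
  rw [Nat.card_eq_fintype_card, Fintype.card_subtype_compl, Fintype.card_subtype_eq,
    ← Nat.card_eq_fintype_card]
  exact congrArg (· - 1) ((Sylow.card_eq_multiplicity R).trans (Sylow.card_eq_multiplicity P).symm)

theorem Bound.involution_conj (h : Bound G) {p : ℕ} [Fact p.Prime] (hp : p = 3 ∨ p = 5)
    (P : Sylow p G) {u : G} (hu : orderOf u = 2)
    (huN : u ∈ normalizer ((P : Subgroup G) : Set G)) {v : G} (hv : v ∈ P) :
    IsConj u (v * u) := by
  set w := v ^ ((p + 1) / 2) with hw
  have hvp := h.pow_eq_one_of_pgroup hp P.2 hv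
  have hw2 : w * w = v := by
    rw [hw, ← pow_add, show (p + 1) / 2 + (p + 1) / 2 = p + 1 by rcases hp with rfl | rfl <;> rfl,
      pow_succ, hvp, one_mul]
  have huu : u * u = 1 := by rw [← pow_two, ← hu, pow_orderOf_eq_one]
  have h1 : u * w⁻¹ * u = w := by rw [h.inverts hp P hu huN _ (inv_mem (pow_mem hv _)), inv_inv]
  refine isConj_iff.mpr ⟨w, ?_⟩
  calc w * u * w⁻¹ = w * (u * w⁻¹ * u) * u⁻¹ := by group
    _ = v * u := by rw [h1, hw2, inv_eq_of_mul_eq_one_right huu]

/-- Every element of order `p` is a product of at least `|P|` pairs of conjugates of `t`. -/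
theorem Bound.card_pairs_ge (h : Bound G) {p : ℕ} [Fact p.Prime] (hp : p = 3 ∨ p = 5)
    (P : Sylow p G) {t u : G} (hu : orderOf u = 2)
    (huN : u ∈ normalizer ((P : Subgroup G) : Set G)) (htu : IsConj t u) :
    Nat.card {x : G // orderOf x = p} * Nat.card P ≤
      Nat.card {z : G × G // IsConj t z.1 ∧ IsConj t z.2 ∧ orderOf (z.1 * z.2) = p} := by
  have key : ∀ x : {x : G // orderOf x = p}, ∃ g : G, g⁻¹ * (x : G) * g ∈ (P : Subgroup G) := by
    intro x
    have hxp : IsPGroup p (zpowers (x : G)) :=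
      IsPGroup.of_card (n := 1) (by rw [Nat.card_zpowers, x.2, pow_one])
    obtain ⟨R, hR⟩ := hxp.exists_le_sylow
    obtain ⟨g, hg⟩ := MulAction.exists_smul_eq G P R
    have h1 : (x : G) ∈ ((g • P : Sylow p G) : Subgroup G) := hg ▸ hR (mem_zpowers _)
    rw [Sylow.coe_subgroup_smul, mem_pointwise_smul_iff_inv_smul_mem] at h1
    exact ⟨g, by simpa [MulAut.smul_def, MulAut.conj_inv_apply] using h1⟩
  choose g hg using key
  let F : {x : G // orderOf x = p} × (P : Subgroup G) →
      {z : G × G // IsConj t z.1 ∧ IsConj t z.2 ∧ orderOf (z.1 * z.2) = p} := fun z =>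
    ⟨(g z.1 * ((z.2 : G) * u) * (g z.1)⁻¹,
      g z.1 * ((z.2 : G) * u) * (g z.1)⁻¹ * (z.1 : G)), by
      have hc : ∀ y : G, IsConj y (g z.1 * y * (g z.1)⁻¹) := fun y => isConj_iff.mpr ⟨_, rfl⟩
      have huu : u * u = 1 := by rw [← pow_two, ← hu, pow_orderOf_eq_one]
      refine ⟨(htu.trans (h.involution_conj hp P hu huN z.2.2)).trans (hc _), ?_, ?_⟩
      · have hv : (z.2 : G) * u * ((g z.1)⁻¹ * z.1 * g z.1) * u⁻¹ ∈ P :=
          mul_assoc (z.2 : G) u _ ▸ (show (z.2 : G) * (u * ((g z.1)⁻¹ * z.1 * g z.1)) * u⁻¹ ∈ P by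
            rw [mul_assoc]
            exact mul_mem z.2.2 ((mem_normalizer_iff.mp huN _).mp (hg z.1)))
        have h1 := (htu.trans (h.involution_conj hp P hu huN hv)).trans (hc _)
        convert h1 using 1
        group
      · show orderOf (g z.1 * ((z.2 : G) * u) * (g z.1)⁻¹ *
          (g z.1 * ((z.2 : G) * u) * (g z.1)⁻¹ * (z.1 : G))) = p
        have e : g z.1 * ((z.2 : G) * u) * (g z.1)⁻¹ *
            (g z.1 * ((z.2 : G) * u) * (g z.1)⁻¹ * (z.1 : G)) =
            g z.1 * ((z.2 : G) * (u * (z.2 : G) * u)) * (g z.1)⁻¹ * (z.1 : G) := by group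
        rw [e, h.inverts hp P hu huN _ z.2.2]
        simp [z.1.2]⟩
  have hF : Function.Injective F := by
    rintro ⟨x, v⟩ ⟨y, w⟩ e
    have e' := congrArg Subtype.val e
    simp only [F, Prod.mk.injEq] at e'
    obtain ⟨e1, e2⟩ := e'
    rw [← e1, mul_right_inj] at e2
    obtain rfl : x = y := Subtype.ext e2
    simp only [mul_left_inj, mul_right_inj] at e1
    exact Prod.ext rfl (Subtype.ext e1)
  have := Nat.card_le_card_of_injective F hF
  rwa [Nat.card_prod] at this

/-- Exactly `|P|` pairs when `u` is an involution normalizing `P`. -/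
theorem Bound.card_pairs_eq (h : Bound G) {p : ℕ} [Fact p.Prime] (hp : p = 3 ∨ p = 5)
    (P : Sylow p G) {t u : G} (ht : orderOf t = 2) (hu : orderOf u = 2)
    (huN : u ∈ normalizer ((P : Subgroup G) : Set G)) (htu : IsConj t u) {x : G} (hx : x ∈ P)
    (hx1 : x ≠ 1) :
    Nat.card {z : G × G // IsConj t z.1 ∧ IsConj t z.2 ∧ z.1 * z.2 = x} = Nat.card P := by
  have huu : u * u = 1 := by rw [← pow_two, ← hu, pow_orderOf_eq_one]
  have hsq : ∀ {z : G}, IsConj t z → z * z = 1 := by
    intro z hz
    obtain ⟨c, rfl⟩ := isConj_iff.mp hz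
    have htt : t * t = 1 := by rw [← pow_two, ← ht, pow_orderOf_eq_one]
    calc c * t * c⁻¹ * (c * t * c⁻¹) = c * (t * t) * c⁻¹ := by group
      _ = 1 := by rw [htt]; group
  have hord : ∀ {z : G}, IsConj t z → orderOf z = 2 := by
    intro z hz
    obtain ⟨c, rfl⟩ := isConj_iff.mp hz
    rw [← MulAut.conj_apply, MulEquiv.orderOf_eq, ht]
  symm
  refine Nat.card_eq_of_bijective (fun v : (P : Subgroup G) =>
    (⟨((v : G) * u, (v : G) * u * x), htu.trans (h.involution_conj hp P hu huN v.2), ?_, ?_⟩ :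
      {z : G × G // IsConj t z.1 ∧ IsConj t z.2 ∧ z.1 * z.2 = x})) ⟨?_, ?_⟩
  · have hv : (v : G) * (u * x * u⁻¹) ∈ P := mul_mem v.2 ((mem_normalizer_iff.mp huN x).mp hx)
    have h1 := htu.trans (h.involution_conj hp P hu huN hv)
    convert h1 using 1
    group
  · show (v : G) * u * ((v : G) * u * x) = x
    calc (v : G) * u * ((v : G) * u * x) = (v : G) * (u * (v : G) * u) * x := by group
      _ = x := by rw [h.inverts hp P hu huN _ v.2, mul_inv_cancel, one_mul]
  · intro v w e
    have e' : (v : G) * u = (w : G) * u := congrArg (fun z => z.1.1) e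
    exact Subtype.ext (mul_right_cancel e')
  · rintro ⟨⟨a, b⟩, ha, hb, hab⟩
    dsimp only at ha hb hab
    have haa := hsq ha
    have hbb := hsq hb
    have hainv : a * x * a = x⁻¹ := by
      rw [← hab, mul_inv_rev, inv_eq_of_mul_eq_one_right haa, inv_eq_of_mul_eq_one_right hbb,
        ← mul_assoc, haa, one_mul]
    have haN : a ∈ normalizer ((P : Subgroup G) : Set G) := by
      refine h.fusion hp P hx hx1 ?_
      rw [inv_eq_of_mul_eq_one_right haa, hainv]
      exact inv_mem hx
    have hmem : a * u ∈ P := by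
      refine h.centralizer_le hp P hx hx1 (Commute.symm ?_)
      refine commute_mul_of_inverts (h.inverts hp P hu huN x hx) ?_ huu haa
      rw [h.inverts hp P (hord ha) haN _ (inv_mem hx), inv_inv]
    refine ⟨⟨a * u, hmem⟩, Subtype.ext (Prod.ext ?_ ?_)⟩
    · show a * u * u = a
      rw [mul_assoc, huu, mul_one]
    · show a * u * u * x = b
      rw [mul_assoc a u u, huu, mul_one, ← hab, ← mul_assoc, haa, one_mul]

/-- Sum of the two kinds of pairs and the diagonal. -/
theorem card_pairs_le (t : G) (ht : orderOf t = 2) :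
    Nat.card {z : G × G // IsConj t z.1 ∧ IsConj t z.2 ∧ orderOf (z.1 * z.2) = 3} +
      Nat.card {z : G × G // IsConj t z.1 ∧ IsConj t z.2 ∧ orderOf (z.1 * z.2) = 5} +
      Nat.card {x : G // IsConj t x} ≤
    Nat.card {x : G // IsConj t x} * Nat.card {x : G // IsConj t x} := by
  have htt : t * t = 1 := by rw [← pow_two, ← ht, pow_orderOf_eq_one]
  have hsq : ∀ {z : G}, IsConj t z → orderOf (z * z) = 1 := by
    intro z hz
    obtain ⟨c, rfl⟩ := isConj_iff.mp hz
    rw [orderOf_eq_one_iff]
    calc c * t * c⁻¹ * (c * t * c⁻¹) = c * (t * t) * c⁻¹ := by group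
      _ = 1 := by rw [htt]; group
  let K := {x : G // IsConj t x}
  let f : ({z : G × G // IsConj t z.1 ∧ IsConj t z.2 ∧ orderOf (z.1 * z.2) = 3} ⊕
      {z : G × G // IsConj t z.1 ∧ IsConj t z.2 ∧ orderOf (z.1 * z.2) = 5}) ⊕ K → K × K := fun z =>
    match z with
    | .inl (.inl w) => (⟨w.1.1, w.2.1⟩, ⟨w.1.2, w.2.2.1⟩)
    | .inl (.inr w) => (⟨w.1.1, w.2.1⟩, ⟨w.1.2, w.2.2.1⟩)
    | .inr x => (x, x)
  have hf : Function.Injective f := by
    intro z z' e
    have ho : orderOf (((f z).1 : G) * (f z).2) = orderOf (((f z').1 : G) * (f z').2) := by rw [e]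
    rcases z with (⟨⟨a, b⟩, ha, hb, h3⟩ | ⟨⟨a, b⟩, ha, hb, h3⟩) | ⟨x, hx⟩ <;>
      rcases z' with (⟨⟨a', b'⟩, ha', hb', h3'⟩ | ⟨⟨a', b'⟩, ha', hb', h3'⟩) | ⟨x', hx'⟩ <;>
      simp only [f] at ho e <;>
      first
        | (rw [h3, h3'] at ho; omega)
        | (rw [h3, hsq hx'] at ho; omega)
        | (rw [hsq hx, h3'] at ho; omega)
        | (obtain rfl : a = a' := congrArg (fun q => (q.1 : G)) e
           obtain rfl : b = b' := congrArg (fun q => (q.2 : G)) e
           rfl)
        | (obtain rfl : x = x' := congrArg (fun q => (q.1 : G)) e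
           rfl)
  have := Nat.card_le_card_of_injective f hf
  simpa [Nat.card_sum, Nat.card_prod, K] using this

theorem zmod_three_fix : ∀ c : ZMod 3, c ^ 5 = 1 → c = 1 := by decide

theorem zmod_five_fix : ∀ c : ZMod 5, c ^ 3 = 1 → c = 1 := by decide

/-- The Sylow subgroups for a prime dividing the order just once. -/
theorem card_sylow_eq_prime {H : Type*} [Group H] [Finite H] {p : ℕ} [hp : Fact p.Prime]
    (R : Sylow p H) (h1 : p ∣ Nat.card H) (h2 : ¬ p ^ 2 ∣ Nat.card H) : Nat.card R = p := by
  obtain ⟨k, hk⟩ := IsPGroup.iff_card.mp R.2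
  have hd := R.pow_dvd_card_of_pow_dvd_card (n := 1) (by rwa [pow_one])
  rw [pow_one, hk] at hd
  rcases Nat.lt_or_ge k 2 with hlt | hge
  · have hk1 : k = 1 := by
      rcases Nat.eq_zero_or_pos k with rfl | h
      · rw [pow_zero] at hd; exact absurd (Nat.dvd_one.mp hd) hp.out.ne_one
      · omega
    rw [hk, hk1, pow_one]
  · exact absurd ((pow_dvd_pow p hge).trans (hk ▸ Subgroup.card_subgroup_dvd_card _)) h2

/-- A group of order at most sixty and element orders at most five which has order divisible by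
thirty: the involution normalizes subgroups of order three and five. -/
theorem Bound.small_facts {H : Type*} [Group H] [Finite H] (h : Bound H) (hle : Nat.card H ≤ 60)
    (h30 : 30 ∣ Nat.card H) {t : H} (ht : orderOf t = 2) :
    ∀ p : ℕ, (p = 3 ∨ p = 5) → ∃ u x : H, IsConj t u ∧ orderOf x = p ∧ u * x * u = x⁻¹ := by
  haveI : Fact (Nat.Prime 2) := ⟨Nat.prime_two⟩
  haveI : Fact (Nat.Prime 3) := ⟨by norm_num⟩
  haveI : Fact (Nat.Prime 5) := ⟨by norm_num⟩
  obtain ⟨P⟩ : Nonempty (Sylow 3 H) := inferInstance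
  obtain ⟨Q⟩ : Nonempty (Sylow 5 H) := inferInstance
  have hcard : Nat.card H = 30 ∨ Nat.card H = 60 := by
    obtain ⟨c, hc⟩ := h30
    have := Nat.card_pos (α := H)
    omega
  have hP : Nat.card P = 3 := card_sylow_eq_prime P (by omega) (by omega)
  have hQ : Nat.card Q = 5 := card_sylow_eq_prime Q (by omega) (by omega)
  have hn5 := card_sylow_mul Q
  have hn3 := card_sylow_mul P
  rw [hQ] at hn5
  rw [hP] at hn3
  have hm5 := card_sylow_modEq_one 5 H
  have hm3 := card_sylow_modEq_one 3 H
  -- neither normalizer contains elements of the other prime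
  have he : ∀ {p : ℕ} [Fact p.Prime] (R : Sylow p H), Nat.card R = p → ∀ (r : ℕ), (r = 3 ∨ r = 5) →
      (p = 3 ∨ p = 5) → p ≠ r → ¬ r ∣ eN R := by
    intro p _ R hR r hr hp hne hd
    haveI : Fact r.Prime := ⟨by rcases hr with rfl | rfl <;> norm_num⟩
    obtain ⟨y, hy⟩ := exists_prime_orderOf_dvd_card' r
      (hd.trans (Dvd.intro _ (card_normalizer_sylow R).symm))
    rw [← Subgroup.orderOf_coe] at hy
    have h2 := eN_dvd_card R
    haveI : IsCyclic (R : Subgroup H) := isCyclic_of_prime_card hR
    obtain ⟨x, hx⟩ := IsCyclic.exists_generator (α := (R : Subgroup H))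
    have hxo : orderOf (x : H) = p := by
      rw [Subgroup.orderOf_coe, orderOf_eq_card_of_forall_mem_zpowers hx, hR]
    obtain ⟨j, hj⟩ := mem_zpowers_iff.mp (hx ⟨(y : H) * x * (y : H)⁻¹,
      (mem_normalizer_iff.mp y.2 x).mp x.2⟩)
    have hj' : (y : H) * x * (y : H)⁻¹ = (x : H) ^ j := by
      have := congrArg Subtype.val hj
      simpa using this.symm
    -- the automorphism has order dividing both `r` and `p - 1`
    have hiter : ∀ n : ℕ, (y : H) ^ n * x * ((y : H) ^ n)⁻¹ = (x : H) ^ (j ^ n) := by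
      intro n
      induction n with
      | zero => simp
      | succ n ih =>
        rw [pow_succ' (y : H), pow_succ j n, mul_comm (j ^ n), zpow_mul, ← hj', conj_zpow, ← ih]
        group
    have hr1 := hiter r
    rw [← hy, pow_orderOf_eq_one, one_mul, inv_one, mul_one, hy] at hr1
    have hdvd : ((p : ℤ)) ∣ j ^ r - 1 := by
      have e : (x : H) ^ (j ^ r - 1) = 1 := by rw [zpow_sub, zpow_one, ← hr1, mul_inv_cancel]
      rw [← hxo]
      exact orderOf_dvd_iff_zpow_eq_one.mpr e
    have hj1 : ((j : ZMod p) ^ r) = 1 := by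
      have h3 := (ZMod.intCast_zmod_eq_zero_iff_dvd _ p).mpr hdvd
      push_cast at h3
      exact sub_eq_zero.mp h3
    have hj2 : (j : ZMod p) = 1 := by
      rcases hp with rfl | rfl <;> rcases hr with rfl | rfl
      · exact absurd rfl hne
      · exact zmod_three_fix _ hj1
      · exact zmod_five_fix _ hj1
      · exact absurd rfl hne
    have hdvd1 : ((p : ℤ)) ∣ j - 1 := by
      rw [← ZMod.intCast_zmod_eq_zero_iff_dvd]
      push_cast
      rw [hj2, sub_self]
    rw [← hxo, orderOf_dvd_iff_zpow_eq_one, zpow_sub, zpow_one, mul_inv_eq_one, ← hj'] at hdvd1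
    exact h.not_commute_primes hxo hy Fact.out Fact.out hne (mul_inv_eq_iff_eq_mul.mp hdvd1).symm
  have he5 := he Q hQ 3 (Or.inl rfl) (Or.inr rfl) (by norm_num)
  have he3 := he P hP 5 (Or.inr rfl) (Or.inl rfl) (by norm_num)
  -- Sylow numbers
  have hn5' : Nat.card (Sylow 5 H) = 6 := by
    have h3' : ¬ (eN Q) % 3 = 0 := fun e => he5 (Nat.dvd_of_mod_eq_zero e)
    have hdiv : Nat.card (Sylow 5 H) ∣ 12 := by
      have h1 : Nat.card (Sylow 5 H) * eN Q ∣ 12 := by
        rcases hcard with e | e <;> rw [e] at hn5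
        · exact ⟨2, by linarith⟩
        · exact ⟨1, by linarith⟩
      exact (dvd_mul_right _ _).trans h1
    have hle12 := Nat.le_of_dvd (by norm_num) hdiv
    unfold Nat.ModEq at hm5
    interval_cases hn : Nat.card (Sylow 5 H) <;> first | omega | (norm_num at hdiv hm5)
  have hn3' : Nat.card (Sylow 3 H) = 10 := by
    have h5' : ¬ (eN P) % 5 = 0 := fun e => he3 (Nat.dvd_of_mod_eq_zero e)
    have hdiv : Nat.card (Sylow 3 H) ∣ 20 := by
      have h1 : Nat.card (Sylow 3 H) * eN P ∣ 20 := by
        rcases hcard with e | e <;> rw [e] at hn3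
        · exact ⟨2, by linarith⟩
        · exact ⟨1, by linarith⟩
      exact (dvd_mul_right _ _).trans h1
    have hle12 := Nat.le_of_dvd (by norm_num) hdiv
    unfold Nat.ModEq at hm3
    interval_cases hn : Nat.card (Sylow 3 H) <;> first | omega | (norm_num at hdiv hm3)
  letI := Fintype.ofFinite H
  have hc3 := h.card_order_le (Or.inl rfl) P
  have hc5 := h.card_order_le (Or.inr rfl) Q
  rw [hn3', hP] at hc3
  rw [hn5', hQ] at hc5
  rw [Nat.card_eq_fintype_card, Fintype.card_subtype] at hc3 hc5
  have h60 : Nat.card H = 60 := by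
    rcases hcard with e | e
    swap
    · exact e
    exfalso
    have hsub : (Finset.univ.filter fun x : H => orderOf x = 3).card +
        (Finset.univ.filter fun x : H => orderOf x = 5).card ≤ Nat.card H := by
      rw [← Finset.card_union_of_disjoint (Finset.disjoint_filter.mpr fun x _ h1 h2 => by omega),
        Nat.card_eq_fintype_card]
      exact Finset.card_le_univ _
    omega
  rw [hn5', h60] at hn5
  rw [hn3', h60] at hn3
  -- all involutions are conjugate
  have hclass : ∀ u : H, orderOf u = 2 → IsConj t u := by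
    have hsize : ∀ u : H, orderOf u = 2 → 15 ≤ (Finset.univ.filter fun x : H => IsConj u x).card := by
      intro u hu
      have hC : IsPGroup 2 (centralizer ({u} : Set H)) := fun y => ⟨2, Subtype.ext (by
        simpa using h.pow_four_of_commute hu
          ((mem_centralizer_singleton_iff.mp y.2).symm : Commute u y))⟩
      obtain ⟨S, hS⟩ := hC.exists_le_sylow
      have hS4 : Nat.card S = 4 := by
        obtain ⟨k, hk⟩ := IsPGroup.iff_card.mp S.2
        have hd := S.pow_dvd_card_of_pow_dvd_card (n := 2) (h60.symm ▸ by norm_num)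
        have hd' := Subgroup.card_subgroup_dvd_card (S : Subgroup H)
        rw [hk] at hd hd' ⊢
        rw [h60] at hd'
        have hk2 : 2 ≤ k := (Nat.pow_dvd_pow_iff_le_right (by norm_num)).mp hd
        have hk3 : k < 3 := by
          by_contra hc
          have := (pow_dvd_pow 2 (show 3 ≤ k by omega)).trans hd'
          norm_num at this
        obtain rfl : k = 2 := by omega
        norm_num
      have h1 : (Finset.univ.filter fun x : H => IsConj u x).card *
          Nat.card (centralizer ({u} : Set H)) = 60 := by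
        rw [← h60]
        have e1 : (Finset.univ.filter fun x : H => IsConj u x).card =
            Nat.card (MulAction.orbit (ConjAct H) u) := by
          have e : (↑(Finset.univ.filter fun x : H => IsConj u x) : Set H) =
              MulAction.orbit (ConjAct H) u := by
            ext x
            rw [ConjAct.mem_orbit_conjAct, Finset.coe_filter]
            simp only [Finset.mem_univ, true_and, Set.mem_ofPred_eq]
            exact ⟨IsConj.symm, IsConj.symm⟩
          rw [← e]
          exact (Nat.card_eq_finsetCard _).symm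
        have e2 : Nat.card (centralizer ({u} : Set H)) =
            Nat.card (MulAction.stabilizer (ConjAct H) u) := by
          rw [ConjAct.stabilizer_eq_centralizer]
          refine Nat.card_congr (Equiv.subtypeEquiv ConjAct.toConjAct.toEquiv fun x => ?_)
          rw [mem_centralizer_singleton_iff, mem_centralizer_singleton_iff]
          exact ConjAct.toConjAct.injective.eq_iff.symm
        rw [e1, e2, ← Nat.card_prod,
          Nat.card_congr (MulAction.orbitProdStabilizerEquivGroup (ConjAct H) u)]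
        exact Nat.card_congr ConjAct.ofConjAct.toEquiv
      have h2 := Subgroup.card_le_of_le hS
      rw [hS4] at h2
      nlinarith
    intro u hu
    by_contra hne
    have h1 := hsize t ht
    have h2 := hsize u hu
    have hd : ∀ {z y : H}, orderOf z = 2 → IsConj z y → orderOf y = 2 := by
      intro z y hz hc
      obtain ⟨c, rfl⟩ := isConj_iff.mp hc
      rw [← MulAut.conj_apply, MulEquiv.orderOf_eq, hz]
    have hsub : ((Finset.univ.filter fun x : H => IsConj t x) ∪
        (Finset.univ.filter fun x : H => IsConj u x)) ⊆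
        Finset.univ.filter fun x : H => orderOf x = 2 := by
      intro x hx
      simp only [Finset.mem_union, Finset.mem_filter, Finset.mem_univ, true_and] at hx ⊢
      rcases hx with hx | hx
      · exact hd ht hx
      · exact hd hu hx
    have h3 := Finset.card_le_card hsub
    rw [Finset.card_union_of_disjoint (Finset.disjoint_filter.mpr fun x _ ha hb =>
      hne (ha.trans hb.symm))] at h3
    have h4 : (Finset.univ.filter fun x : H => orderOf x = 2).card +
        (Finset.univ.filter fun x : H => orderOf x = 3).card +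
        (Finset.univ.filter fun x : H => orderOf x = 5).card ≤ Nat.card H := by
      rw [← Finset.card_union_of_disjoint (Finset.disjoint_filter.mpr fun x _ ha hb => by omega),
        ← Finset.card_union_of_disjoint ?_, Nat.card_eq_fintype_card]
      · exact Finset.card_le_univ _
      · simp only [Finset.disjoint_union_left, Finset.disjoint_filter]
        exact ⟨fun x _ ha hb => by omega, fun x _ ha hb => by omega⟩
    omega
  have main : ∀ {p : ℕ} [Fact p.Prime] (R : Sylow p H), (p = 3 ∨ p = 5) → Nat.card R = p →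
      2 ∣ eN R → ∃ u x : H, IsConj t u ∧ orderOf x = p ∧ u * x * u = x⁻¹ := by
    intro p _ R hp hR h2
    obtain ⟨u, hu⟩ := exists_prime_orderOf_dvd_card' 2
      (h2.trans (Dvd.intro _ (card_normalizer_sylow R).symm))
    rw [← Subgroup.orderOf_coe] at hu
    obtain ⟨x, hx⟩ := exists_prime_orderOf_dvd_card' (G := (R : Subgroup H)) p
      (dvd_of_eq hR.symm)
    rw [← Subgroup.orderOf_coe] at hx
    exact ⟨u, x, hclass u hu, hx, h.inverts hp R hu u.2 x x.2⟩
  rintro p (rfl | rfl)
  · exact main P (Or.inl rfl) hP (by omega)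
  · exact main Q (Or.inr rfl) hQ (by omega)

/-- A triple with orders two, three and five puts the class of the involution in both normalizers. -/
theorem Bound.exists_conj_normalizer (h : Bound G) {t t' w : G} (ht : orderOf t = 2)
    (ht' : IsConj t t') (hw : orderOf w = 3) (hy : orderOf (t' * w) = 5) {p : ℕ} [Fact p.Prime]
    (hp : p = 3 ∨ p = 5) (P : Sylow p G) :
    ∃ u : G, IsConj t u ∧ orderOf u = 2 ∧ u ∈ normalizer ((P : Subgroup G) : Set G) := by
  have ht2 : orderOf t' = 2 := by
    obtain ⟨c, rfl⟩ := isConj_iff.mp ht'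
    rw [← MulAut.conj_apply, MulEquiv.orderOf_eq, ht]
  have htt : t' * t' = 1 := by rw [← pow_two, ← ht2, pow_orderOf_eq_one]
  have hw3 : w ^ 3 = 1 := by rw [← hw, pow_orderOf_eq_one]
  set b := w * t' with hb
  have hb5 : orderOf b = 5 := by
    rw [hb, show w * t' = t'⁻¹ * (t' * w) * t' by group]
    have : orderOf (MulAut.conj t'⁻¹ (t' * w)) = 5 := by rw [MulEquiv.orderOf_eq, hy]
    simpa [MulAut.conj_apply] using this
  set H : Subgroup G := closure {w⁻¹, b} with hH
  have hwH : w⁻¹ ∈ H := subset_closure (Set.mem_insert _ _)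
  have hbH : b ∈ H := subset_closure (Set.mem_insert_of_mem _ rfl)
  have htH : t' ∈ H := by
    have := mul_mem hwH hbH
    rwa [hb, inv_mul_cancel_left] at this
  have hgen : closure ({⟨w⁻¹, hwH⟩, ⟨b, hbH⟩} : Set H) = ⊤ := by
    rw [← closure_closure_coe_preimage (k := ({w⁻¹, b} : Set G))]
    congr 1
    ext ⟨z, hz⟩
    simp [Subtype.ext_iff]
  obtain ⟨-, hle⟩ := Recog.Icosahedral.card_le (G := H) (z := 1) hgen
    (Subtype.ext (by simpa using congrArg (·⁻¹) hw3))
    (Subtype.ext (by simpa [← hb5] using pow_orderOf_eq_one b))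
    (Subtype.ext (by simpa [hb, pow_two] using htt)) (one_mem _) one_pos (one_pow 1)
  have h30 : 30 ∣ Nat.card H := by
    have d2 : 2 ∣ Nat.card H := ht2 ▸ H.orderOf_dvd_natCard htH
    have d3 : 3 ∣ Nat.card H := by
      have := H.orderOf_dvd_natCard hwH
      rwa [orderOf_inv, hw] at this
    have d5 : 5 ∣ Nat.card H := hb5 ▸ H.orderOf_dvd_natCard hbH
    omega
  obtain ⟨u, x, hu, hx, hux⟩ := (h.subgroup H).small_facts (by simpa using hle) h30
    (t := ⟨t', htH⟩) (by rw [Subgroup.orderOf_mk, ht2]) p hp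
  have hu' : IsConj t (u : G) := ht'.trans (MonoidHom.map_isConj H.subtype hu)
  have hu2 : orderOf (u : G) = 2 := by
    obtain ⟨c, hc⟩ := isConj_iff.mp hu'
    rw [← hc, ← MulAut.conj_apply, MulEquiv.orderOf_eq, ht]
  rw [← Subgroup.orderOf_coe] at hx
  have hxp : IsPGroup p (zpowers (x : G)) :=
    IsPGroup.of_card (n := 1) (by rw [Nat.card_zpowers, hx, pow_one])
  obtain ⟨R, hR⟩ := hxp.exists_le_sylow
  have hx1 : (x : G) ≠ 1 := fun e => by
    rw [e, orderOf_one] at hx; exact (Fact.out : p.Prime).ne_one hx.symm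
  have huu : (u : G) * u = 1 := by rw [← pow_two, ← hu2, pow_orderOf_eq_one]
  have huR : (u : G) ∈ normalizer ((R : Subgroup G) : Set G) := by
    refine h.fusion hp R (hR (mem_zpowers _)) hx1 ?_
    rw [inv_eq_of_mul_eq_one_right huu]
    have := congrArg Subtype.val hux
    simp only [Subgroup.coe_mul, Subgroup.coe_inv] at this
    rw [this]
    exact inv_mem (hR (mem_zpowers _))
  obtain ⟨g, hg⟩ := MulAction.exists_smul_eq G P R
  refine ⟨g⁻¹ * u * g, hu'.trans (isConj_iff.mpr ⟨g⁻¹, by rw [inv_inv]⟩), ?_, ?_⟩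
  · have : orderOf (MulAut.conj g⁻¹ (u : G)) = 2 := by rw [MulEquiv.orderOf_eq, hu2]
    simpa [MulAut.conj_apply] using this
  · refine Sylow.smul_eq_iff_mem_normalizer.mp ?_
    rw [mul_smul, mul_smul, hg, Sylow.smul_eq_iff_mem_normalizer.mpr huR, ← hg, inv_smul_smul]

end Cfsg.Agent.SpecFive
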