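import Cfsg.Agent.SpecFive.Characters
import Cfsg.Agent.SpecFive.Pairs
import Cfsg.Agent.SpecFive.Arith
import Cfsg.Agent.S0496
import Mathlib.GroupTheory.Solvable

/-!
# Simple groups with element orders at most five have order 60 or 360
-/

set_option autoImplicit false
set_option linter.unusedSectionVars false
set_option linter.style.haveILetI false

namespace Cfsg.Agent.SpecFive

open Subgroup
open scoped Classical

universe u

variable {G : Type u} [Group G] [Finite G]

/-- All three primes divide the order of a non-abelian simple group with orders at most five. -/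
theorem Bound.dvd_card [IsSimpleGroup G] (hG : ¬ IsMulCommutative G) (h : Bound G) {r : ℕ}
    (hr : r = 2 ∨ r = 3 ∨ r = 5) : r ∣ Nat.card G := by
  by_contra hnd
  have hns : ¬ Group.IsSolvable G := fun hs =>
    hG ⟨⟨fun a b => IsSimpleGroup.comm_iff_isSolvable.mpr hs a b⟩⟩
  obtain ⟨p, q, hp, hq, hpq⟩ : ∃ p q : ℕ, p.Prime ∧ q.Prime ∧
      ∀ x : ℕ, x = 2 ∨ x = 3 ∨ x = 5 → x ≠ r → x = p ∨ x = q := by
    rcases hr with rfl | rfl | rfl
    · exact ⟨3, 5, by norm_num, by norm_num, fun x hx hne => by omega⟩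
    · exact ⟨2, 5, by norm_num, by norm_num, fun x hx hne => by omega⟩
    · exact ⟨2, 3, by norm_num, by norm_num, fun x hx hne => by omega⟩
  exact hns (Char.solvable_of_card_eq_pow_mul_pow p q hp hq (Nat.card G) rfl fun x hx hxd =>
    hpq x (h.prime_dvd hx hxd) fun e => hnd (e ▸ hxd))

/-- The parts of the order. -/
theorem Bound.card_eq_prod (h : Bound G) [Fact (Nat.Prime 2)] [Fact (Nat.Prime 3)]
    [Fact (Nat.Prime 5)] (S : Sylow 2 G) (P : Sylow 3 G) (Q : Sylow 5 G) :
    Nat.card G = Nat.card S * Nat.card P * Nat.card Q := by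
  obtain ⟨i, hi⟩ := IsPGroup.iff_card.mp S.2
  obtain ⟨j, hj⟩ := IsPGroup.iff_card.mp P.2
  obtain ⟨k, hk⟩ := IsPGroup.iff_card.mp Q.2
  have hd : Nat.card S * Nat.card P * Nat.card Q ∣ Nat.card G := by
    refine Nat.Coprime.mul_dvd_of_dvd_of_dvd ?_ (Nat.Coprime.mul_dvd_of_dvd_of_dvd ?_
      (Subgroup.card_subgroup_dvd_card _) (Subgroup.card_subgroup_dvd_card _))
      (Subgroup.card_subgroup_dvd_card _)
    · rw [hi, hj, hk]
      exact Nat.Coprime.mul_left (Nat.Coprime.pow i k (by decide)) (Nat.Coprime.pow j k (by decide))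
    · rw [hi, hj]
      exact Nat.Coprime.pow i j (by decide)
  obtain ⟨c, hc⟩ := hd
  by_cases hc1 : c = 1
  · rw [hc, hc1, mul_one]
  exfalso
  obtain ⟨r, hr, hrc⟩ := Nat.exists_prime_and_dvd hc1
  have hrG : r ∣ Nat.card G := hc ▸ dvd_mul_of_dvd_right hrc _
  have key : ∀ {x : ℕ} [Fact x.Prime] (R : Sylow x G) (m : ℕ),
      Nat.card G = Nat.card R * m → ¬ x ∣ m := by
    intro x _ R m hm hx
    have h1 := (R : Subgroup G).card_mul_index
    rw [hm] at h1
    exact R.not_dvd_index (Nat.eq_of_mul_eq_mul_left Nat.card_pos h1 ▸ hx)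
  rcases h.prime_dvd hr hrG with rfl | rfl | rfl
  · exact key S (Nat.card P * Nat.card Q * c) (by rw [hc]; ring) (dvd_mul_of_dvd_right hrc _)
  · exact key P (Nat.card S * Nat.card Q * c) (by rw [hc]; ring) (dvd_mul_of_dvd_right hrc _)
  · exact key Q (Nat.card S * Nat.card P * c) (by rw [hc]; ring) (dvd_mul_of_dvd_right hrc _)

/-- An involution with a class of size the odd part of the order. -/
theorem Bound.exists_central_involution (h : Bound G) [Fact (Nat.Prime 2)] (S : Sylow 2 G)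
    (hS : (S : Subgroup G) ≠ ⊥) :
    ∃ t : G, orderOf t = 2 ∧ Nat.card {x : G // IsConj t x} * Nat.card S = Nat.card G ∧
      (centralizer ({t} : Set G)).index * Nat.card S = Nat.card G := by
  letI := Fintype.ofFinite G
  haveI : Nontrivial (S : Subgroup G) := (nontrivial_iff_ne_bot _).mpr hS
  haveI := S.2.center_nontrivial
  obtain ⟨z, hz⟩ := exists_prime_orderOf_dvd_card' (G := center (S : Subgroup G)) 2 (by
    obtain ⟨k, hk⟩ := IsPGroup.iff_card.mp (S.2.to_subgroup (center (S : Subgroup G)))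
    rw [hk]
    refine dvd_pow_self 2 fun e => ?_
    have h1 := Finite.one_lt_card (α := center (S : Subgroup G))
    rw [hk, e, pow_zero] at h1
    omega)
  set t : G := ((z : (S : Subgroup G)) : G)
  have ht : orderOf t = 2 := by rw [Subgroup.orderOf_coe, Subgroup.orderOf_coe, hz]
  have hle : (S : Subgroup G) ≤ centralizer ({t} : Set G) := fun x hx => by
    rw [mem_centralizer_singleton_iff]
    exact congrArg Subtype.val (mem_center_iff.mp z.2 ⟨x, hx⟩)
  have hC : IsPGroup 2 (centralizer ({t} : Set G)) := fun y => ⟨2, Subtype.ext (by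
    simpa using h.pow_four_of_commute ht
      ((mem_centralizer_singleton_iff.mp y.2).symm : Commute t y))⟩
  have hCS : centralizer ({t} : Set G) = (S : Subgroup G) := S.3 hC hle
  refine ⟨t, ht, ?_, ?_⟩
  · have h1 := Char.card_isConj_mul_card_centralizer t
    rw [hCS] at h1
    rw [Nat.card_eq_fintype_card, Fintype.card_subtype]
    convert h1 using 4
  · rw [hCS, Subgroup.index_mul_card]

/-- The data at one odd prime. -/
theorem Bound.side [IsSimpleGroup G] (hG : ¬ IsMulCommutative G) (h : Bound G) {p : ℕ}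
    [Fact p.Prime] (hp : p = 3 ∨ p = 5) (P : Sylow p G) {t t' w : G} (ht : orderOf t = 2)
    (ht' : IsConj t t') (hw : orderOf w = 3) (hy : orderOf (t' * w) = 5) :
    ∃ m : ℕ, (eN P = 2 ∨ eN P = 4 ∨ eN P = 8) ∧ eN P ∣ Nat.card P - 1 ∧
      Nat.card (Sylow p G) = Nat.card P * m + 1 ∧
      (∃ u : G, IsConj t u ∧ orderOf u = 2 ∧ u ∈ normalizer ((P : Subgroup G) : Set G)) := by
  letI := Fintype.ofFinite G
  obtain ⟨u, hu, hu2, huN⟩ := h.exists_conj_normalizer ht ht' hw hy hp P
  have hP : (P : Subgroup G) ≠ ⊥ := P.ne_bot_of_dvd_card (h.dvd_card hG (by tauto))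
  obtain ⟨m, hm⟩ := h.sylow_count_mod hp P
  refine ⟨m, ?_, h.eN_dvd_sub_one hp P (h.sylow_comm hp P hu2 huN),
    by have := Nat.card_pos (α := Sylow p G); omega, u, hu, hu2, huN⟩
  have h1 := h.eN_cases hp P hP
  have h2 := h.eN_ne_one hG hp P hP
  have h3 : 2 ∣ eN P := by
    have h4 : 2 ∣ Nat.card (normalizer ((P : Subgroup G) : Set G)) :=
      hu2 ▸ Subgroup.orderOf_dvd_natCard _ huN
    rw [card_normalizer_sylow] at h4
    rcases Nat.prime_two.dvd_mul.mp h4 with h5 | h5
    · exact h5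
    · obtain ⟨i, hi⟩ := IsPGroup.iff_card.mp P.2
      rw [hi] at h5
      have := Nat.prime_two.dvd_of_dvd_pow h5
      rcases hp with rfl | rfl <;> omega
  simp only [Finset.mem_insert, Finset.mem_singleton] at h1
  rcases hp with rfl | rfl <;> omega

/-- The order is at most `1092`. -/
theorem Bound.card_le [IsSimpleGroup G] (hG : ¬ IsMulCommutative G) (h : Bound G) :
    Nat.card G ≤ 1092 := by
  letI := Fintype.ofFinite G
  haveI : Fact (Nat.Prime 2) := ⟨Nat.prime_two⟩
  haveI : Fact (Nat.Prime 3) := ⟨by norm_num⟩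
  haveI : Fact (Nat.Prime 5) := ⟨by norm_num⟩
  obtain ⟨S⟩ : Nonempty (Sylow 2 G) := inferInstance
  obtain ⟨P⟩ : Nonempty (Sylow 3 G) := inferInstance
  obtain ⟨Q⟩ : Nonempty (Sylow 5 G) := inferInstance
  have hS := S.ne_bot_of_dvd_card (h.dvd_card hG (Or.inl rfl))
  have hP := P.ne_bot_of_dvd_card (h.dvd_card hG (Or.inr (Or.inl rfl)))
  have hQ := Q.ne_bot_of_dvd_card (h.dvd_card hG (Or.inr (Or.inr rfl)))
  have hg := h.card_eq_prod S P Q
  obtain ⟨k, hk⟩ := IsPGroup.iff_card.mp S.2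
  obtain ⟨i, hi⟩ := IsPGroup.iff_card.mp P.2
  obtain ⟨j, hj⟩ := IsPGroup.iff_card.mp Q.2
  have hpos : ∀ {r n : ℕ} {H : Subgroup G}, H ≠ ⊥ → Nat.card H = r ^ n → 0 < n := by
    intro r n H hH e
    refine Nat.pos_of_ne_zero fun e0 => hH (Subgroup.card_eq_one.mp ?_)
    rw [e, e0, pow_zero]
  have hk0 := hpos hS hk
  have hi0 := hpos hP hi
  have hj0 := hpos hQ hj
  obtain ⟨t, ht, hclass, hidx⟩ := h.exists_central_involution S hS
  set s := Nat.card S with hsdef
  set a := Nat.card P with hadef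
  set b := Nat.card Q with hbdef
  have hcl : Nat.card {x : G // IsConj t x} = a * b :=
    Nat.eq_of_mul_eq_mul_right (show 0 < s from Nat.card_pos)
      (by rw [hclass, hg]; ring)
  have hidx' : (centralizer ({t} : Set G)).index = a * b :=
    Nat.eq_of_mul_eq_mul_right (show 0 < s from Nat.card_pos) (by rw [hidx, hg]; ring)
  have hodd : Odd (centralizer ({t} : Set G)).index := by
    rw [hidx', hi, hj]
    exact (Odd.pow (by decide)).mul (Odd.pow (by decide))
  obtain ⟨t', w, ht', hw, hy⟩ := h.exists_triple hG P Q hP hQ ht hodd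
  obtain ⟨m3, he, hea, hn3, u3, hu3, hu3o, hu3N⟩ := h.side hG (Or.inl rfl) P ht ht' hw hy
  obtain ⟨m5, hf, hfb, hn5, u5, hu5, hu5o, hu5N⟩ := h.side hG (Or.inr rfl) Q ht ht' hw hy
  rw [← hadef] at hea hn3
  rw [← hbdef] at hfb hn5
  have hN3 := card_sylow_mul P
  have hN5 := card_sylow_mul Q
  rw [← hadef, hg] at hN3
  rw [← hbdef, hg] at hN5
  have e3 : s * b = eN P * (a * m3 + 1) := by
    apply Nat.eq_of_mul_eq_mul_right (show 0 < a from Nat.card_pos)
    rw [← hn3]; linear_combination -hN3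
  have e5 : s * a = eN Q * (b * m5 + 1) := by
    apply Nat.eq_of_mul_eq_mul_right (show 0 < b from Nat.card_pos)
    rw [← hn5]; linear_combination -hN5
  have hgpos : 0 < Nat.card G := Nat.card_pos
  rw [hg]
  by_cases he2 : eN P = 2
  · obtain ⟨d, D, z, hd1, hD1, hd, hD, hpd, hpD, hcons, hz, hz', heq⟩ :=
      h.case_two hG (Or.inl rfl) P hP he2 ht hcl
        fun x hx hx1 => h.card_pairs_eq (Or.inl rfl) P ht hu3o hu3N hu3 hx hx1
    have hred : ∀ {m : ℕ}, m ∣ Nat.card G → ¬ 3 ∣ m → m ∣ 2 ^ k * 5 ^ j := by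
      intro m hm h3
      rw [hg, hk, hi, hj, show 2 ^ k * 3 ^ i * 5 ^ j = 3 ^ i * (2 ^ k * 5 ^ j) by ring] at hm
      exact ((((Fact.out : (3 : ℕ).Prime).coprime_iff_not_dvd.mpr h3).symm).pow_right
        i).dvd_of_dvd_mul_left hm
    rw [← hadef, hg] at heq
    have heq' : s * d * D = b * z ^ 2 := by
      have hab : 0 < a * a * b := Nat.mul_pos (Nat.mul_pos Nat.card_pos Nat.card_pos) Nat.card_pos
      apply Nat.eq_of_mul_eq_mul_left hab
      linear_combination heq
    rw [hk, hj] at heq' e3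
    rw [hk, hi, hj]
    refine size_three (n := a * m3 + 1) hj0 hk0 hd1 hD1 (hred hd hpd) (hred hD hpD) hcons hz hz'
      heq' (by rw [he2] at e3; omega) ?_
    rw [Nat.add_sub_cancel, ← hi]
    exact dvd_mul_right _ _
  by_cases hf2 : eN Q = 2
  · obtain ⟨d, D, z, hd1, hD1, hd, hD, hpd, hpD, hcons, hz, hz', heq⟩ :=
      h.case_two hG (Or.inr rfl) Q hQ hf2 ht hcl
        fun x hx hx1 => h.card_pairs_eq (Or.inr rfl) Q ht hu5o hu5N hu5 hx hx1
    have hred : ∀ {m : ℕ}, m ∣ Nat.card G → ¬ 5 ∣ m → m ∣ 2 ^ k * 3 ^ i := by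
      intro m hm h3
      rw [hg, hk, hi, hj] at hm
      exact ((((Fact.out : (5 : ℕ).Prime).coprime_iff_not_dvd.mpr h3).symm).pow_right
        j).dvd_of_dvd_mul_right hm
    rw [← hbdef, hg] at heq
    have heq' : s * d * D = a * z ^ 2 := by
      have hab : 0 < a * b * b := Nat.mul_pos (Nat.mul_pos Nat.card_pos Nat.card_pos) Nat.card_pos
      apply Nat.eq_of_mul_eq_mul_left hab
      linear_combination heq
    rw [hk, hi] at heq' e5
    rw [hk, hi, hj]
    refine size_five (n := b * m5 + 1) hi0 hj0 hk0 hd1 hD1 (hred hd hpd) (hred hD hpD) hcons hz hz'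
      heq' (by rw [hf2] at e5; omega) ?_
    rw [Nat.add_sub_cancel, ← hj]
    exact dvd_mul_right _ _
  have he' : eN P = 4 ∨ eN P = 8 := he.resolve_left he2
  have hf' : eN Q = 4 ∨ eN Q = 8 := hf.resolve_left hf2
  have hdvd2 : ∀ {e : ℕ}, (e = 4 ∨ e = 8) → e ∣ Nat.card G → e ∣ s := by
    intro e he'' hd
    rw [hg, hi, hj, mul_assoc] at hd
    have hco : e.Coprime (3 ^ i * 5 ^ j) := by
      rcases he'' with rfl | rfl
      · exact Nat.Coprime.mul_right (Nat.Coprime.pow_right i (by decide))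
          (Nat.Coprime.pow_right j (by decide))
      · exact Nat.Coprime.mul_right (Nat.Coprime.pow_right i (by decide))
          (Nat.Coprime.pow_right j (by decide))
    exact hco.dvd_of_dvd_mul_right hd
  refine size_large ⟨i, hi0, hi⟩ ⟨j, hj0, hj⟩ ⟨k, hk⟩ he' hf' (hdvd2 he' (eN_dvd_card P))
    (hdvd2 hf' (eN_dvd_card Q)) hea e3 e5 ?_
  have c3 := h.card_pairs_ge (Or.inl rfl) P hu3o hu3N hu3
  have c5 := h.card_pairs_ge (Or.inr rfl) Q hu5o hu5N hu5
  have o3 := h.card_order_le (Or.inl rfl) P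
  have o5 := h.card_order_le (Or.inr rfl) Q
  have ct := card_pairs_le t ht
  rw [hcl] at ct
  rw [← hadef] at c3 o3
  rw [← hbdef] at c5 o5
  rw [hn3] at o3
  rw [hn5] at o5
  have g3 := le_trans (Nat.mul_le_mul_right a o3) c3
  have g5 := le_trans (Nat.mul_le_mul_right b o5) c5
  have hsum : (a * m3 + 1) * (a - 1) * a + (b * m5 + 1) * (b - 1) * b + a * b ≤ a * b * (a * b) :=
    le_trans (by omega) ct
  have hab : 0 < a * b := Nat.mul_pos Nat.card_pos Nat.card_pos
  refine Nat.le_of_mul_le_mul_left ?_ hab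
  calc a * b * (s * (eN Q * (a - 1) + eN P * (b - 1)) + eN P * eN Q)
      = (s * b) * (eN Q * ((a - 1) * a)) + (s * a) * (eN P * ((b - 1) * b)) +
          eN P * eN Q * (a * b) := by ring
    _ = eN P * eN Q * ((a * m3 + 1) * (a - 1) * a + (b * m5 + 1) * (b - 1) * b + a * b) := by
        rw [e3, e5]; ring
    _ ≤ eN P * eN Q * (a * b * (a * b)) := Nat.mul_le_mul_left _ hsum
    _ = a * b * (eN P * eN Q * (a * b)) := by ring

/-- Simple groups with element orders at most five have order `60` or `360`. -/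
theorem Bound.card_simple [IsSimpleGroup G] (hG : ¬ IsMulCommutative G) (h : Bound G) :
    Nat.card G = 60 ∨ Nat.card G = 360 := by
  have hn : ∀ r : ℕ, r.Prime → r ≠ 2 → r ≠ 3 → r ≠ 5 → ¬ r ∣ Nat.card G := fun r hr h2 h3 h5 hd => by
    rcases h.prime_dvd hr hd with e | e | e <;> contradiction
  have h7 := hn 7 (by norm_num) (by norm_num) (by norm_num) (by norm_num)
  have h11 := hn 11 (by norm_num) (by norm_num) (by norm_num) (by norm_num)
  rcases S0496.result hG (h.card_le hG) with e | e | e | e | e | e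
  · exact Or.inl e
  · omega
  · exact Or.inr e
  · omega
  · omega
  · omega

end Cfsg.Agent.SpecFive
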